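import Mathlib
import Cfsg.Agent.Lib.OrePlus.Model

/-!
# The minus-type orthogonal group in coordinates `(x, z, y)`

`Q = x · y + Q₀ z` with `Q₀` an anisotropic binary form. The unipotent elements, the Levi elements.
-/

set_option autoImplicit false
set_option linter.unusedSectionVars false
set_option linter.unusedSimpArgs false
set_option linter.unusedVariables false

namespace Cfsg.Agent.Lib.OreMinus

open Matrix QuadraticMap Module
open Cfsg.Agent.Lib.Classical.Orth.Basic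
open Cfsg.Agent.Lib.Classical.Orth.Models
open Cfsg.Agent.Lib.Classical.Orth.Adjust
open Cfsg.Agent.Lib.Classical.Orth.Levi
open Cfsg.Agent.Lib.Classical.Orth.Sum
open Cfsg.Agent.Lib.OreOmega (IsAltM isAltM_of_entries)

variable {F : Type*} [Field F] {m : ℕ}

/-- The index type. -/
abbrev IM (m : ℕ) := (Fin m ⊕ Fin m) ⊕ Fin 2

/-- The space. -/
abbrev VM (m : ℕ) (F : Type*) := IM m → F

/-- The anisotropic plane. -/
abbrev W2 (F : Type*) := Fin 2 → F

/-- The vector with coordinates `(x, z, y)`. -/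
def mkM (x : Fin m → F) (z : W2 F) (y : Fin m → F) : VM m F := Sum.elim (Sum.elim x y) z

/-- Coordinates. -/
def xc (v : VM m F) : Fin m → F := fun i => v (Sum.inl (Sum.inl i))
/-- Coordinates. -/
def yc (v : VM m F) : Fin m → F := fun i => v (Sum.inl (Sum.inr i))
/-- Coordinates. -/
def zc (v : VM m F) : W2 F := fun i => v (Sum.inr i)

@[simp] theorem xc_mkM (x : Fin m → F) (z : W2 F) (y : Fin m → F) : xc (mkM x z y) = x := rfl
@[simp] theorem yc_mkM (x : Fin m → F) (z : W2 F) (y : Fin m → F) : yc (mkM x z y) = y := rfl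
@[simp] theorem zc_mkM (x : Fin m → F) (z : W2 F) (y : Fin m → F) : zc (mkM x z y) = z := rfl

theorem mkM_eta (v : VM m F) : mkM (xc v) (zc v) (yc v) = v := by
  ext k
  rcases k with (i | i) | i <;> rfl

theorem vext {a b : VM m F} (h1 : xc a = xc b) (h2 : zc a = zc b) (h3 : yc a = yc b) : a = b := by
  rw [← mkM_eta a, ← mkM_eta b, h1, h2, h3]

@[simp] theorem xc_add (a b : VM m F) : xc (a + b) = xc a + xc b := rfl
@[simp] theorem yc_add (a b : VM m F) : yc (a + b) = yc a + yc b := rfl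
@[simp] theorem zc_add (a b : VM m F) : zc (a + b) = zc a + zc b := rfl
@[simp] theorem xc_smul (t : F) (a : VM m F) : xc (t • a) = t • xc a := rfl
@[simp] theorem yc_smul (t : F) (a : VM m F) : yc (t • a) = t • yc a := rfl
@[simp] theorem zc_smul (t : F) (a : VM m F) : zc (t • a) = t • zc a := rfl
@[simp] theorem xc_sub (a b : VM m F) : xc (a - b) = xc a - xc b := rfl
@[simp] theorem yc_sub (a b : VM m F) : yc (a - b) = yc a - yc b := rfl
@[simp] theorem zc_sub (a b : VM m F) : zc (a - b) = zc a - zc b := rfl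
@[simp] theorem xc_neg (a : VM m F) : xc (- a) = - xc a := rfl
@[simp] theorem yc_neg (a : VM m F) : yc (- a) = - yc a := rfl
@[simp] theorem zc_neg (a : VM m F) : zc (- a) = - zc a := rfl
@[simp] theorem xc_zero : xc (0 : VM m F) = 0 := rfl
@[simp] theorem yc_zero : yc (0 : VM m F) = 0 := rfl
@[simp] theorem zc_zero : zc (0 : VM m F) = 0 := rfl

theorem mkM_add (x x' : Fin m → F) (z z' : W2 F) (y y' : Fin m → F) :
    mkM x z y + mkM x' z' y' = mkM (x + x') (z + z') (y + y') := by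
  apply vext <;> rfl

theorem mkM_smul (t : F) (x : Fin m → F) (z : W2 F) (y : Fin m → F) :
    t • mkM x z y = mkM (t • x) (t • z) (t • y) := by
  apply vext <;> rfl

theorem mkM_zero : mkM (0 : Fin m → F) 0 0 = 0 := by
  apply vext <;> rfl

theorem split3 (v : VM m F) : v = mkM (xc v) 0 0 + mkM 0 (zc v) 0 + mkM 0 0 (yc v) := by
  apply vext
  · show xc v = xc v + 0 + 0
    simp
  · show zc v = 0 + zc v + 0
    simp
  · show yc v = 0 + 0 + yc v
    simp

section Form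

variable (Q₀ : QuadraticForm F (W2 F))

/-- The form. -/
noncomputable abbrev QM (m : ℕ) : QuadraticForm F (VM m F) := sumForm (plusForm m F) Q₀

theorem QM_apply (v : VM m F) : QM Q₀ m v = xc v ⬝ᵥ yc v + Q₀ (zc v) := by
  rw [sumForm_apply]
  congr 1
  exact Cfsg.Agent.Lib.OrePlus.QP_apply _

theorem QM_mkM (x : Fin m → F) (z : W2 F) (y : Fin m → F) : QM Q₀ m (mkM x z y) = x ⬝ᵥ y + Q₀ z :=
  QM_apply Q₀ _

theorem polarM_apply (a b : VM m F) :
    polar (⇑(QM Q₀ m)) a b = xc a ⬝ᵥ yc b + xc b ⬝ᵥ yc a + polar (⇑Q₀) (zc a) (zc b) := by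
  rw [polar_sumForm]
  congr 1
  exact Cfsg.Agent.Lib.OrePlus.polarP_apply _ _

theorem polarM_mkM (x x' : Fin m → F) (z z' : W2 F) (y y' : Fin m → F) :
    polar (⇑(QM Q₀ m)) (mkM x z y) (mkM x' z' y') = x ⬝ᵥ y' + x' ⬝ᵥ y + polar (⇑Q₀) z z' :=
  polarM_apply Q₀ _ _

/-- The group. -/
abbrev OM (m : ℕ) := ↥(Cfsg.isometryGroup F (⇑(QM Q₀ m)))

/-- The group of the plane. -/
abbrev O2 := ↥(Cfsg.isometryGroup F (⇑Q₀))

end Form

/-- The hypotheses on the plane. -/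
structure Aniso (Q₀ : QuadraticForm F (W2 F)) : Prop where
  ani : ∀ z, Q₀ z = 0 → z = 0
  nd : (polarBilin Q₀).Nondegenerate

variable {Q₀ : QuadraticForm F (W2 F)}

theorem QM_nondegenerate (hQ : Aniso Q₀) : (polarBilin (QM Q₀ m)).Nondegenerate :=
  sumForm_nondegenerate (plusForm_nondegenerate m) hQ.nd

theorem injective_of_QM (hQ : Aniso Q₀) (f : VM m F →ₗ[F] VM m F)
    (hf : ∀ v, QM Q₀ m (f v) = QM Q₀ m v) : Function.Injective f := by
  intro a b hab
  have hnd := QM_nondegenerate (m := m) hQ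
  have hpol : ∀ v w, polar (⇑(QM Q₀ m)) (f v) (f w) = polar (⇑(QM Q₀ m)) v w := by
    intro v w
    simp only [polar]
    rw [← map_add, hf, hf, hf]
  rw [← sub_eq_zero]
  apply hnd.1
  intro w
  rw [polarBilin_apply_apply, ← hpol, map_sub, hab, sub_self]
  exact polar_zero_left (QM Q₀ m) _

/-- An isometry from a linear map preserving the form. -/
noncomputable def isoOfLin (hQ : Aniso Q₀) (f : VM m F →ₗ[F] VM m F)
    (hf : ∀ v, QM Q₀ m (f v) = QM Q₀ m v) : OM Q₀ m :=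
  isoOfEquiv (Q := QM Q₀ m) (LinearEquiv.ofInjectiveEndo f (injective_of_QM hQ f hf)) (fun v => hf v)

theorem act_isoOfLin (hQ : Aniso Q₀) (f : VM m F →ₗ[F] VM m F)
    (hf : ∀ v, QM Q₀ m (f v) = QM Q₀ m v) (v : VM m F) : act (isoOfLin hQ f hf) v = f v :=
  act_isoOfEquiv _ _ v

section Adj

/-- A column. -/
def cJ (c : Matrix (Fin 2) (Fin m) F) (j : Fin m) : W2 F := fun i => c i j

theorem mulVec_eq_sum (c : Matrix (Fin 2) (Fin m) F) (y : Fin m → F) : c *ᵥ y = ∑ j, y j • cJ c j := by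
  ext i
  simp [mulVec, dotProduct, cJ, Finset.sum_apply, mul_comm]

variable (Q₀) in
/-- The adjoint. -/
def adj (c : Matrix (Fin 2) (Fin m) F) (z : W2 F) : Fin m → F := fun j => - polar (⇑Q₀) (cJ c j) z

theorem adj_dot (c : Matrix (Fin 2) (Fin m) F) (z : W2 F) (y : Fin m → F) :
    adj Q₀ c z ⬝ᵥ y = - polar (⇑Q₀) (c *ᵥ y) z := by
  rw [mulVec_eq_sum, ← polarBilin_apply_apply, map_sum, LinearMap.sum_apply]
  simp only [dotProduct, adj, map_smul, LinearMap.smul_apply, polarBilin_apply_apply, smul_eq_mul]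
  rw [← Finset.sum_neg_distrib]
  refine Finset.sum_congr rfl fun j _ => ?_
  ring

theorem adj_add (c : Matrix (Fin 2) (Fin m) F) (z z' : W2 F) :
    adj Q₀ c (z + z') = adj Q₀ c z + adj Q₀ c z' := by
  ext j
  simp only [adj, Pi.add_apply, polar_add_right]
  ring

theorem adj_smul (c : Matrix (Fin 2) (Fin m) F) (t : F) (z : W2 F) :
    adj Q₀ c (t • z) = t • adj Q₀ c z := by
  ext j
  simp only [adj, Pi.smul_apply, polar_smul_right', smul_eq_mul]
  ring

theorem adj_zero (c : Matrix (Fin 2) (Fin m) F) : adj Q₀ c 0 = 0 := by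
  have := adj_smul (Q₀ := Q₀) c 0 0
  simpa using this

variable (Q₀) in
/-- The compatibility of `S` with `c`. -/
def IsCompat (c : Matrix (Fin 2) (Fin m) F) (S : Matrix (Fin m) (Fin m) F) : Prop :=
  ∀ y, (S *ᵥ y) ⬝ᵥ y = - Q₀ (c *ᵥ y)

end Adj

section U

/-- The unipotent element fixing `y = 0, z = 0`, as a linear map. -/
noncomputable def Ulin (c : Matrix (Fin 2) (Fin m) F) (S : Matrix (Fin m) (Fin m) F) : VM m F →ₗ[F] VM m F where
  toFun v := mkM (xc v + S *ᵥ yc v + adj Q₀ c (zc v)) (zc v + c *ᵥ yc v) (yc v)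
  map_add' a b := by
    rw [mkM_add]
    simp only [xc_add, yc_add, zc_add, mulVec_add, adj_add]
    congr 1 <;> abel
  map_smul' t a := by
    rw [RingHom.id_apply, mkM_smul]
    simp only [xc_smul, yc_smul, zc_smul, mulVec_smul, adj_smul, smul_add]

/-- The unipotent element fixing `x = 0, z = 0`, as a linear map. -/
noncomputable def Vlin (c : Matrix (Fin 2) (Fin m) F) (S : Matrix (Fin m) (Fin m) F) : VM m F →ₗ[F] VM m F where
  toFun v := mkM (xc v) (zc v + c *ᵥ xc v) (yc v + S *ᵥ xc v + adj Q₀ c (zc v))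
  map_add' a b := by
    rw [mkM_add]
    simp only [xc_add, yc_add, zc_add, mulVec_add, adj_add]
    congr 1 <;> abel
  map_smul' t a := by
    rw [RingHom.id_apply, mkM_smul]
    simp only [xc_smul, yc_smul, zc_smul, mulVec_smul, adj_smul, smul_add]

theorem Ulin_apply (c : Matrix (Fin 2) (Fin m) F) (S : Matrix (Fin m) (Fin m) F) (v : VM m F) :
    Ulin (Q₀ := Q₀) c S v = mkM (xc v + S *ᵥ yc v + adj Q₀ c (zc v)) (zc v + c *ᵥ yc v) (yc v) := rfl
theorem Vlin_apply (c : Matrix (Fin 2) (Fin m) F) (S : Matrix (Fin m) (Fin m) F) (v : VM m F) :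
    Vlin (Q₀ := Q₀) c S v = mkM (xc v) (zc v + c *ᵥ xc v) (yc v + S *ᵥ xc v + adj Q₀ c (zc v)) := rfl

theorem QM_Ulin {c : Matrix (Fin 2) (Fin m) F} {S : Matrix (Fin m) (Fin m) F} (hS : IsCompat Q₀ c S) (v : VM m F) :
    QM Q₀ m (Ulin (Q₀ := Q₀) c S v) = QM Q₀ m v := by
  rw [Ulin_apply, QM_mkM, QM_apply, add_dotProduct, add_dotProduct, hS (yc v), adj_dot, Q_add, polar_comm]
  ring

theorem QM_Vlin {c : Matrix (Fin 2) (Fin m) F} {S : Matrix (Fin m) (Fin m) F} (hS : IsCompat Q₀ c S) (v : VM m F) :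
    QM Q₀ m (Vlin (Q₀ := Q₀) c S v) = QM Q₀ m v := by
  rw [Vlin_apply, QM_mkM, QM_apply, dotProduct_add, dotProduct_add, dotProduct_comm (xc v) (S *ᵥ xc v), hS (xc v),
    dotProduct_comm (xc v) (adj Q₀ c (zc v)), adj_dot, Q_add, polar_comm]
  ring

variable (hQ : Aniso Q₀)
include hQ

/-- The unipotent element fixing `y = 0, z = 0`. -/
noncomputable def UU (c : Matrix (Fin 2) (Fin m) F) (S : Matrix (Fin m) (Fin m) F) (hS : IsCompat Q₀ c S) : OM Q₀ m :=
  isoOfLin hQ (Ulin (Q₀ := Q₀) c S) (QM_Ulin hS)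
/-- The unipotent element fixing `x = 0, z = 0`. -/
noncomputable def VV (c : Matrix (Fin 2) (Fin m) F) (S : Matrix (Fin m) (Fin m) F) (hS : IsCompat Q₀ c S) : OM Q₀ m :=
  isoOfLin hQ (Vlin (Q₀ := Q₀) c S) (QM_Vlin hS)

theorem act_UU (c : Matrix (Fin 2) (Fin m) F) (S : Matrix (Fin m) (Fin m) F) (hS : IsCompat Q₀ c S) (v : VM m F) :
    act (UU hQ c S hS) v = mkM (xc v + S *ᵥ yc v + adj Q₀ c (zc v)) (zc v + c *ᵥ yc v) (yc v) :=
  act_isoOfLin _ _ _ v
theorem act_VV (c : Matrix (Fin 2) (Fin m) F) (S : Matrix (Fin m) (Fin m) F) (hS : IsCompat Q₀ c S) (v : VM m F) :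
    act (VV hQ c S hS) v = mkM (xc v) (zc v + c *ᵥ xc v) (yc v + S *ᵥ xc v + adj Q₀ c (zc v)) :=
  act_isoOfLin _ _ _ v

end U

section Levi

variable (Q₀) in
/-- The Levi elements. -/
noncomputable def lev (m : ℕ) : GL (Fin m) F × O2 Q₀ →* OM Q₀ m :=
  (blockHom (plusForm m F) Q₀).comp (MonoidHom.prodMap gHom (MonoidHom.id _))

theorem act_lev (D : GL (Fin m) F) (t : O2 Q₀) (v : VM m F) :
    act (lev Q₀ m (D, t)) v = mkM ((D : Matrix (Fin m) (Fin m) F) *ᵥ xc v) (act t (zc v))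
      (((D⁻¹ : GL (Fin m) F) : Matrix (Fin m) (Fin m) F)ᵀ *ᵥ yc v) := by
  have hv : v = Sum.elim (v ∘ Sum.inl) (v ∘ Sum.inr) := by
    ext j
    rcases j with i | i <;> rfl
  show (Matrix.fromBlocks _ 0 0 _) *ᵥ v = _
  conv_lhs => rw [hv]
  rw [fromBlocks_mulVec]
  simp only [Sum.elim_comp_inl, Sum.elim_comp_inr, zero_mulVec, add_zero, zero_add]
  have h1 : (((gHom D : ↥(Cfsg.isometryGroup F (⇑(plusForm m F)))) : GL (Fin m ⊕ Fin m) F) : Matrix _ _ F) *ᵥ (v ∘ Sum.inl)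
      = Cfsg.Agent.Lib.OrePlus.mkP ((D : Matrix (Fin m) (Fin m) F) *ᵥ xc v)
        (((D⁻¹ : GL (Fin m) F) : Matrix (Fin m) (Fin m) F)ᵀ *ᵥ yc v) :=
    Cfsg.Agent.Lib.OrePlus.act_levi D (v ∘ Sum.inl)
  show Sum.elim (_ *ᵥ (v ∘ Sum.inl)) _ = _
  erw [h1]
  rfl

theorem act_lev_W (D : GL (Fin m) F) (t : O2 Q₀) (x : Fin m → F) :
    act (lev Q₀ m (D, t)) (mkM x 0 0) = mkM ((D : Matrix (Fin m) (Fin m) F) *ᵥ x) 0 0 := by
  rw [act_lev]
  simp only [xc_mkM, yc_mkM, zc_mkM, mulVec_zero, act_zero]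

theorem act_lev_Z (D : GL (Fin m) F) (t : O2 Q₀) (z : W2 F) :
    act (lev Q₀ m (D, t)) (mkM 0 z 0) = mkM 0 (act t z) 0 := by
  rw [act_lev]
  simp only [xc_mkM, yc_mkM, zc_mkM, mulVec_zero]

theorem act_lev_Y (D : GL (Fin m) F) (t : O2 Q₀) (y : Fin m → F) :
    act (lev Q₀ m (D, t)) (mkM 0 0 y) = mkM 0 0 (((D⁻¹ : GL (Fin m) F) : Matrix (Fin m) (Fin m) F)ᵀ *ᵥ y) := by
  rw [act_lev]
  simp only [xc_mkM, yc_mkM, zc_mkM, mulVec_zero, act_zero]

theorem lev_inv (D : GL (Fin m) F) (t : O2 Q₀) : (lev Q₀ m (D, t))⁻¹ = lev Q₀ m (D⁻¹, t⁻¹) := by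
  rw [← map_inv]
  rfl

theorem E_inv_mul (E : GL (Fin m) F) : (E : Matrix (Fin m) (Fin m) F) * ((E⁻¹ : GL (Fin m) F) : Matrix (Fin m) (Fin m) F) = 1 :=
  Cfsg.Agent.Lib.OrePlus.E_inv_mul E

theorem inv_E_mul (E : GL (Fin m) F) : ((E⁻¹ : GL (Fin m) F) : Matrix (Fin m) (Fin m) F) * (E : Matrix (Fin m) (Fin m) F) = 1 :=
  Cfsg.Agent.Lib.OrePlus.inv_E_mul E

end Levi

section Subgroups

theorem dot_ext {a b : Fin m → F} (h : ∀ x : Fin m → F, x ⬝ᵥ a = x ⬝ᵥ b) : a = b := by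
  ext i
  simpa using h (Pi.single i 1)

theorem yc_act_of_fixW {g : OM Q₀ m} (hg : ∀ x, act g (mkM x 0 0) = mkM x 0 0) (v : VM m F) :
    yc (act g v) = yc v := by
  apply dot_ext
  intro x
  have h := polar_act g v (mkM x 0 0)
  rw [hg x, polarM_apply, polarM_apply] at h
  simpa using h

theorem xc_act_of_fixT {g : OM Q₀ m} (hg : ∀ y, act g (mkM 0 0 y) = mkM 0 0 y) (v : VM m F) :
    xc (act g v) = xc v := by
  apply dot_ext
  intro y
  have h := polar_act g v (mkM 0 0 y)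
  rw [hg y, polarM_apply, polarM_apply] at h
  simp only [xc_mkM, yc_mkM, zc_mkM, zero_dotProduct, add_zero, polar_zero_right] at h
  rw [dotProduct_comm y, dotProduct_comm y]
  simpa using h

variable (Q₀) in
/-- The subgroup fixing `W` pointwise and trivial on `W^⊥ / W`. -/
def QW (m : ℕ) : Subgroup (OM Q₀ m) where
  carrier := {h | (∀ x, act h (mkM x 0 0) = mkM x 0 0) ∧ ∀ z, zc (act h (mkM 0 z 0)) = z}
  mul_mem' := by
    rintro a b ⟨ha, ha'⟩ ⟨hb, hb'⟩
    refine ⟨fun x => by rw [act_mul, hb, ha], fun z => ?_⟩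
    rw [act_mul]
    have h1 : act b (mkM 0 z 0) = mkM (xc (act b (mkM 0 z 0))) 0 0 + mkM 0 z 0 := by
      apply vext
      · simp only [xc_add, xc_mkM, add_zero]
      · simp only [zc_add, zc_mkM, zero_add, hb' z]
      · rw [yc_act_of_fixW hb]
        simp only [yc_add, yc_mkM, add_zero]
    rw [h1, act_add, ha, zc_add, ha', zc_mkM, zero_add]
  one_mem' := ⟨fun x => act_one _, fun z => by rw [act_one]; rfl⟩
  inv_mem' := by
    rintro a ⟨ha, ha'⟩
    have hi : ∀ x, act a⁻¹ (mkM x 0 0) = mkM x 0 0 := by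
      intro x
      conv_lhs => rw [← ha x]
      exact act_inv_act a _
    refine ⟨hi, fun z => ?_⟩
    have h1 : act a (mkM 0 z 0) = mkM (xc (act a (mkM 0 z 0))) 0 0 + mkM 0 z 0 := by
      apply vext
      · simp only [xc_add, xc_mkM, add_zero]
      · simp only [zc_add, zc_mkM, zero_add, ha' z]
      · rw [yc_act_of_fixW ha]
        simp only [yc_add, yc_mkM, add_zero]
    have h2 := congrArg (act a⁻¹) h1
    rw [act_inv_act, act_add, hi] at h2
    have h3 := congrArg zc h2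
    simp only [zc_mkM, zc_add, zero_add] at h3
    exact h3.symm

variable (Q₀) in
/-- The subgroup fixing `T` pointwise and trivial on `T^⊥ / T`. -/
def QT (m : ℕ) : Subgroup (OM Q₀ m) where
  carrier := {h | (∀ y, act h (mkM 0 0 y) = mkM 0 0 y) ∧ ∀ z, zc (act h (mkM 0 z 0)) = z}
  mul_mem' := by
    rintro a b ⟨ha, ha'⟩ ⟨hb, hb'⟩
    refine ⟨fun x => by rw [act_mul, hb, ha], fun z => ?_⟩
    rw [act_mul]
    have h1 : act b (mkM 0 z 0) = mkM 0 0 (yc (act b (mkM 0 z 0))) + mkM 0 z 0 := by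
      apply vext
      · rw [xc_act_of_fixT hb]
        simp only [xc_add, xc_mkM, add_zero]
      · simp only [zc_add, zc_mkM, zero_add, hb' z]
      · simp only [yc_add, yc_mkM, add_zero]
    rw [h1, act_add, ha, zc_add, ha', zc_mkM, zero_add]
  one_mem' := ⟨fun x => act_one _, fun z => by rw [act_one]; rfl⟩
  inv_mem' := by
    rintro a ⟨ha, ha'⟩
    have hi : ∀ x, act a⁻¹ (mkM 0 0 x) = mkM 0 0 x := by
      intro x
      conv_lhs => rw [← ha x]
      exact act_inv_act a _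
    refine ⟨hi, fun z => ?_⟩
    have h1 : act a (mkM 0 z 0) = mkM 0 0 (yc (act a (mkM 0 z 0))) + mkM 0 z 0 := by
      apply vext
      · rw [xc_act_of_fixT ha]
        simp only [xc_add, xc_mkM, add_zero]
      · simp only [zc_add, zc_mkM, zero_add, ha' z]
      · simp only [yc_add, yc_mkM, add_zero]
    have h2 := congrArg (act a⁻¹) h1
    rw [act_inv_act, act_add, hi] at h2
    have h3 := congrArg zc h2
    simp only [zc_mkM, zc_add, zero_add] at h3
    exact h3.symm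

theorem mem_QW {h : OM Q₀ m} : h ∈ QW Q₀ m ↔ (∀ x, act h (mkM x 0 0) = mkM x 0 0) ∧ ∀ z, zc (act h (mkM 0 z 0)) = z :=
  Iff.rfl
theorem mem_QT {h : OM Q₀ m} : h ∈ QT Q₀ m ↔ (∀ y, act h (mkM 0 0 y) = mkM 0 0 y) ∧ ∀ z, zc (act h (mkM 0 z 0)) = z :=
  Iff.rfl

theorem yc_act_QW {h : OM Q₀ m} (hh : h ∈ QW Q₀ m) (v : VM m F) : yc (act h v) = yc v :=
  yc_act_of_fixW hh.1 v

theorem xc_act_QT {h : OM Q₀ m} (hh : h ∈ QT Q₀ m) (v : VM m F) : xc (act h v) = xc v :=
  xc_act_of_fixT hh.1 v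

/-- The action of an element of `QW` on `W^⊥`. -/
theorem act_QW_perp {h : OM Q₀ m} (hh : h ∈ QW Q₀ m) (x : Fin m → F) (z : W2 F) :
    act h (mkM x z 0) = mkM (x + xc (act h (mkM 0 z 0))) z 0 := by
  have h1 : mkM x z (0 : Fin m → F) = mkM x 0 0 + mkM 0 z 0 := by
    rw [mkM_add]
    simp
  rw [h1, act_add, hh.1]
  apply vext
  · simp only [xc_add, xc_mkM]
  · simp only [zc_add, zc_mkM, zero_add, hh.2]
  · simp only [yc_add, yc_mkM, yc_act_QW hh, add_zero]

/-- The action of an element of `QT` on `T^⊥`. -/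
theorem act_QT_perp {h : OM Q₀ m} (hh : h ∈ QT Q₀ m) (y : Fin m → F) (z : W2 F) :
    act h (mkM 0 z y) = mkM 0 z (y + yc (act h (mkM 0 z 0))) := by
  have h1 : mkM (0 : Fin m → F) z y = mkM 0 0 y + mkM 0 z 0 := by
    rw [mkM_add]
    simp
  rw [h1, act_add, hh.1]
  apply vext
  · simp only [xc_add, xc_mkM, xc_act_QT hh, add_zero]
  · simp only [zc_add, zc_mkM, zero_add, hh.2]
  · simp only [yc_add, yc_mkM]

variable (hQ : Aniso Q₀)
include hQ

theorem UU_mem_QW (c : Matrix (Fin 2) (Fin m) F) (S : Matrix (Fin m) (Fin m) F) (hS : IsCompat Q₀ c S) :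
    UU hQ c S hS ∈ QW Q₀ m := by
  refine ⟨fun x => ?_, fun z => ?_⟩
  · rw [act_UU]
    simp [adj_zero]
  · rw [act_UU]
    simp

theorem VV_mem_QT (c : Matrix (Fin 2) (Fin m) F) (S : Matrix (Fin m) (Fin m) F) (hS : IsCompat Q₀ c S) :
    VV hQ c S hS ∈ QT Q₀ m := by
  refine ⟨fun x => ?_, fun z => ?_⟩
  · rw [act_VV]
    simp [adj_zero]
  · rw [act_VV]
    simp

omit hQ in
theorem lev_conj_mem_QW (D : GL (Fin m) F) (t : O2 Q₀) {h : OM Q₀ m} (hh : h ∈ QW Q₀ m) :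
    lev Q₀ m (D, t) * h * (lev Q₀ m (D, t))⁻¹ ∈ QW Q₀ m := by
  refine ⟨fun x => ?_, fun z => ?_⟩
  · rw [act_mul, act_mul, lev_inv, act_lev_W, hh.1, act_lev_W, mulVec_mulVec, E_inv_mul, one_mulVec]
  · rw [act_mul, act_mul, lev_inv, act_lev_Z, act_lev, zc_mkM, hh.2, act_act_inv]

omit hQ in
theorem lev_conj_mem_QT (D : GL (Fin m) F) (t : O2 Q₀) {h : OM Q₀ m} (hh : h ∈ QT Q₀ m) :
    lev Q₀ m (D, t) * h * (lev Q₀ m (D, t))⁻¹ ∈ QT Q₀ m := by
  refine ⟨fun x => ?_, fun z => ?_⟩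
  · rw [act_mul, act_mul, lev_inv, act_lev_Y, hh.1, act_lev_Y, mulVec_mulVec, inv_inv, ← transpose_mul, E_inv_mul]
    simp
  · rw [act_mul, act_mul, lev_inv, act_lev_Z, act_lev, zc_mkM, hh.2, act_act_inv]

end Subgroups

section Blocks

/-- The matrix of an isometry. -/
abbrev matM (g : OM Q₀ m) : Matrix (IM m) (IM m) F := ((g : GL (IM m) F) : Matrix (IM m) (IM m) F)

/-- The block `W → W`. -/
def blkD (g : OM Q₀ m) : Matrix (Fin m) (Fin m) F := fun i j => matM g (Sum.inl (Sum.inl i)) (Sum.inl (Sum.inl j))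
/-- The block `W → Z`. -/
def blkC (g : OM Q₀ m) : Matrix (Fin 2) (Fin m) F := fun i j => matM g (Sum.inr i) (Sum.inl (Sum.inl j))
/-- The block `W → T`. -/
def blkR (g : OM Q₀ m) : Matrix (Fin m) (Fin m) F := fun i j => matM g (Sum.inl (Sum.inr i)) (Sum.inl (Sum.inl j))
/-- The block `Z → W`. -/
def blkA (g : OM Q₀ m) : Matrix (Fin m) (Fin 2) F := fun i j => matM g (Sum.inl (Sum.inl i)) (Sum.inr j)
/-- The block `Z → Z`. -/
def blkE (g : OM Q₀ m) : Matrix (Fin 2) (Fin 2) F := fun i j => matM g (Sum.inr i) (Sum.inr j)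
/-- The block `Z → T`. -/
def blkB (g : OM Q₀ m) : Matrix (Fin m) (Fin 2) F := fun i j => matM g (Sum.inl (Sum.inr i)) (Sum.inr j)
/-- The block `T → W`. -/
def blkS (g : OM Q₀ m) : Matrix (Fin m) (Fin m) F := fun i j => matM g (Sum.inl (Sum.inl i)) (Sum.inl (Sum.inr j))
/-- The block `T → Z`. -/
def blkG (g : OM Q₀ m) : Matrix (Fin 2) (Fin m) F := fun i j => matM g (Sum.inr i) (Sum.inl (Sum.inr j))

theorem act_W (g : OM Q₀ m) (x : Fin m → F) :
    act g (mkM x 0 0) = mkM (blkD g *ᵥ x) (blkC g *ᵥ x) (blkR g *ᵥ x) := by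
  apply vext
  · ext i
    show (matM g *ᵥ mkM x 0 0) (Sum.inl (Sum.inl i)) = (blkD g *ᵥ x) i
    simp [mulVec, dotProduct, Fintype.sum_sum_type, mkM, blkD]
  · ext i
    show (matM g *ᵥ mkM x 0 0) (Sum.inr i) = (blkC g *ᵥ x) i
    simp [mulVec, dotProduct, Fintype.sum_sum_type, mkM, blkC]
  · ext i
    show (matM g *ᵥ mkM x 0 0) (Sum.inl (Sum.inr i)) = (blkR g *ᵥ x) i
    simp [mulVec, dotProduct, Fintype.sum_sum_type, mkM, blkR]

theorem act_Z (g : OM Q₀ m) (z : W2 F) :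
    act g (mkM 0 z 0) = mkM (blkA g *ᵥ z) (blkE g *ᵥ z) (blkB g *ᵥ z) := by
  apply vext
  · ext i
    show (matM g *ᵥ mkM 0 z 0) (Sum.inl (Sum.inl i)) = (blkA g *ᵥ z) i
    simp [mulVec, dotProduct, Fintype.sum_sum_type, mkM, blkA]
  · ext i
    show (matM g *ᵥ mkM 0 z 0) (Sum.inr i) = (blkE g *ᵥ z) i
    simp [mulVec, dotProduct, Fintype.sum_sum_type, mkM, blkE]
  · ext i
    show (matM g *ᵥ mkM 0 z 0) (Sum.inl (Sum.inr i)) = (blkB g *ᵥ z) i
    simp [mulVec, dotProduct, Fintype.sum_sum_type, mkM, blkB]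

theorem xc_act_Y (g : OM Q₀ m) (y : Fin m → F) : xc (act g (mkM 0 0 y)) = blkS g *ᵥ y := by
  ext i
  show (matM g *ᵥ mkM 0 0 y) (Sum.inl (Sum.inl i)) = (blkS g *ᵥ y) i
  simp [mulVec, dotProduct, Fintype.sum_sum_type, mkM, blkS]

theorem zc_act_Y (g : OM Q₀ m) (y : Fin m → F) : zc (act g (mkM 0 0 y)) = blkG g *ᵥ y := by
  ext i
  show (matM g *ᵥ mkM 0 0 y) (Sum.inr i) = (blkG g *ᵥ y) i
  simp [mulVec, dotProduct, Fintype.sum_sum_type, mkM, blkG]

/-- The block relation from the form. -/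
theorem blk_Q (g : OM Q₀ m) (x : Fin m → F) :
    (blkD g *ᵥ x) ⬝ᵥ (blkR g *ᵥ x) + Q₀ (blkC g *ᵥ x) = 0 := by
  have h := Q_act g (mkM x 0 0)
  rw [act_W, QM_mkM, QM_mkM] at h
  simpa using h

/-- The block relation from the polar form. -/
theorem blk_polar (g : OM Q₀ m) (x x' : Fin m → F) :
    (blkD g *ᵥ x) ⬝ᵥ (blkR g *ᵥ x') + (blkD g *ᵥ x') ⬝ᵥ (blkR g *ᵥ x) + polar (⇑Q₀) (blkC g *ᵥ x) (blkC g *ᵥ x') = 0 := by
  have h := polar_act g (mkM x 0 0) (mkM x' 0 0)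
  rw [act_W, act_W, polarM_mkM, polarM_mkM] at h
  simpa using h

/-- The block relation between `W` and `Z`. -/
theorem blk_polarZ (g : OM Q₀ m) (x : Fin m → F) (z : W2 F) :
    (blkD g *ᵥ x) ⬝ᵥ (blkB g *ᵥ z) + (blkA g *ᵥ z) ⬝ᵥ (blkR g *ᵥ x) + polar (⇑Q₀) (blkC g *ᵥ x) (blkE g *ᵥ z) = 0 := by
  have h := polar_act g (mkM x 0 0) (mkM 0 z 0)
  rw [act_W, act_Z, polarM_mkM, polarM_mkM] at h
  simpa using h

/-- The block relation on `Z`. -/
theorem blk_QZ (g : OM Q₀ m) (z : W2 F) :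
    (blkA g *ᵥ z) ⬝ᵥ (blkB g *ᵥ z) + Q₀ (blkE g *ᵥ z) = Q₀ z := by
  have h := Q_act g (mkM 0 z 0)
  rw [act_Z, QM_mkM, QM_mkM] at h
  simpa using h

end Blocks

section Classify

variable (hQ : Aniso Q₀)
include hQ

/-- The classification of `QW`. -/
theorem exists_UU_of_mem {h : OM Q₀ m} (hh : h ∈ QW Q₀ m) : ∃ c S hS, h = UU hQ c S hS := by
  have hy := yc_act_QW hh
  have hT : ∀ y, act h (mkM 0 0 y) = mkM (blkS h *ᵥ y) (blkG h *ᵥ y) y := by
    intro y
    apply vext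
    · exact xc_act_Y h y
    · exact zc_act_Y h y
    · simpa using hy (mkM 0 0 y)
  have hcompat : IsCompat Q₀ (blkG h) (blkS h) := by
    intro y
    have h3 := Q_act h (mkM 0 0 y)
    rw [hT, QM_mkM, QM_mkM] at h3
    simp only [dotProduct_zero, zero_dotProduct, add_zero, map_zero] at h3
    linear_combination h3
  refine ⟨blkG h, blkS h, hcompat, ?_⟩
  apply ext_act
  intro v
  have hZ : ∀ z, xc (act h (mkM 0 z 0)) = adj Q₀ (blkG h) z := by
    intro z
    apply dot_ext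
    intro y
    have h3 := polar_act h (mkM 0 z 0) (mkM 0 0 y)
    rw [hT, polarM_apply, polarM_apply] at h3
    simp only [xc_mkM, yc_mkM, zc_mkM, zero_dotProduct, dotProduct_zero, add_zero, polar_zero_right, hh.2,
      yc_act_QW hh, zero_add] at h3
    rw [dotProduct_comm, dotProduct_comm y, adj_dot, polar_comm]
    linear_combination h3
  have e1 : ∀ z, act h (mkM 0 z 0) = mkM (adj Q₀ (blkG h) z) z 0 := by
    intro z
    apply vext
    · exact hZ z
    · exact hh.2 z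
    · simpa using hy (mkM 0 z 0)
  conv_lhs => rw [split3 v]
  rw [act_add, act_add, hh.1, e1, hT, act_UU]
  apply vext
  · simp only [xc_add, xc_mkM]
    abel
  · simp only [zc_add, zc_mkM, zero_add]
  · simp only [yc_add, yc_mkM, zero_add, add_zero]

/-- The classification of `QT`. -/
theorem exists_VV_of_mem {h : OM Q₀ m} (hh : h ∈ QT Q₀ m) : ∃ c S hS, h = VV hQ c S hS := by
  have hy := xc_act_QT hh
  have hT : ∀ x, act h (mkM x 0 0) = mkM x (blkC h *ᵥ x) (blkR h *ᵥ x) := by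
    intro x
    rw [act_W]
    apply vext
    · have := hy (mkM x 0 0)
      rw [act_W] at this
      exact this
    · rfl
    · rfl
  have hcompat : IsCompat Q₀ (blkC h) (blkR h) := by
    intro y
    have h3 := Q_act h (mkM y 0 0)
    rw [hT, QM_mkM, QM_mkM] at h3
    simp only [dotProduct_zero, zero_dotProduct, add_zero, map_zero] at h3
    rw [dotProduct_comm]
    linear_combination h3
  refine ⟨blkC h, blkR h, hcompat, ?_⟩
  apply ext_act
  intro v
  have hZ : ∀ z, yc (act h (mkM 0 z 0)) = adj Q₀ (blkC h) z := by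
    intro z
    apply dot_ext
    intro y
    have h3 := polar_act h (mkM 0 z 0) (mkM y 0 0)
    rw [hT, polarM_apply, polarM_apply] at h3
    simp only [xc_mkM, yc_mkM, zc_mkM, zero_dotProduct, dotProduct_zero, add_zero, polar_zero_right, hh.2,
      xc_act_QT hh, zero_add] at h3
    rw [dotProduct_comm y (adj Q₀ _ z), adj_dot, polar_comm]
    linear_combination h3
  have e1 : ∀ z, act h (mkM 0 z 0) = mkM 0 z (adj Q₀ (blkC h) z) := by
    intro z
    apply vext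
    · simpa using hy (mkM 0 z 0)
    · exact hh.2 z
    · exact hZ z
  conv_lhs => rw [split3 v]
  rw [act_add, act_add, hh.1, e1, hT, act_VV]
  apply vext
  · simp only [xc_add, xc_mkM, add_zero]
  · simp only [zc_add, zc_mkM, zero_add, add_zero]
    abel
  · simp only [yc_add, yc_mkM, zero_add]
    abel

theorem UU_zero (hS : IsCompat Q₀ (0 : Matrix (Fin 2) (Fin m) F) 0) : UU hQ (0 : Matrix (Fin 2) (Fin m) F) 0 hS = 1 := by
  apply ext_act
  intro v
  rw [act_UU, act_one]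
  have : adj Q₀ (0 : Matrix (Fin 2) (Fin m) F) (zc v) = 0 := by
    ext j
    have : cJ (0 : Matrix (Fin 2) (Fin m) F) j = 0 := rfl
    simp [adj, this]
  simp [this, mkM_eta]

theorem VV_zero (hS : IsCompat Q₀ (0 : Matrix (Fin 2) (Fin m) F) 0) : VV hQ (0 : Matrix (Fin 2) (Fin m) F) 0 hS = 1 := by
  apply ext_act
  intro v
  rw [act_VV, act_one]
  have : adj Q₀ (0 : Matrix (Fin 2) (Fin m) F) (zc v) = 0 := by
    ext j
    have : cJ (0 : Matrix (Fin 2) (Fin m) F) j = 0 := rfl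
    simp [adj, this]
  simp [this, mkM_eta]

/-- A fixed point in `QW`. -/
theorem fpf_QW (D : GL (Fin m) F) (t : O2 Q₀)
    (hc : ∀ c : Matrix (Fin 2) (Fin m) F, ((t : GL (Fin 2) F) : Matrix (Fin 2) (Fin 2) F) * c * (D : Matrix (Fin m) (Fin m) F)ᵀ = c → c = 0)
    (hA : ∀ A, IsAltM A → (D : Matrix (Fin m) (Fin m) F) * A * (D : Matrix (Fin m) (Fin m) F)ᵀ = A → A = 0) :
    ∀ q ∈ QW Q₀ m, lev Q₀ m (D, t) * q * (lev Q₀ m (D, t))⁻¹ = q → q = 1 := by
  intro q hq hfix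
  obtain ⟨c, S, hS, rfl⟩ := exists_UU_of_mem hQ hq
  have key : ∀ y, act (lev Q₀ m (D, t) * UU hQ c S hS * (lev Q₀ m (D, t))⁻¹) (mkM 0 0 y) = act (UU hQ c S hS) (mkM 0 0 y) := by
    intro y
    rw [hfix]
  have key2 : ∀ y, mkM ((D : Matrix (Fin m) (Fin m) F) *ᵥ (S *ᵥ ((D : Matrix (Fin m) (Fin m) F)ᵀ *ᵥ y)))
      (((t : GL (Fin 2) F) : Matrix (Fin 2) (Fin 2) F) *ᵥ (c *ᵥ ((D : Matrix (Fin m) (Fin m) F)ᵀ *ᵥ y))) y =
      mkM (S *ᵥ y) (c *ᵥ y) y := by
    intro y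
    have h1 := key y
    rw [act_mul, act_mul, lev_inv, act_lev_Y, inv_inv, act_UU, act_UU, act_lev] at h1
    simp only [xc_mkM, yc_mkM, zc_mkM, zero_add, adj_zero, add_zero] at h1
    rw [mulVec_mulVec (_) (((D⁻¹ : GL (Fin m) F) : Matrix (Fin m) (Fin m) F)ᵀ), ← transpose_mul, E_inv_mul] at h1
    simpa using h1
  have hc0 : c = 0 := by
    apply hc
    apply Matrix.ext_of_mulVec_single
    intro j
    have h2 := congrArg zc (key2 (Pi.single j 1))
    simp only [zc_mkM] at h2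
    rw [← mulVec_mulVec, ← mulVec_mulVec]
    exact h2
  subst hc0
  have hAlt : IsAltM S := by
    intro y
    have := hS y
    simpa using this
  have hS0 : S = 0 := by
    apply hA S hAlt
    apply Matrix.ext_of_mulVec_single
    intro j
    have h2 := congrArg xc (key2 (Pi.single j 1))
    simp only [xc_mkM] at h2
    rw [← mulVec_mulVec, ← mulVec_mulVec]
    exact h2
  subst hS0
  exact UU_zero hQ hS

/-- A fixed point in `QT`. -/
theorem fpf_QT (B : GL (Fin m) F) (t : O2 Q₀)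
    (hc : ∀ c : Matrix (Fin 2) (Fin m) F, ((t : GL (Fin 2) F) : Matrix (Fin 2) (Fin 2) F) * c = c * (B : Matrix (Fin m) (Fin m) F) → c = 0)
    (hA : ∀ A, IsAltM A → (B : Matrix (Fin m) (Fin m) F)ᵀ * A * (B : Matrix (Fin m) (Fin m) F) = A → A = 0) :
    ∀ q ∈ QT Q₀ m, lev Q₀ m (B, t) * q * (lev Q₀ m (B, t))⁻¹ = q → q = 1 := by
  intro q hq hfix
  obtain ⟨c, S, hS, rfl⟩ := exists_VV_of_mem hQ hq
  have key : ∀ x, act (lev Q₀ m (B, t) * VV hQ c S hS * (lev Q₀ m (B, t))⁻¹) (mkM ((B : Matrix (Fin m) (Fin m) F) *ᵥ x) 0 0) =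
      act (VV hQ c S hS) (mkM ((B : Matrix (Fin m) (Fin m) F) *ᵥ x) 0 0) := by
    intro y
    rw [hfix]
  have key2 : ∀ x, mkM ((B : Matrix (Fin m) (Fin m) F) *ᵥ x)
      (((t : GL (Fin 2) F) : Matrix (Fin 2) (Fin 2) F) *ᵥ (c *ᵥ x))
      (((B⁻¹ : GL (Fin m) F) : Matrix (Fin m) (Fin m) F)ᵀ *ᵥ (S *ᵥ x)) =
      mkM ((B : Matrix (Fin m) (Fin m) F) *ᵥ x) (c *ᵥ ((B : Matrix (Fin m) (Fin m) F) *ᵥ x))
        (S *ᵥ ((B : Matrix (Fin m) (Fin m) F) *ᵥ x)) := by
    intro x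
    have h1 := key x
    rw [act_mul, act_mul, lev_inv, act_lev_W, mulVec_mulVec, inv_E_mul, one_mulVec, act_VV, act_VV, act_lev] at h1
    simp only [xc_mkM, yc_mkM, zc_mkM, zero_add, adj_zero, add_zero] at h1
    exact h1
  have hc0 : c = 0 := by
    apply hc
    apply Matrix.ext_of_mulVec_single
    intro j
    have h2 := congrArg zc (key2 (Pi.single j 1))
    simp only [zc_mkM] at h2
    rw [← mulVec_mulVec, ← mulVec_mulVec]
    exact h2
  subst hc0
  have hAlt : IsAltM S := by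
    intro y
    have := hS y
    simpa using this
  have hS0 : S = 0 := by
    apply hA S hAlt
    apply Matrix.ext_of_mulVec_single
    intro j
    have h2 := congrArg yc (key2 (Pi.single j 1))
    simp only [yc_mkM] at h2
    calc ((B : Matrix (Fin m) (Fin m) F)ᵀ * S * (B : Matrix (Fin m) (Fin m) F)) *ᵥ (Pi.single j 1)
        = (B : Matrix (Fin m) (Fin m) F)ᵀ *ᵥ (S *ᵥ ((B : Matrix (Fin m) (Fin m) F) *ᵥ (Pi.single j 1))) := by
          simp only [mulVec_mulVec, mul_assoc]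
      _ = (B : Matrix (Fin m) (Fin m) F)ᵀ *ᵥ (((B⁻¹ : GL (Fin m) F) : Matrix (Fin m) (Fin m) F)ᵀ *ᵥ (S *ᵥ (Pi.single j 1))) := by
          rw [h2]
      _ = S *ᵥ (Pi.single j 1) := by
          rw [mulVec_mulVec, ← transpose_mul, inv_E_mul, transpose_one, one_mulVec]
  subst hS0
  exact VV_zero hQ hS

end Classify

section Compat

theorem isCompat_of_entries {c : Matrix (Fin 2) (Fin m) F} {S : Matrix (Fin m) (Fin m) F}
    (hd : ∀ j, S j j = - Q₀ (cJ c j))
    (hs : ∀ j k, j ≠ k → S j k + S k j = - polar (⇑Q₀) (cJ c j) (cJ c k)) : IsCompat Q₀ c S := by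
  classical
  intro y
  have key : ∀ T : Finset (Fin m), (∑ j ∈ T, ∑ k ∈ T, S j k * y k * y j) = - Q₀ (∑ j ∈ T, y j • cJ c j) := by
    intro T
    induction T using Finset.induction_on with
    | empty => simp
    | insert a T ha ih =>
      rw [Finset.sum_insert ha, Finset.sum_insert ha, Finset.sum_insert ha, Q_add, Q_smul]
      have e1 : ∑ j ∈ T, ∑ k ∈ insert a T, S j k * y k * y j =
          ∑ j ∈ T, S j a * y a * y j + ∑ j ∈ T, ∑ k ∈ T, S j k * y k * y j := by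
        rw [← Finset.sum_add_distrib]
        refine Finset.sum_congr rfl fun j _ => ?_
        rw [Finset.sum_insert ha]
      rw [e1, ih]
      have e2 : polar (⇑Q₀) (y a • cJ c a) (∑ j ∈ T, y j • cJ c j) =
          ∑ j ∈ T, y a * y j * polar (⇑Q₀) (cJ c a) (cJ c j) := by
        rw [polar_smul_left', ← polarBilin_apply_apply, map_sum, Finset.mul_sum]
        refine Finset.sum_congr rfl fun j _ => ?_
        rw [map_smul, polarBilin_apply_apply, smul_eq_mul]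
        ring
      rw [e2, hd a]
      have e3 : ∑ j ∈ T, S j a * y a * y j + ∑ k ∈ T, S a k * y k * y a =
          - ∑ j ∈ T, y a * y j * polar (⇑Q₀) (cJ c a) (cJ c j) := by
        rw [← Finset.sum_add_distrib, ← Finset.sum_neg_distrib]
        refine Finset.sum_congr rfl fun j hj => ?_
        have hne : a ≠ j := fun h => ha (h ▸ hj)
        have := hs a j hne
        linear_combination (y a * y j) * this
      have e4 : S a a * y a * y a = - (y a * y a * Q₀ (cJ c a)) := by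
        rw [hd a]
        ring
      linear_combination e3 + e4 - (y a * y a) * hd a
  have h1 := key Finset.univ
  rw [← mulVec_eq_sum] at h1
  rw [← h1]
  simp only [dotProduct, mulVec, Finset.sum_mul]

/-- Every `c` has a compatible `S`. -/
theorem exists_compat (c : Matrix (Fin 2) (Fin m) F) : ∃ S : Matrix (Fin m) (Fin m) F, IsCompat Q₀ c S := by
  refine ⟨fun j k => if j = k then - Q₀ (cJ c j) else if k < j then - polar (⇑Q₀) (cJ c j) (cJ c k) else 0, ?_⟩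
  apply isCompat_of_entries
  · intro j
    simp
  · intro j k hjk
    rcases lt_or_gt_of_ne hjk with h | h
    · simp only [hjk, Ne.symm hjk, if_false, not_lt.2 h.le, h, if_true, zero_add]
      rw [polar_comm]
    · simp only [hjk, Ne.symm hjk, if_false, not_lt.2 h.le, h, if_true, add_zero]

end Compat

section Cell

variable (hQ : Aniso Q₀)
include hQ

/-- The big cell. -/
theorem exists_cell (g : OM Q₀ m) (D : GL (Fin m) F) (τ : O2 Q₀)
    (hD : blkD g = (D : Matrix (Fin m) (Fin m) F))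
    (hτ : ∀ z, ∃ x, xc (act g (mkM x z 0)) = 0 ∧ zc (act g (mkM x z 0)) = act τ z) :
    ∃ u ∈ QT Q₀ m, ∃ v ∈ QW Q₀ m, g = u * lev Q₀ m (D, τ) * v := by
  set Di : Matrix (Fin m) (Fin m) F := ((D⁻¹ : GL (Fin m) F) : Matrix (Fin m) (Fin m) F) with hDi
  have e1 : Di * (D : Matrix (Fin m) (Fin m) F) = 1 := inv_E_mul D
  have e2 : (D : Matrix (Fin m) (Fin m) F) * Di = 1 := E_inv_mul D
  set c := blkC g * Di with hc
  set A := blkR g * Di with hA
  have hAlt : IsCompat Q₀ c A := by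
    intro w
    have h3 := blk_Q g (Di *ᵥ w)
    have e3 : (D : Matrix (Fin m) (Fin m) F) *ᵥ (Di *ᵥ w) = w := by
      rw [mulVec_mulVec, e2, one_mulVec]
    have e4 : blkR g *ᵥ (Di *ᵥ w) = A *ᵥ w := by
      rw [mulVec_mulVec]
    have e5 : blkC g *ᵥ (Di *ᵥ w) = c *ᵥ w := by
      rw [mulVec_mulVec]
    rw [hD, e3, e4, e5, dotProduct_comm] at h3
    linear_combination h3
  set u := VV hQ c A hAlt with hu
  set l := lev Q₀ m (D, τ) with hl
  have humem : u ∈ QT Q₀ m := VV_mem_QT hQ c A hAlt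
  have hmain : ∀ x, act (u * l) (mkM x 0 0) = act g (mkM x 0 0) := by
    intro x
    rw [act_mul, hl, act_lev_W, hu, act_VV, act_W]
    simp only [xc_mkM, yc_mkM, zc_mkM, zero_add, adj_zero, add_zero]
    rw [hD]
    have e4 : A *ᵥ ((D : Matrix (Fin m) (Fin m) F) *ᵥ x) = blkR g *ᵥ x := by
      rw [hA, mulVec_mulVec, mul_assoc, e1, mul_one]
    have e5 : c *ᵥ ((D : Matrix (Fin m) (Fin m) F) *ᵥ x) = blkC g *ᵥ x := by
      rw [hc, mulVec_mulVec, Matrix.mul_assoc, e1, Matrix.mul_one]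
    rw [e4, e5]
  have hfix : ∀ x, act ((u * l)⁻¹ * g) (mkM x 0 0) = mkM x 0 0 := by
    intro x
    rw [act_mul, ← hmain, act_inv_act]
  refine ⟨u, humem, (u * l)⁻¹ * g, ⟨hfix, fun z => ?_⟩, ?_⟩
  · obtain ⟨x, hx1, hx2⟩ := hτ z
    set v := (u * l)⁻¹ * g with hv
    have e3 : act v (mkM x z 0) = mkM x 0 0 + act v (mkM 0 z 0) := by
      have : mkM x z (0 : Fin m → F) = mkM x 0 0 + mkM 0 z 0 := by
        rw [mkM_add]
        simp
      rw [this, act_add, hfix]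
    have e4 : act g (mkM x z 0) = mkM 0 (act τ z) (yc (act g (mkM x z 0))) := by
      apply vext
      · exact hx1
      · exact hx2
      · rfl
    have e5 : zc (act v (mkM x z 0)) = z := by
      have e6 : v = l⁻¹ * u⁻¹ * g := by
        rw [hv, _root_.mul_inv_rev]
      rw [e6, act_mul, act_mul, e4, act_QT_perp ((QT Q₀ m).inv_mem humem), hl, lev_inv, act_lev, zc_mkM, zc_mkM, act_inv_act]
    rw [e3, zc_add, zc_mkM, zero_add] at e5
    exact e5
  · group

omit hQ in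
/-- Conjugating by an element of `QW`. -/
theorem act_conj_W (g : OM Q₀ m) {h : OM Q₀ m} (hh : h ∈ QW Q₀ m) (x : Fin m → F) :
    act (h * g * h⁻¹) (mkM x 0 0) = act h (act g (mkM x 0 0)) := by
  rw [act_mul, act_mul, ((QW Q₀ m).inv_mem hh).1]

/-- Conjugating by an element of `QW`: the blocks. -/
theorem blk_conj (g : OM Q₀ m) (c : Matrix (Fin 2) (Fin m) F) (S : Matrix (Fin m) (Fin m) F) (hS : IsCompat Q₀ c S)
    (x : Fin m → F) :
    blkD (UU hQ c S hS * g * (UU hQ c S hS)⁻¹) *ᵥ x = blkD g *ᵥ x + S *ᵥ (blkR g *ᵥ x) + adj Q₀ c (blkC g *ᵥ x) ∧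
    blkC (UU hQ c S hS * g * (UU hQ c S hS)⁻¹) *ᵥ x = blkC g *ᵥ x + c *ᵥ (blkR g *ᵥ x) ∧
    blkR (UU hQ c S hS * g * (UU hQ c S hS)⁻¹) *ᵥ x = blkR g *ᵥ x := by
  have h1 := act_W (UU hQ c S hS * g * (UU hQ c S hS)⁻¹) x
  rw [act_conj_W g (UU_mem_QW hQ c S hS), act_W, act_UU] at h1
  simp only [xc_mkM, yc_mkM, zc_mkM] at h1
  exact ⟨(congrArg xc h1).symm, (congrArg zc h1).symm, (congrArg yc h1).symm⟩

end Cell

end Cfsg.Agent.Lib.OreMinus
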