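import Mathlib
import Cfsg.Agent.Lib.OreMinus.Model

/-!
# The isometries of the anisotropic plane: reflections
-/

set_option autoImplicit false
set_option linter.unusedSectionVars false
set_option linter.unusedSimpArgs false
set_option linter.unusedVariables false

namespace Cfsg.Agent.Lib.OreMinus

open Matrix QuadraticMap Module
open Cfsg.Agent.Lib.Classical.Orth.Basic

variable {F : Type*} [Field F] {Q₀ : QuadraticForm F (W2 F)}

variable (Q₀) in
/-- The reflection as a function. -/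
noncomputable def rf (u z : W2 F) : W2 F := z - ((Q₀ u)⁻¹ * polar (⇑Q₀) u z) • u

theorem rf_eq_act (u : W2 F) (hu : Q₀ u ≠ 0) (z : W2 F) : rf Q₀ u z = act (reflectionIso Q₀ u hu) z :=
  (reflectionIso_act u hu z).symm

theorem rf_rf {u : W2 F} (hu : Q₀ u ≠ 0) (z : W2 F) : rf Q₀ u (rf Q₀ u z) = z := by
  rw [rf_eq_act u hu, rf_eq_act u hu, ← act_mul, reflectionIso_mul_self, act_one]

theorem Q_rf {u : W2 F} (hu : Q₀ u ≠ 0) (z : W2 F) : Q₀ (rf Q₀ u z) = Q₀ z := by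
  rw [rf_eq_act u hu, Q_act]

theorem polar_rf {u : W2 F} (hu : Q₀ u ≠ 0) (a b : W2 F) : polar (⇑Q₀) (rf Q₀ u a) (rf Q₀ u b) = polar (⇑Q₀) a b := by
  rw [rf_eq_act u hu, rf_eq_act u hu, polar_act]

theorem rf_smul {u : W2 F} (hu : Q₀ u ≠ 0) {c : F} (hc : c ≠ 0) (z : W2 F) : rf Q₀ (c • u) z = rf Q₀ u z := by
  simp only [rf, Q_smul, polar_smul_left', smul_smul]
  congr 2
  field_simp

theorem rf_of_polar_zero {u z : W2 F} (h : polar (⇑Q₀) u z = 0) : rf Q₀ u z = z := by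
  simp [rf, h]

/-- A linear isometry fixing two independent vectors is trivial. -/
theorem eq_of_fix_two (e : Matrix (Fin 2) (Fin 2) F) {x y : W2 F} (hli : LinearIndependent F ![x, y])
    (hx : e *ᵥ x = x) (hy : e *ᵥ y = y) (z : W2 F) : e *ᵥ z = z := by
  have hspan : Submodule.span F (Set.range ![x, y]) = ⊤ :=
    hli.span_eq_top_of_card_eq_finrank' (by simp)
  have hz : z ∈ Submodule.span F (Set.range ![x, y]) := by
    rw [hspan]
    trivial
  induction hz using Submodule.span_induction with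
  | mem a ha =>
    obtain ⟨i, rfl⟩ := ha
    fin_cases i
    · exact hx
    · exact hy
  | zero => exact mulVec_zero _
  | add a b _ _ ha hb => rw [mulVec_add, ha, hb]
  | smul c a _ ha => rw [mulVec_smul, ha]

/-- **The decomposition into reflections.** Every isometry of an anisotropic plane is a reflection or a product of two
reflections. -/
theorem exists_refl_decomp (hQ : Aniso Q₀) (e : Matrix (Fin 2) (Fin 2) F) (he : ∀ z, Q₀ (e *ᵥ z) = Q₀ z) :
    (∃ u, Q₀ u ≠ 0 ∧ ∀ z, e *ᵥ z = rf Q₀ u z) ∨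
      ∃ u u', Q₀ u ≠ 0 ∧ Q₀ u' ≠ 0 ∧ ∀ z, e *ᵥ z = rf Q₀ u (rf Q₀ u' z) := by
  classical
  have hne : ∀ u : W2 F, u ≠ 0 → Q₀ u ≠ 0 := fun u hu h => hu (hQ.ani u h)
  have hstep : ∀ (f : Matrix (Fin 2) (Fin 2) F) (x : W2 F), Q₀ (f *ᵥ x) = Q₀ x → f *ᵥ x ≠ x →
      rf Q₀ (f *ᵥ x - x) (f *ᵥ x) = x := by
    intro f x hf hx
    have hQu : Q₀ (f *ᵥ x - x) ≠ 0 := hne _ (sub_ne_zero.2 hx)
    have h1 : Q₀ (f *ᵥ x - x) = 2 * Q₀ x - polar (⇑Q₀) (f *ᵥ x) x := by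
      rw [Q_sub, hf]
      ring
    have h2 : polar (⇑Q₀) (f *ᵥ x - x) (f *ᵥ x) = 2 * Q₀ x - polar (⇑Q₀) (f *ᵥ x) x := by
      rw [polar_sub_left, polar_self_eq, hf, polar_comm _ x]
    simp only [rf]
    rw [h2, ← h1, inv_mul_cancel₀ hQu, one_smul]
    abel
  by_cases h0 : ∀ z, e *ᵥ z = z
  · right
    have hu : Q₀ (Pi.single 0 1 : W2 F) ≠ 0 := hne _ (by
      intro h
      have := congrFun h 0
      simp at this)
    exact ⟨_, _, hu, hu, fun z => by rw [rf_rf hu, h0]⟩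
  push Not at h0
  obtain ⟨x, hx⟩ := h0
  set u := e *ᵥ x - x with hu
  have hQu : Q₀ u ≠ 0 := hne u (sub_ne_zero.2 hx)
  have hr1 : rf Q₀ u (e *ᵥ x) = x := hstep e x (he x) hx
  -- the second isometry
  let e₁ : Matrix (Fin 2) (Fin 2) F := Cfsg.reflectionMatrix (⇑Q₀) u * e
  have he₁ : ∀ z, e₁ *ᵥ z = rf Q₀ u (e *ᵥ z) := by
    intro z
    rw [← mulVec_mulVec, reflectionMatrix_mulVec]
    rfl
  have hQ₁ : ∀ z, Q₀ (e₁ *ᵥ z) = Q₀ z := by
    intro z
    rw [he₁, Q_rf hQu, he]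
  have hpol₁ : ∀ a b, polar (⇑Q₀) (e₁ *ᵥ a) (e₁ *ᵥ b) = polar (⇑Q₀) a b := by
    intro a b
    simp only [polar]
    rw [← mulVec_add, hQ₁, hQ₁, hQ₁]
  have hfx : e₁ *ᵥ x = x := by rw [he₁, hr1]
  have hback : ∀ z, e *ᵥ z = rf Q₀ u (e₁ *ᵥ z) := by
    intro z
    rw [he₁, rf_rf hQu]
  by_cases h1 : ∀ z, e₁ *ᵥ z = z
  · left
    exact ⟨u, hQu, fun z => by rw [hback, h1]⟩
  push Not at h1
  obtain ⟨y, hy⟩ := h1
  right
  set u' := e₁ *ᵥ y - y with hu'
  have hQu' : Q₀ u' ≠ 0 := hne u' (sub_ne_zero.2 hy)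
  have hr2 : rf Q₀ u' (e₁ *ᵥ y) = y := hstep e₁ y (hQ₁ y) hy
  let e₂ : Matrix (Fin 2) (Fin 2) F := Cfsg.reflectionMatrix (⇑Q₀) u' * e₁
  have he₂ : ∀ z, e₂ *ᵥ z = rf Q₀ u' (e₁ *ᵥ z) := by
    intro z
    rw [← mulVec_mulVec, reflectionMatrix_mulVec]
    rfl
  have hux : polar (⇑Q₀) u' x = 0 := by
    have h3 := hpol₁ y x
    rw [hfx] at h3
    rw [hu', polar_sub_left, h3, sub_self]
  have hx₂ : e₂ *ᵥ x = x := by
    rw [he₂, hfx, rf_of_polar_zero hux]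
  have hy₂ : e₂ *ᵥ y = y := by
    rw [he₂, hr2]
  have hx0 : x ≠ 0 := by
    rintro rfl
    exact hx (mulVec_zero _)
  have hli : LinearIndependent F ![x, y] := by
    rw [LinearIndependent.pair_iff]
    intro s t hst
    by_cases ht : t = 0
    · subst ht
      rw [zero_smul, add_zero] at hst
      exact ⟨(smul_eq_zero.1 hst).resolve_right hx0, rfl⟩
    · exfalso
      have h4 : y = (-(t⁻¹ * s)) • x := by
        have h5 : t • y = -(s • x) := by
          rw [eq_neg_iff_add_eq_zero, add_comm]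
          exact hst
        have h6 := congrArg (fun w => t⁻¹ • w) h5
        simp only [smul_smul, inv_mul_cancel₀ ht, one_smul, smul_neg] at h6
        rw [h6, neg_smul]
      apply hy
      rw [h4, mulVec_smul, hfx]
  refine ⟨u, u', hQu, hQu', fun z => ?_⟩
  have h7 := eq_of_fix_two e₂ hli hx₂ hy₂ z
  rw [he₂] at h7
  rw [hback]
  congr 1
  rw [← h7, rf_rf hQu', h7]

end Cfsg.Agent.Lib.OreMinus
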