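import Mathlib
import Cfsg.Agent.Lib.OreMinus.Plane
import Cfsg.Agent.Lib.OrePlus.Normal2

/-!
# The normal form of the blocks of an element of `O⁻`
-/

set_option autoImplicit false
set_option linter.unusedSectionVars false
set_option linter.unusedSimpArgs false
set_option linter.unusedVariables false

namespace Cfsg.Agent.Lib.OreMinus

open Matrix QuadraticMap Module
open Cfsg.Agent.Lib.Classical.Orth.Basic
open Cfsg.Agent.Lib.OreOmega (IsAltM isAltM_of_entries dlt exists_rank_form)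
open Cfsg.Agent.Lib.OrePlus (formP FormD mulVec_form_eq dot_E)

variable {F : Type*} [Field F] {m : ℕ} {Q₀ : QuadraticForm F (W2 F)}

set_option quotPrecheck false in
local notation "⟪" E "⟫" => ((E : GL (Fin m) F) : Matrix (Fin m) (Fin m) F)

section Pure

variable {E Cm : GL (Fin m) F} {s : Finset (Fin m)}

theorem dlt_idem (s : Finset (Fin m)) : diagonal (dlt (F := F) s) * diagonal (dlt s) = diagonal (dlt s) := by
  rw [diagonal_mul_diagonal]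
  congr 1
  ext i
  by_cases h : i ∈ s <;> simp [dlt, h]

theorem sum_off {p : Fin m → Prop} [DecidablePred p] (f : Fin m → F) (hf : ∀ k, p k → f k = 0) :
    ∑ k, f k = ∑ k : {k // ¬ p k}, f k := by
  have h1 : ∑ k : {k // p k}, f k = 0 := Finset.sum_eq_zero (fun (k : {k // p k}) _ => hf k k.2)
  rw [← Fintype.sum_subtype_add_sum_subtype p, h1, zero_add]

theorem sum_on {p : Fin m → Prop} [DecidablePred p] (f : Fin m → F) (hf : ∀ k, ¬ p k → f k = 0) :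
    ∑ k, f k = ∑ k : {k // p k}, f k := by
  have h1 : ∑ k : {k // ¬ p k}, f k = 0 := Finset.sum_eq_zero (fun (k : {k // ¬ p k}) _ => hf k k.2)
  rw [← Fintype.sum_subtype_add_sum_subtype p, h1, add_zero]

theorem dlt_dot_zero {s : Finset (Fin m)} {j : Fin m} (hj : j ∉ s) (l : Fin m → F) :
    l ⬝ᵥ (diagonal (dlt s) *ᵥ Pi.single j 1) = 0 := by
  rw [dotProduct_comm, Cfsg.Agent.Lib.OreOmega.dlt_mulVec_single, if_neg hj]

theorem dlt_dot_one {s : Finset (Fin m)} {j : Fin m} (hj : j ∈ s) (l : Fin m → F) :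
    l ⬝ᵥ (diagonal (dlt s) *ᵥ Pi.single j 1) = l j := by
  rw [dotProduct_comm, Cfsg.Agent.Lib.OreOmega.dlt_mulVec_single, if_pos hj]

theorem dlt_single (s : Finset (Fin m)) (a : Fin m → F) (k : Fin m) (hk : k ∉ s) : (diagonal (dlt s) *ᵥ a) k = 0 := by
  rw [mulVec_diagonal]
  simp [dlt, hk]

theorem dlt_single' (s : Finset (Fin m)) (a : Fin m → F) (k : Fin m) (hk : k ∈ s) : (diagonal (dlt s) *ᵥ a) k = a k := by
  rw [mulVec_diagonal]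
  simp [dlt, hk]

theorem Rm_Cm {R : Matrix (Fin m) (Fin m) F} (hΔ : ⟪E⟫ * R * ⟪Cm⟫ = diagonal (dlt s)) (a : Fin m → F) :
    R *ᵥ (⟪Cm⟫ *ᵥ a) = ⟪E⁻¹⟫ *ᵥ (diagonal (dlt s) *ᵥ a) := by
  rw [← hΔ, mulVec_mulVec, mulVec_mulVec, mul_assoc, ← mul_assoc _ ⟪E⟫, inv_E_mul, one_mul]

/-- The block `P`. -/
noncomputable def bP (D : Matrix (Fin m) (Fin m) F) (E Cm : GL (Fin m) F) : Matrix (Fin m) (Fin m) F :=
  ⟪E⁻¹⟫ᵀ * D * ⟪Cm⟫

theorem Dm_Cm (D : Matrix (Fin m) (Fin m) F) (E Cm : GL (Fin m) F) (a : Fin m → F) :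
    D *ᵥ (⟪Cm⟫ *ᵥ a) = ⟪E⟫ᵀ *ᵥ (bP D E Cm *ᵥ a) := by
  rw [bP, mulVec_mulVec, mulVec_mulVec, ← mul_assoc, ← mul_assoc, ← transpose_mul, inv_E_mul, transpose_one, one_mul]

/-- The form relations. -/
theorem formD_of' {D R : Matrix (Fin m) (Fin m) F} (hΔ : ⟪E⟫ * R * ⟪Cm⟫ = diagonal (dlt s))
    (h1 : ∀ x, (D *ᵥ x) ⬝ᵥ (R *ᵥ x) = 0) (h2 : ∀ x x', (D *ᵥ x) ⬝ᵥ (R *ᵥ x') + (D *ᵥ x') ⬝ᵥ (R *ᵥ x) = 0) :
    FormD (bP D E Cm) s := by
  classical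
  have key : ∀ a, (bP D E Cm *ᵥ a) ⬝ᵥ (diagonal (dlt s) *ᵥ a) = 0 := by
    intro a
    have h3 := h1 (⟪Cm⟫ *ᵥ a)
    rwa [Dm_Cm D E Cm, Rm_Cm hΔ, dot_E] at h3
  have key2 : ∀ a b, (bP D E Cm *ᵥ a) ⬝ᵥ (diagonal (dlt s) *ᵥ b) + (bP D E Cm *ᵥ b) ⬝ᵥ (diagonal (dlt s) *ᵥ a) = 0 := by
    intro a b
    have h3 := h2 (⟪Cm⟫ *ᵥ a) (⟪Cm⟫ *ᵥ b)
    rwa [Dm_Cm D E Cm, Dm_Cm D E Cm, Rm_Cm hΔ, Rm_Cm hΔ, dot_E, dot_E] at h3
  have e : ∀ j (l : Fin m → F), l ⬝ᵥ (diagonal (dlt s) *ᵥ Pi.single j 1) = if j ∈ s then l j else 0 := by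
    intro j l
    rw [dotProduct_comm, Cfsg.Agent.Lib.OreOmega.dlt_mulVec_single]
  refine ⟨fun j hj => ?_, fun j k => ?_⟩
  · have h3 := key (Pi.single j 1)
    rw [e] at h3
    simpa [hj, mulVec_single] using h3
  · have h3 := key2 (Pi.single k 1) (Pi.single j 1)
    rw [e, e] at h3
    simpa [mulVec_single] using h3

/-- The lower right block is invertible. -/
theorem det_block_ne' {D R : Matrix (Fin m) (Fin m) F} (hΔ : ⟪E⟫ * R * ⟪Cm⟫ = diagonal (dlt s))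
    (fd : FormD (bP D E Cm) s) (hinj : ∀ x, D *ᵥ x = 0 → R *ᵥ x = 0 → x = 0) :
    (toSquareBlockProp (bP D E Cm) (fun i => ¬ i ∈ s)).det ≠ 0 := by
  classical
  intro h0
  obtain ⟨v, hv, hv0⟩ := Matrix.exists_mulVec_eq_zero_iff.2 h0
  let a : Fin m → F := fun i => if h : i ∈ s then 0 else v ⟨i, h⟩
  have ha1 : ∀ i ∈ s, a i = 0 := fun i hi => dif_pos hi
  have ha2 : ∀ i (hi : ¬ i ∈ s), a i = v ⟨i, hi⟩ := fun i hi => dif_neg hi
  have hPa : bP D E Cm *ᵥ a = 0 := by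
    ext j
    simp only [mulVec, dotProduct, Pi.zero_apply]
    by_cases hj : j ∈ s
    · refine Finset.sum_eq_zero fun k _ => ?_
      by_cases hk : k ∈ s
      · rw [ha1 k hk, mul_zero]
      · rw [fd.P0 hj hk, zero_mul]
    · rw [← Fintype.sum_subtype_add_sum_subtype (fun k => k ∈ s)]
      refine (congrArg (· + _) (Finset.sum_eq_zero fun k _ => ?_)).trans ?_
      · rw [ha1 k k.2, mul_zero]
      · rw [zero_add]
        have h2 := congrFun hv0 ⟨j, hj⟩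
        simp only [mulVec, dotProduct, Pi.zero_apply] at h2
        rw [← h2]
        refine Finset.sum_congr rfl fun k _ => ?_
        rw [ha2 k k.2]
        rfl
  have hδa : diagonal (dlt s) *ᵥ a = 0 := by
    ext j
    rw [mulVec_diagonal]
    by_cases hj : j ∈ s
    · simp [ha1 j hj]
    · simp [dlt, hj]
  have h1 : D *ᵥ (⟪Cm⟫ *ᵥ a) = 0 := by
    rw [Dm_Cm D E Cm, hPa, mulVec_zero]
  have h2 : R *ᵥ (⟪Cm⟫ *ᵥ a) = 0 := by
    rw [Rm_Cm hΔ, hδa, mulVec_zero]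
  have h3 := hinj _ h1 h2
  have h8 := congrArg (fun w => ⟪Cm⁻¹⟫ *ᵥ w) h3
  simp only [mulVec_mulVec, inv_E_mul, one_mulVec, mulVec_zero] at h8
  apply hv
  ext i
  have := congrFun h8 i
  rw [ha2 i i.2] at this
  exact this

end Pure

section Step1

variable (hQ : Aniso Q₀)
include hQ

/-- The columns off `s` of `C Cm` vanish. -/
theorem rho_zero (g : OM Q₀ m) {E Cm : GL (Fin m) F} {s : Finset (Fin m)}
    (hΔ : ⟪E⟫ * blkR g * ⟪Cm⟫ = diagonal (dlt s)) {k : Fin m} (hk : k ∉ s) :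
    blkC g *ᵥ (⟪Cm⟫ *ᵥ Pi.single k 1) = 0 := by
  classical
  have h1 := blk_Q g (⟪Cm⟫ *ᵥ Pi.single k 1)
  have h2 : diagonal (dlt s) *ᵥ (Pi.single k 1 : Fin m → F) = 0 := by
    ext j
    rw [mulVec_diagonal]
    by_cases hj : j = k
    · subst hj
      simp [dlt, hk]
    · simp [hj]
  rw [Rm_Cm hΔ, h2, mulVec_zero, dotProduct_zero, zero_add] at h1
  exact hQ.ani _ h1

/-- Conjugating to `C = 0`. -/
theorem exists_conj_C_zero (g : OM Q₀ m) {E Cm : GL (Fin m) F} {s : Finset (Fin m)}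
    (hΔ : ⟪E⟫ * blkR g * ⟪Cm⟫ = diagonal (dlt s)) :
    ∃ h ∈ QW Q₀ m, blkC (h * g * h⁻¹) = 0 ∧ blkR (h * g * h⁻¹) = blkR g := by
  classical
  set ρ := blkC g * ⟪Cm⟫ with hρ
  have hρδ : ρ * (diagonal (dlt s) : Matrix (Fin m) (Fin m) F) = ρ := by
    ext i k
    rw [mul_diagonal]
    by_cases hk : k ∈ s
    · simp [dlt, hk]
    · have h1 := congrFun (rho_zero hQ g hΔ hk) i
      rw [mulVec_mulVec, mulVec_single_one] at h1
      have h2 : ρ i k = 0 := h1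
      rw [h2]
      simp
  set c : Matrix (Fin 2) (Fin m) F := -(ρ * (diagonal (dlt s) : Matrix (Fin m) (Fin m) F) * ⟪E⟫) with hc
  have hkey : blkC g + c * blkR g = 0 := by
    have h1 : (blkC g + c * blkR g) * ⟪Cm⟫ = 0 := by
      rw [Matrix.add_mul, ← hρ, hc, Matrix.neg_mul, Matrix.neg_mul, Matrix.mul_assoc, Matrix.mul_assoc, Matrix.mul_assoc]
      have h3 : ⟪E⟫ * (blkR g * ⟪Cm⟫) = diagonal (dlt s) := by
        rw [← Matrix.mul_assoc, hΔ]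
      rw [h3, ← Matrix.mul_assoc, hρδ, hρδ]
      simp
    calc blkC g + c * blkR g = (blkC g + c * blkR g) * (⟪Cm⟫ * ⟪Cm⁻¹⟫) := by
          rw [E_inv_mul, Matrix.mul_one]
      _ = ((blkC g + c * blkR g) * ⟪Cm⟫) * ⟪Cm⁻¹⟫ := by rw [Matrix.mul_assoc]
      _ = 0 := by rw [h1, Matrix.zero_mul]
  obtain ⟨S, hS⟩ := exists_compat (Q₀ := Q₀) c
  refine ⟨UU hQ c S hS, UU_mem_QW hQ c S hS, ?_, ?_⟩
  · apply Matrix.ext_of_mulVec_single
    intro j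
    rw [(blk_conj hQ g c S hS _).2.1, mulVec_mulVec, ← add_mulVec, hkey]
  · apply Matrix.ext_of_mulVec_single
    intro j
    rw [(blk_conj hQ g c S hS _).2.2]

end Step1

section Zero

variable {g : OM Q₀ m} {E Cm : GL (Fin m) F} {s : Finset (Fin m)}

/-- The action on `W^⊥`. -/
theorem act_perp (g : OM Q₀ m) (x : Fin m → F) (z : W2 F) :
    act g (mkM x z 0) = mkM (blkD g *ᵥ x + blkA g *ᵥ z) (blkC g *ᵥ x + blkE g *ᵥ z) (blkR g *ᵥ x + blkB g *ᵥ z) := by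
  have h1 : mkM x z (0 : Fin m → F) = mkM x 0 0 + mkM 0 z 0 := by
    rw [mkM_add]
    simp
  rw [h1, act_add, act_W, act_Z, mkM_add]

theorem formD_zero (hC : blkC g = 0) (hΔ : ⟪E⟫ * blkR g * ⟪Cm⟫ = diagonal (dlt s)) :
    FormD (bP (blkD g) E Cm) s := by
  refine formD_of' hΔ (fun x => ?_) (fun x x' => ?_)
  · have := blk_Q g x
    simpa [hC] using this
  · have := blk_polar g x x'
    simpa [hC] using this

theorem det_block_zero (hC : blkC g = 0) (hΔ : ⟪E⟫ * blkR g * ⟪Cm⟫ = diagonal (dlt s)) :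
    (toSquareBlockProp (bP (blkD g) E Cm) (fun i => ¬ i ∈ s)).det ≠ 0 := by
  refine det_block_ne' hΔ (formD_zero hC hΔ) (fun x h1 h2 => ?_)
  have h3 := act_W g x
  rw [h1, h2, hC, zero_mulVec, mkM_zero] at h3
  have h4 := congrArg (act g⁻¹) h3
  rw [act_inv_act, act_zero] at h4
  exact congrArg xc h4

/-- The relation between the `W`-columns and the `Z`-columns. -/
theorem rel_Z (hC : blkC g = 0) (hΔ : ⟪E⟫ * blkR g * ⟪Cm⟫ = diagonal (dlt s)) (z : W2 F) (a : Fin m → F) :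
    (bP (blkD g) E Cm *ᵥ a) ⬝ᵥ (⟪E⟫ *ᵥ (blkB g *ᵥ z)) + (⟪E⁻¹⟫ᵀ *ᵥ (blkA g *ᵥ z)) ⬝ᵥ (diagonal (dlt s) *ᵥ a) = 0 := by
  have h1 := blk_polarZ g (⟪Cm⟫ *ᵥ a) z
  rw [hC, zero_mulVec, polar_zero_left, add_zero, Dm_Cm _ E Cm, Rm_Cm hΔ] at h1
  have e1 : (⟪E⟫ᵀ *ᵥ (bP (blkD g) E Cm *ᵥ a)) ⬝ᵥ (blkB g *ᵥ z) = (bP (blkD g) E Cm *ᵥ a) ⬝ᵥ (⟪E⟫ *ᵥ (blkB g *ᵥ z)) := by
    rw [dotProduct_comm, dotProduct_mulVec, vecMul_transpose, dotProduct_comm]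
  have e2 : (blkA g *ᵥ z) ⬝ᵥ (⟪E⁻¹⟫ *ᵥ (diagonal (dlt s) *ᵥ a)) = (⟪E⁻¹⟫ᵀ *ᵥ (blkA g *ᵥ z)) ⬝ᵥ (diagonal (dlt s) *ᵥ a) := by
    rw [dotProduct_mulVec, mulVec_transpose]
  rw [e1, e2] at h1
  exact h1

/-- The support of `E B z`. -/
theorem bt_zero (hC : blkC g = 0) (hΔ : ⟪E⟫ * blkR g * ⟪Cm⟫ = diagonal (dlt s)) (z : W2 F) {i : Fin m} (hi : i ∉ s) :
    (⟪E⟫ *ᵥ (blkB g *ᵥ z)) i = 0 := by
  classical
  set bt := ⟪E⟫ *ᵥ (blkB g *ᵥ z) with hbt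
  set P := bP (blkD g) E Cm with hP
  have fd : FormD P s := formD_zero hC hΔ
  have hdet : (toSquareBlockProp P (fun i => ¬ i ∈ s)).det ≠ 0 := det_block_zero hC hΔ
  have h1 : (fun i : {i // ¬ i ∈ s} => bt i) ᵥ* (toSquareBlockProp P (fun i => ¬ i ∈ s)) = 0 := by
    ext j
    have h2 := rel_Z hC hΔ z (Pi.single j.1 1)
    rw [dlt_dot_zero j.2, add_zero, ← hbt, ← hP, mulVec_single_one, dotProduct] at h2
    simp only [vecMul, dotProduct, Pi.zero_apply]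
    have h3 : ∑ k, P k j.1 * bt k = 0 := h2
    rw [sum_off (p := fun k => k ∈ s) _ (fun k hk => by rw [fd.P0 hk j.2, zero_mul])] at h3
    rw [← h3]
    refine Finset.sum_congr rfl fun k _ => ?_
    exact mul_comm _ _
  have h5 := Matrix.eq_zero_of_vecMul_eq_zero hdet h1
  exact congrFun h5 ⟨i, hi⟩

/-- The vector `E⁻ᵀ A z` on `s`. -/
theorem at_eq (hC : blkC g = 0) (hΔ : ⟪E⟫ * blkR g * ⟪Cm⟫ = diagonal (dlt s)) (z : W2 F) {j : Fin m} (hj : j ∈ s) :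
    (⟪E⁻¹⟫ᵀ *ᵥ (blkA g *ᵥ z)) j = (bP (blkD g) E Cm *ᵥ (⟪E⟫ *ᵥ (blkB g *ᵥ z))) j := by
  classical
  set bt := ⟪E⟫ *ᵥ (blkB g *ᵥ z) with hbt
  set P := bP (blkD g) E Cm with hP
  have fd : FormD P s := formD_zero hC hΔ
  have h2 := rel_Z hC hΔ z (Pi.single j 1)
  rw [dlt_dot_one hj, ← hbt, ← hP, mulVec_single_one, dotProduct] at h2
  have h3 : ∑ k, P k j * bt k = - (P *ᵥ bt) j := by
    simp only [mulVec, dotProduct]
    rw [← Finset.sum_neg_distrib]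
    refine Finset.sum_congr rfl fun k _ => ?_
    by_cases hk : k ∈ s
    · rw [fd.Ps hk hj]
      ring
    · rw [hbt, bt_zero hC hΔ z hk]
      ring
  have h4 : ∑ k, P k j * bt k + (⟪E⁻¹⟫ᵀ *ᵥ (blkA g *ᵥ z)) j = 0 := h2
  rw [h3] at h4
  linear_combination h4

/-- The block `E` is an isometry of the plane. -/
theorem Q_blkE (hC : blkC g = 0) (hΔ : ⟪E⟫ * blkR g * ⟪Cm⟫ = diagonal (dlt s)) (z : W2 F) :
    Q₀ (blkE g *ᵥ z) = Q₀ z := by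
  classical
  have h1 := blk_QZ g z
  set bt := ⟪E⟫ *ᵥ (blkB g *ᵥ z) with hbt
  set at' := ⟪E⁻¹⟫ᵀ *ᵥ (blkA g *ᵥ z) with hat
  set P := bP (blkD g) E Cm with hP
  have fd : FormD P s := formD_zero hC hΔ
  have e1 : (blkA g *ᵥ z) ⬝ᵥ (blkB g *ᵥ z) = at' ⬝ᵥ bt := by
    rw [hat, hbt, mulVec_transpose, ← dotProduct_mulVec, mulVec_mulVec, inv_E_mul, one_mulVec]
  have h2 : at' ⬝ᵥ bt = (P *ᵥ bt) ⬝ᵥ bt := by
    simp only [dotProduct]
    refine Finset.sum_congr rfl fun k _ => ?_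
    by_cases hk : k ∈ s
    · rw [hat, hbt, hP, at_eq hC hΔ z hk]
    · rw [hbt, bt_zero hC hΔ z hk]
      ring
  have h3 : diagonal (dlt s) *ᵥ bt = bt := by
    ext k
    by_cases hk : k ∈ s
    · rw [dlt_single' s bt k hk]
    · rw [dlt_single s bt k hk, hbt, bt_zero hC hΔ z hk]
  have h4 : (P *ᵥ bt) ⬝ᵥ bt = 0 := by
    have h5 := blk_Q g (⟪Cm⟫ *ᵥ bt)
    rw [hC, zero_mulVec, map_zero, add_zero, Dm_Cm _ E Cm, Rm_Cm hΔ, dot_E, h3] at h5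
    exact h5
  rw [e1, h2, h4, zero_add] at h1
  exact h1

end Zero

end Cfsg.Agent.Lib.OreMinus
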