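import Mathlib
import Cfsg.Agent.Lib.OreMinus.Normal

/-!
# The conjugates of an element with `C = 0`
-/

set_option autoImplicit false
set_option linter.unusedSectionVars false
set_option linter.unusedSimpArgs false
set_option linter.unusedVariables false

namespace Cfsg.Agent.Lib.OreMinus

open Matrix QuadraticMap Module
open Cfsg.Agent.Lib.Classical.Orth.Basic
open Cfsg.Agent.Lib.OreOmega (IsAltM isAltM_of_entries dlt exists_rank_form)
open Cfsg.Agent.Lib.OrePlus (formP FormD mulVec_form_eq dot_E scaleM isAltM_scaleM det_block_scaleM exists_alt_on)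

variable {F : Type*} [Field F] {m : ℕ} {Q₀ : QuadraticForm F (W2 F)}

set_option quotPrecheck false in
local notation "⟪" E "⟫" => ((E : GL (Fin m) F) : Matrix (Fin m) (Fin m) F)

variable (Q₀) in
/-- The data of a conjugate. -/
structure KData (s : Finset (Fin m)) where
  γ : Fin m → W2 F
  N : Matrix (Fin m) (Fin m) F
  τ : W2 F → W2 F
  γ0 : ∀ k, k ∉ s → γ k = 0
  d1 : ∀ j ∈ s, N j j = - Q₀ (γ j)
  d2 : ∀ j ∈ s, ∀ k ∈ s, j ≠ k → N j k + N k j = - polar (⇑Q₀) (γ j) (γ k)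
  ndeg : (toSquareBlockProp N (fun i => i ∈ s)).det ≠ 0
  solves : ∀ (w : W2 F) (Y : Fin m → F), (∀ k, k ∉ s → Y k = 0) →
    (∀ j ∈ s, (N *ᵥ Y) j = polar (⇑Q₀) (γ j) w) → w + ∑ k, Y k • γ k = τ w

theorem dot_T (E : Matrix (Fin m) (Fin m) F) (u v : Fin m → F) : (Eᵀ *ᵥ u) ⬝ᵥ v = u ⬝ᵥ (E *ᵥ v) := by
  rw [dotProduct_comm, dotProduct_mulVec, vecMul_transpose, dotProduct_comm]

/-- The conjugate of `g` with the prescribed data. -/
theorem conj_of_data (hQ : Aniso Q₀) {g : OM Q₀ m} (hC : blkC g = 0) {E Cm : GL (Fin m) F} {s : Finset (Fin m)}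
    (hΔ : ⟪E⟫ * blkR g * ⟪Cm⟫ = diagonal (dlt s)) (D : KData Q₀ s) (J : Matrix (Fin m) (Fin m) F) :
    ∃ h ∈ QW Q₀ m, blkD (h * g * h⁻¹) = ⟪E⟫ᵀ * formP (bP (blkD g) E Cm) s D.N J * ⟪Cm⁻¹⟫ ∧
      ∀ z x, xc (act (h * g * h⁻¹) (mkM x z 0)) = 0 → zc (act (h * g * h⁻¹) (mkM x z 0)) = D.τ (blkE g *ᵥ z) := by
  classical
  set P := bP (blkD g) E Cm with hP
  have fd : FormD P s := formD_zero hC hΔ
  let ct : Matrix (Fin 2) (Fin m) F := fun i j => D.γ j i
  have hct : ∀ j, cJ ct j = D.γ j := fun j => rfl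
  let St : Matrix (Fin m) (Fin m) F := fun i j =>
    if i ∈ s then (if j ∈ s then D.N i j - P i j else -(J j i - P j i))
    else (if j ∈ s then J i j - P i j else 0)
  have hSt : IsCompat Q₀ ct St := by
    apply isCompat_of_entries
    · intro j
      rw [hct]
      by_cases hj : j ∈ s
      · simp only [St, hj, if_true]
        rw [D.d1 j hj, fd.diag j hj]
        ring
      · simp [St, hj, D.γ0 j hj]
    · intro j k hjk
      rw [hct, hct]
      by_cases hj : j ∈ s <;> by_cases hk : k ∈ s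
      · simp only [St, hj, hk, if_true]
        have h1 := D.d2 j hj k hk hjk
        have h2 := fd.Ps hj hk
        linear_combination h1 - h2
      · simp only [St, hj, hk, if_true, if_false, D.γ0 k hk, polar_zero_right]
        ring
      · simp only [St, hj, hk, if_true, if_false, D.γ0 j hj, polar_zero_left]
        ring
      · simp only [St, hj, hk, if_false, D.γ0 j hj, polar_zero_left]
        simp
  have hI : ∀ i j, P i j + (if j ∈ s then St i j else 0) = formP P s D.N J i j := by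
    intro i j
    simp only [formP, St]
    by_cases hj : j ∈ s
    · by_cases hi : i ∈ s
      · simp only [hj, hi, not_true, if_true, if_false]
        ring
      · simp only [hj, hi, not_true, not_false_iff, if_true, if_false]
        ring
    · simp [hj]
  set EE := ⟪E⟫ with hEE
  let c : Matrix (Fin 2) (Fin m) F := ct * EE
  let S : Matrix (Fin m) (Fin m) F := EEᵀ * St * EE
  have hSy : ∀ y, S *ᵥ y = EEᵀ *ᵥ (St *ᵥ (EE *ᵥ y)) := by
    intro y
    simp only [S, mulVec_mulVec, mul_assoc]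
  have hcy : ∀ y, c *ᵥ y = ct *ᵥ (EE *ᵥ y) := by
    intro y
    simp only [c, mulVec_mulVec]
  have hS : IsCompat Q₀ c S := by
    intro y
    rw [hSy, hcy, dot_T]
    rw [dotProduct_comm]
    rw [dotProduct_comm]
    exact hSt _
  have hadj : ∀ w, adj Q₀ c w = EEᵀ *ᵥ adj Q₀ ct w := by
    intro w
    apply dot_ext
    intro y
    rw [dotProduct_comm, adj_dot, dotProduct_comm, dot_T, adj_dot, hcy]
  refine ⟨UU hQ c S hS, UU_mem_QW hQ c S hS, ?_, ?_⟩
  · have key : ∀ a : Fin m → F, blkD (UU hQ c S hS * g * (UU hQ c S hS)⁻¹) *ᵥ (⟪Cm⟫ *ᵥ a) =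
        (EEᵀ * formP P s D.N J * ⟪Cm⁻¹⟫) *ᵥ (⟪Cm⟫ *ᵥ a) := by
      intro a
      have hR : (EEᵀ * formP P s D.N J * ⟪Cm⁻¹⟫) *ᵥ (⟪Cm⟫ *ᵥ a) = EEᵀ *ᵥ (formP P s D.N J *ᵥ a) := by
        rw [mulVec_mulVec, mulVec_mulVec, mul_assoc, mul_assoc, inv_E_mul, mul_one]
      rw [(blk_conj hQ g c S hS _).1, hR, mulVec_form_eq hI a, hC, zero_mulVec, adj_zero, add_zero, Dm_Cm _ E Cm, Rm_Cm hΔ]
      set w := diagonal (dlt s) *ᵥ a with hw
      have hEw : EE *ᵥ (⟪E⁻¹⟫ *ᵥ w) = w := by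
        rw [mulVec_mulVec, hEE, E_inv_mul, one_mulVec]
      rw [hSy, hEw, mulVec_add]
    apply Matrix.ext_of_mulVec_single
    intro j
    have h3 := key (⟪Cm⁻¹⟫ *ᵥ Pi.single j 1)
    rwa [mulVec_mulVec (Pi.single j 1) ⟪Cm⟫, E_inv_mul, one_mulVec] at h3
  · intro z x hx
    set h := UU hQ c S hS with hh
    have hhm : h ∈ QW Q₀ m := UU_mem_QW hQ c S hS
    have e0 : act (h * g * h⁻¹) (mkM x z 0) = act h (act g (act h⁻¹ (mkM x z 0))) := by
      rw [act_mul, act_mul]
    set x' := x + xc (act h⁻¹ (mkM 0 z 0)) with hx'def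
    have e1 : act h⁻¹ (mkM x z 0) = mkM x' z 0 := act_QW_perp ((QW Q₀ m).inv_mem hhm) x z
    set w := blkE g *ᵥ z with hw
    set y := blkR g *ᵥ x' + blkB g *ᵥ z with hy
    set X := blkD g *ᵥ x' + blkA g *ᵥ z with hX
    have e2 : act g (mkM x' z 0) = mkM X w y := by
      rw [act_perp, hC, zero_mulVec, zero_add]
    have e3 : act (h * g * h⁻¹) (mkM x z 0) = mkM (X + S *ᵥ y + adj Q₀ c w) (w + c *ᵥ y) y := by
      rw [e0, e1, e2, hh, act_UU]
      rfl
    rw [e3] at hx ⊢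
    simp only [xc_mkM, zc_mkM] at hx ⊢
    set a' := ⟪Cm⁻¹⟫ *ᵥ x' with ha'
    have hCa : ⟪Cm⟫ *ᵥ a' = x' := by
      rw [ha', mulVec_mulVec, E_inv_mul, one_mulVec]
    set bt := EE *ᵥ (blkB g *ᵥ z) with hbt
    set at' := ⟪E⁻¹⟫ᵀ *ᵥ (blkA g *ᵥ z) with hat
    set Y := EE *ᵥ y with hYdef
    have hY : Y = diagonal (dlt s) *ᵥ a' + bt := by
      rw [hYdef, hy, mulVec_add, ← hCa, Rm_Cm hΔ, mulVec_mulVec, hEE, E_inv_mul, one_mulVec]
    have hY0 : ∀ k, k ∉ s → Y k = 0 := by
      intro k hk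
      rw [hY, Pi.add_apply, dlt_single s a' k hk, hbt, hEE, bt_zero hC hΔ z hk]
      simp
    have hY1 : ∀ k, k ∈ s → Y k = a' k + bt k := by
      intro k hk
      rw [hY, Pi.add_apply, dlt_single' s a' k hk]
    have hAz : EEᵀ *ᵥ at' = blkA g *ᵥ z := by
      rw [hat, mulVec_mulVec, ← transpose_mul, hEE, inv_E_mul]
      simp
    have hDx : blkD g *ᵥ x' = EEᵀ *ᵥ (P *ᵥ a') := by
      rw [← hCa, hP, Dm_Cm _ E Cm]
    have heq0 : EEᵀ *ᵥ (P *ᵥ a' + at' + St *ᵥ Y + adj Q₀ ct w) = 0 := by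
      rw [mulVec_add, mulVec_add, mulVec_add, ← hDx, hAz, ← hadj, hYdef, ← hSy]
      exact hx
    have heq : P *ᵥ a' + at' + St *ᵥ Y + adj Q₀ ct w = 0 := by
      have h4 := congrArg (fun v => ⟪E⁻¹⟫ᵀ *ᵥ v) heq0
      simpa [mulVec_mulVec, ← transpose_mul, hEE, E_inv_mul] using h4
    have hrow : ∀ j ∈ s, (D.N *ᵥ Y) j = polar (⇑Q₀) (D.γ j) w := by
      intro j hj
      have h5 := congrFun heq j
      simp only [Pi.add_apply, Pi.zero_apply] at h5
      have h6 : at' j = (P *ᵥ bt) j := at_eq hC hΔ z hj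
      have h7 : adj Q₀ ct w j = - polar (⇑Q₀) (D.γ j) w := rfl
      have h8 : (P *ᵥ a') j + (P *ᵥ bt) j = (P *ᵥ Y) j := by
        simp only [mulVec, dotProduct]
        rw [← Finset.sum_add_distrib]
        refine Finset.sum_congr rfl fun k _ => ?_
        by_cases hk : k ∈ s
        · rw [hY1 k hk]
          ring
        · rw [fd.P0 hj hk]
          ring
      have h9 : (D.N *ᵥ Y) j = (P *ᵥ Y) j + (St *ᵥ Y) j := by
        simp only [mulVec, dotProduct]
        rw [← Finset.sum_add_distrib]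
        refine Finset.sum_congr rfl fun k _ => ?_
        by_cases hk : k ∈ s
        · simp only [St, hj, hk, if_true]
          ring
        · rw [hY0 k hk]
          ring
      rw [h6, h7] at h5
      rw [h9, ← h8]
      linear_combination h5
    have hsol := D.solves w Y hY0 hrow
    rw [← hsol, hcy, mulVec_eq_sum]
    rfl

/-- Every vector of the plane is attained with vanishing `x`-part. -/
theorem exists_hol_x (g : OM Q₀ m) (D : GL (Fin m) F) (hD : blkD g = ⟪D⟫) (z : W2 F) :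
    ∃ x, xc (act g (mkM x z 0)) = 0 := by
  refine ⟨- (⟪D⁻¹⟫ *ᵥ (blkA g *ᵥ z)), ?_⟩
  rw [act_perp, xc_mkM, hD, mulVec_neg, mulVec_mulVec, E_inv_mul, one_mulVec]
  simp

section Kernel

theorem kernel_of_det {A : Matrix (Fin m) (Fin m) F} {L : Finset (Fin m)}
    (hdet : (toSquareBlockProp A (fun i => i ∈ L)).det ≠ 0) {a : Fin m → F} (ha : ∀ k, k ∉ L → a k = 0)
    (h : ∀ j ∈ L, (A *ᵥ a) j = 0) : ∀ k ∈ L, a k = 0 := by
  classical
  have h1 : (toSquareBlockProp A (fun i => i ∈ L)) *ᵥ (fun i : {i // i ∈ L} => a i) = 0 := by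
    ext j
    have h2 := h j.1 j.2
    simp only [mulVec, dotProduct, Pi.zero_apply] at h2 ⊢
    rw [sum_on (p := fun k => k ∈ L) _ (fun k hk => by rw [ha k hk, mul_zero])] at h2
    convert h2 using 3
    rfl
  have h3 := Matrix.eq_zero_of_mulVec_eq_zero hdet h1
  intro k hk
  exact congrFun h3 ⟨k, hk⟩

theorem det_of_kernel {N : Matrix (Fin m) (Fin m) F} {s : Finset (Fin m)}
    (h : ∀ a : Fin m → F, (∀ k, k ∉ s → a k = 0) → (∀ j ∈ s, (N *ᵥ a) j = 0) → ∀ k ∈ s, a k = 0) :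
    (toSquareBlockProp N (fun i => i ∈ s)).det ≠ 0 := by
  classical
  intro h0
  obtain ⟨v, hv, hv0⟩ := Matrix.exists_mulVec_eq_zero_iff.2 h0
  let a : Fin m → F := fun i => if h : i ∈ s then v ⟨i, h⟩ else 0
  have ha1 : ∀ i (hi : i ∈ s), a i = v ⟨i, hi⟩ := fun i hi => dif_pos hi
  have ha2 : ∀ k, k ∉ s → a k = 0 := fun k hk => dif_neg hk
  have hN : ∀ j ∈ s, (N *ᵥ a) j = 0 := by
    intro j hj
    simp only [mulVec, dotProduct]
    rw [sum_on (p := fun k => k ∈ s) _ (fun k hk => by rw [ha2 k hk, mul_zero])]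
    have h2 := congrFun hv0 ⟨j, hj⟩
    simp only [mulVec, dotProduct, Pi.zero_apply] at h2
    have e5 : ∀ k : {k // k ∈ s}, N j k * a k = (toSquareBlockProp N (fun i => i ∈ s)) ⟨j, hj⟩ k * v k := by
      intro k
      rw [ha1 k k.2]
      rfl
    simp only [e5]
    convert h2
  have h3 := h a ha2 hN
  apply hv
  ext i
  have := h3 i.1 i.2
  rw [ha1 i.1 i.2] at this
  exact this

/-- An alternating matrix, invertible on a set of indices of even size, vanishing off the set. -/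
theorem exists_alt_on' {L : Finset (Fin m)} (he : Even L.card) : ∃ A : Matrix (Fin m) (Fin m) F, IsAltM A ∧
    (∀ i j, (i ∉ L ∨ j ∉ L) → A i j = 0) ∧ (toSquareBlockProp A (fun i => i ∈ L)).det ≠ 0 := by
  classical
  obtain ⟨N, hN, hdet⟩ := exists_alt_on (F := F) (n := m) he
  refine ⟨fun i j => if i ∈ L ∧ j ∈ L then N i j else 0, ?_, ?_, ?_⟩
  · refine isAltM_of_entries (fun i => ?_) (fun i j => ?_)
    · simp [hN.diag]
    · by_cases hi : i ∈ L <;> by_cases hj : j ∈ L
      · simp only [hi, hj, and_self, if_true]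
        exact hN.skew i j
      · simp [hi, hj]
      · simp [hi, hj]
      · simp [hi, hj]
  · rintro i j (h | h) <;> simp [h]
  · have h1 : toSquareBlockProp (fun i j => if i ∈ L ∧ j ∈ L then N i j else 0) (fun i => i ∈ L) = toSquareBlockProp N (fun i => i ∈ L) := by
      ext i j
      show (if i.1 ∈ L ∧ j.1 ∈ L then N i j else 0) = N i j
      rw [if_pos ⟨i.2, j.2⟩]
    rw [h1]
    exact hdet

end Kernel

section Scale

/-- Scaling the data. -/
noncomputable def KData.scale {s : Finset (Fin m)} (D : KData Q₀ s) (d : Fin m → F) (hd : ∀ j, d j ≠ 0) : KData Q₀ s where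
  γ := fun j => d j • D.γ j
  N := scaleM d D.N
  τ := D.τ
  γ0 := fun k hk => by rw [D.γ0 k hk, smul_zero]
  d1 := fun j hj => by
    simp only [scaleM]
    rw [D.d1 j hj, Q_smul]
    ring
  d2 := fun j hj k hk hjk => by
    simp only [scaleM]
    rw [polar_smul_left', polar_smul_right']
    have := D.d2 j hj k hk hjk
    linear_combination (d j * d k) * this
  ndeg := by
    rw [det_block_scaleM]
    refine mul_ne_zero (pow_ne_zero _ (Finset.prod_ne_zero_iff.2 fun i _ => hd i)) D.ndeg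
  solves := by
    intro w Y hY hrow
    rw [← D.solves w (fun k => d k * Y k) (fun k hk => by rw [hY k hk, mul_zero])]
    · congr 1
      refine Finset.sum_congr rfl fun k _ => ?_
      rw [smul_smul, mul_comm]
    · intro j hj
      have h1 := hrow j hj
      rw [polar_smul_left'] at h1
      have h2 : (scaleM d D.N *ᵥ Y) j = d j * (D.N *ᵥ (fun k => d k * Y k)) j := by
        simp only [mulVec, dotProduct, scaleM, Finset.mul_sum]
        refine Finset.sum_congr rfl fun k _ => ?_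
        ring
      rw [h2] at h1
      exact mul_left_cancel₀ (hd j) h1

end Scale

end Cfsg.Agent.Lib.OreMinus
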