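import Mathlib
import Cfsg.Agent.Lib.OreMinus.Family

/-!
# The choice of the data
-/

set_option autoImplicit false
set_option linter.unusedSectionVars false
set_option linter.unusedSimpArgs false
set_option linter.unusedVariables false

namespace Cfsg.Agent.Lib.OreMinus

open Matrix QuadraticMap Module
open Cfsg.Agent.Lib.Classical.Orth.Basic
open Cfsg.Agent.Lib.OreOmega (IsAltM isAltM_of_entries dlt exists_rank_form)
open Cfsg.Agent.Lib.OrePlus (formP FormD mulVec_form_eq dot_E scaleM isAltM_scaleM det_block_scaleM exists_alt_on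
  scalar_pair transvection_T)

variable {F : Type*} [Field F] {m : ℕ} {Q₀ : QuadraticForm F (W2 F)}

set_option quotPrecheck false in
local notation "⟪" E "⟫" => ((E : GL (Fin m) F) : Matrix (Fin m) (Fin m) F)

/-- Indices for the nonscalar step. -/
def HasNsc (N : Matrix (Fin m) (Fin m) F) : Prop := ∃ α β j : Fin m, α ≠ β ∧ α ≠ j ∧ N β j ≠ 0 ∧ N α j = 0

theorem exists_nonzero_of_det {A : Matrix (Fin m) (Fin m) F} {L : Finset (Fin m)}
    (hdet : (toSquareBlockProp A (fun i => i ∈ L)).det ≠ 0) {j : Fin m} (hj : j ∈ L) : ∃ β ∈ L, A β j ≠ 0 := by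
  classical
  by_contra hcon
  push Not at hcon
  apply hdet
  apply det_eq_zero_of_column_eq_zero (⟨j, hj⟩ : {i // i ∈ L})
  intro i
  exact hcon i.1 i.2

/-- The data for odd `s`: one reflection. -/
theorem exists_data_odd {s : Finset (Fin m)} (hs : Odd s.card) {u : W2 F} (hu : Q₀ u ≠ 0) :
    ∃ D : KData Q₀ s, (∀ w, D.τ w = rf Q₀ u w) ∧ (3 ≤ s.card → HasNsc D.N) := by
  classical
  obtain ⟨j₀, hj₀⟩ : s.Nonempty := Finset.card_pos.1 hs.pos
  set L := s.erase j₀ with hL
  have hLe : Even L.card := by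
    rw [hL, Finset.card_erase_of_mem hj₀]
    obtain ⟨t, ht⟩ := hs
    exact ⟨t, by omega⟩
  obtain ⟨A, hA, hAs, hAd⟩ := exists_alt_on' (F := F) hLe
  have hj₀L : j₀ ∉ L := Finset.notMem_erase _ _
  have hmemL : ∀ k, k ∈ L ↔ k ≠ j₀ ∧ k ∈ s := fun k => Finset.mem_erase
  let N : Matrix (Fin m) (Fin m) F := fun j k => if j = j₀ then (if k = j₀ then - Q₀ u else 0) else A j k
  let γ : Fin m → W2 F := fun j => if j = j₀ then u else 0
  have hN0 : ∀ Y : Fin m → F, (N *ᵥ Y) j₀ = - Q₀ u * Y j₀ := by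
    intro Y
    simp only [mulVec, dotProduct, N, if_true]
    rw [Finset.sum_eq_single j₀]
    · simp
    · intro k _ hk
      simp [hk]
    · simp
  have hNr : ∀ j, j ≠ j₀ → ∀ Y : Fin m → F, (N *ᵥ Y) j = (A *ᵥ Y) j := by
    intro j hj Y
    simp only [mulVec, dotProduct, N, hj, if_false]
  let D : KData Q₀ s :=
  { γ := γ
    N := N
    τ := rf Q₀ u
    γ0 := fun k hk => by
      have : k ≠ j₀ := fun h => hk (h ▸ hj₀)
      simp [γ, this]
    d1 := fun j hj => by
      by_cases h : j = j₀
      · simp [N, γ, h]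
      · simp [N, γ, h, hA.diag]
    d2 := fun j hj k hk hjk => by
      by_cases h : j = j₀
      · have h' : k ≠ j₀ := fun e => hjk (h.trans e.symm)
        have : A k j₀ = 0 := hAs _ _ (Or.inr hj₀L)
        simp [N, γ, h, h', this]
      · by_cases h' : k = j₀
        · have : A j j₀ = 0 := hAs _ _ (Or.inr hj₀L)
          simp [N, γ, h, h', this]
        · simp only [N, γ, h, h', if_false, polar_zero_left]
          rw [hA.skew j k]
          ring
    ndeg := by
      apply det_of_kernel
      intro a ha hrow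
      have h0 : a j₀ = 0 := by
        have h1 := hrow j₀ hj₀
        rw [hN0] at h1
        exact (mul_eq_zero.1 h1).resolve_left (neg_ne_zero.2 hu)
      have hL0 : ∀ k ∈ L, a k = 0 := by
        apply kernel_of_det hAd
        · intro k hk
          by_cases h : k = j₀
          · rw [h, h0]
          · apply ha
            intro hks
            exact hk ((hmemL k).2 ⟨h, hks⟩)
        · intro j hj
          have h1 := (hmemL j).1 hj
          rw [← hNr j h1.1]
          exact hrow j h1.2
      intro k hk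
      by_cases h : k = j₀
      · rw [h, h0]
      · exact hL0 k ((hmemL k).2 ⟨h, hk⟩)
    solves := by
      intro w Y hY hrow
      have h1 := hrow j₀ hj₀
      rw [hN0] at h1
      have h2 : γ j₀ = u := by simp [γ]
      rw [h2] at h1
      have h3 : ∑ k, Y k • γ k = Y j₀ • u := by
        rw [Finset.sum_eq_single j₀]
        · rw [h2]
        · intro k _ hk
          simp [γ, hk]
        · simp
      rw [h3]
      have h4 : Y j₀ = - ((Q₀ u)⁻¹ * polar (⇑Q₀) u w) := by
        field_simp
        linear_combination -h1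
      rw [h4, rf, neg_smul, sub_eq_add_neg] }
  refine ⟨D, fun w => rfl, fun hcard => ?_⟩
  have hLc : 0 < L.card := by
    rw [hL, Finset.card_erase_of_mem hj₀]
    omega
  obtain ⟨j, hj⟩ := Finset.card_pos.1 hLc
  obtain ⟨β, hβ, hβj⟩ := exists_nonzero_of_det hAd hj
  have hβ0 : β ≠ j₀ := ((hmemL β).1 hβ).1
  have hj0 : j ≠ j₀ := ((hmemL j).1 hj).1
  refine ⟨j₀, β, j, hβ0.symm, hj0.symm, ?_, ?_⟩
  · show (if β = j₀ then (if j = j₀ then - Q₀ u else 0) else A β j) ≠ 0
    rw [if_neg hβ0]
    exact hβj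
  · show (if j₀ = j₀ then (if j = j₀ then - Q₀ u else 0) else A j₀ j) = 0
    rw [if_pos rfl, if_neg hj0]

/-- The data for even `s`: two reflections. -/
theorem exists_data_even {s : Finset (Fin m)} (hs : Even s.card) (hs0 : s.Nonempty) {u₀ u₁ : W2 F} (hu₀ : Q₀ u₀ ≠ 0)
    (hu₁ : Q₀ u₁ ≠ 0) :
    ∃ D : KData Q₀ s, (∀ w, D.τ w = rf Q₀ u₁ (rf Q₀ u₀ w)) ∧ (3 ≤ s.card → HasNsc D.N) := by
  classical
  have hc2 : 1 < s.card := by
    have h1 := Finset.card_pos.2 hs0
    obtain ⟨t, ht⟩ := hs
    omega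
  obtain ⟨j₀, hj₀, j₁, hj₁, h01⟩ := Finset.one_lt_card.1 hc2
  set L := (s.erase j₀).erase j₁ with hL
  have hLcard : L.card = s.card - 2 := by
    rw [hL, Finset.card_erase_of_mem (Finset.mem_erase.2 ⟨h01.symm, hj₁⟩), Finset.card_erase_of_mem hj₀]
    omega
  have hLe : Even L.card := by
    rw [hLcard]
    obtain ⟨t, ht⟩ := hs
    exact ⟨t - 1, by omega⟩
  obtain ⟨A, hA, hAs, hAd⟩ := exists_alt_on' (F := F) hLe
  have hmemL : ∀ k, k ∈ L ↔ k ≠ j₁ ∧ k ≠ j₀ ∧ k ∈ s := fun k => by
    rw [hL, Finset.mem_erase, Finset.mem_erase]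
  have hj₀L : j₀ ∉ L := fun h => ((hmemL _).1 h).2.1 rfl
  have hj₁L : j₁ ∉ L := fun h => ((hmemL _).1 h).1 rfl
  let N : Matrix (Fin m) (Fin m) F := fun j k =>
    if j = j₀ then (if k = j₀ then - Q₀ u₀ else 0) else
    if j = j₁ then (if k = j₀ then - polar (⇑Q₀) u₀ u₁ else if k = j₁ then - Q₀ u₁ else 0) else A j k
  let γ : Fin m → W2 F := fun j => if j = j₀ then u₀ else if j = j₁ then u₁ else 0
  have hγ0 : γ j₀ = u₀ := by simp [γ]
  have hγ1 : γ j₁ = u₁ := by simp [γ, h01.symm]
  have hN0 : ∀ Y : Fin m → F, (N *ᵥ Y) j₀ = - Q₀ u₀ * Y j₀ := by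
    intro Y
    simp only [mulVec, dotProduct, N, if_true]
    rw [Finset.sum_eq_single j₀]
    · simp
    · intro k _ hk
      simp [hk]
    · simp
  have hN1 : ∀ Y : Fin m → F, (N *ᵥ Y) j₁ = - polar (⇑Q₀) u₀ u₁ * Y j₀ - Q₀ u₁ * Y j₁ := by
    intro Y
    simp only [mulVec, dotProduct, N, h01.symm, if_false, if_true]
    rw [Finset.sum_eq_add j₀ j₁ h01]
    · simp [h01.symm]
      ring
    · intro k _ hk
      simp [hk.1, hk.2]
    · simp
    · simp
  have hNr : ∀ j, j ≠ j₀ → j ≠ j₁ → ∀ Y : Fin m → F, (N *ᵥ Y) j = (A *ᵥ Y) j := by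
    intro j hj hj' Y
    simp only [mulVec, dotProduct, N, hj, hj', if_false]
  let D : KData Q₀ s :=
  { γ := γ
    N := N
    τ := fun w => rf Q₀ u₁ (rf Q₀ u₀ w)
    γ0 := fun k hk => by
      have h1 : k ≠ j₀ := fun h => hk (h ▸ hj₀)
      have h2 : k ≠ j₁ := fun h => hk (h ▸ hj₁)
      simp [γ, h1, h2]
    d1 := fun j hj => by
      by_cases h : j = j₀
      · simp [N, γ, h]
      · by_cases h' : j = j₁
        · simp [N, γ, h', h01.symm]
        · simp [N, γ, h, h', hA.diag]
    d2 := fun j hj k hk hjk => by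
      by_cases h0 : j = j₀
      · subst h0
        by_cases h1 : k = j₁
        · subst h1
          simp [N, γ, h01, h01.symm]
        · have h' : k ≠ j := fun e => hjk e.symm
          have : A k j = 0 := hAs _ _ (Or.inr hj₀L)
          simp [N, γ, h', h1, this]
      · by_cases h1 : j = j₁
        · subst h1
          by_cases h2 : k = j₀
          · subst h2
            simp [N, γ, h01, h01.symm]
            rw [polar_comm]
          · have h' : k ≠ j := fun e => hjk e.symm
            have : A k j = 0 := hAs _ _ (Or.inr hj₁L)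
            simp [N, γ, h', h2, h0, this]
        · by_cases h2 : k = j₀
          · subst h2
            have : A j k = 0 := hAs _ _ (Or.inr hj₀L)
            simp [N, γ, h0, h1, this]
          · by_cases h3 : k = j₁
            · subst h3
              have : A j k = 0 := hAs _ _ (Or.inr hj₁L)
              simp [N, γ, h0, h1, h2, this]
            · simp only [N, γ, h0, h1, h2, h3, if_false, polar_zero_left]
              rw [hA.skew j k]
              ring
    ndeg := by
      apply det_of_kernel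
      intro a ha hrow
      have h0 : a j₀ = 0 := by
        have h1 := hrow j₀ hj₀
        rw [hN0] at h1
        exact (mul_eq_zero.1 h1).resolve_left (neg_ne_zero.2 hu₀)
      have h1 : a j₁ = 0 := by
        have h2 := hrow j₁ hj₁
        rw [hN1, h0, mul_zero, zero_sub, neg_eq_zero] at h2
        exact (mul_eq_zero.1 h2).resolve_left hu₁
      have hL0 : ∀ k ∈ L, a k = 0 := by
        apply kernel_of_det hAd
        · intro k hk
          by_cases h : k = j₀
          · rw [h, h0]
          · by_cases h' : k = j₁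
            · rw [h', h1]
            · apply ha
              intro hks
              exact hk ((hmemL k).2 ⟨h', h, hks⟩)
        · intro j hj
          have h3 := (hmemL j).1 hj
          rw [← hNr j h3.2.1 h3.1]
          exact hrow j h3.2.2
      intro k hk
      by_cases h : k = j₀
      · rw [h, h0]
      · by_cases h' : k = j₁
        · rw [h', h1]
        · exact hL0 k ((hmemL k).2 ⟨h', h, hk⟩)
    solves := by
      intro w Y hY hrow
      have h1 := hrow j₀ hj₀
      have h2 := hrow j₁ hj₁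
      rw [hN0, hγ0] at h1
      rw [hN1, hγ1] at h2
      have h3 : ∑ k, Y k • γ k = Y j₀ • u₀ + Y j₁ • u₁ := by
        rw [Finset.sum_eq_add j₀ j₁ h01]
        · rw [hγ0, hγ1]
        · intro k _ hk
          simp [γ, hk.1, hk.2]
        · simp
        · simp
      rw [h3]
      have h4 : Y j₀ = - ((Q₀ u₀)⁻¹ * polar (⇑Q₀) u₀ w) := by
        field_simp
        linear_combination -h1
      have e1 : rf Q₀ u₀ w = w + Y j₀ • u₀ := by
        rw [h4, rf, neg_smul, sub_eq_add_neg]
      have h5 : (Q₀ u₁)⁻¹ * polar (⇑Q₀) u₁ (w + Y j₀ • u₀) = - Y j₁ := by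
        rw [polar_add_right, polar_smul_right', polar_comm _ u₁ u₀]
        field_simp
        linear_combination -h2
      show _ = rf Q₀ u₁ (rf Q₀ u₀ w)
      rw [e1, rf, h5, neg_smul, sub_neg_eq_add, add_assoc] }
  refine ⟨D, fun w => rfl, fun hcard => ?_⟩
  have hLc : 0 < L.card := by
    rw [hLcard]
    obtain ⟨t, ht⟩ := hs
    omega
  obtain ⟨j, hj⟩ := Finset.card_pos.1 hLc
  obtain ⟨β, hβ, hβj⟩ := exists_nonzero_of_det hAd hj
  have hβ0 := (hmemL β).1 hβ
  have hj0 := (hmemL j).1 hj
  refine ⟨j₀, β, j, hβ0.2.1.symm, hj0.2.1.symm, ?_, ?_⟩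
  · show (if β = j₀ then (if j = j₀ then - Q₀ u₀ else 0) else
      if β = j₁ then (if j = j₀ then - polar (⇑Q₀) u₀ u₁ else if j = j₁ then - Q₀ u₁ else 0) else A β j) ≠ 0
    rw [if_neg hβ0.2.1, if_neg hβ0.1]
    exact hβj
  · show (if j₀ = j₀ then (if j = j₀ then - Q₀ u₀ else 0) else _) = 0
    rw [if_pos rfl, if_neg hj0.2.1]

end Cfsg.Agent.Lib.OreMinus
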