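import Mathlib
import Cfsg.Agent.Lib.OreMinus.Data

/-!
# Reaching a conjugate with trivial holonomy, determinant one, nonscalar
-/

set_option autoImplicit false
set_option linter.unusedSectionVars false
set_option linter.unusedSimpArgs false
set_option linter.unusedVariables false

namespace Cfsg.Agent.Lib.OreMinus

open Matrix QuadraticMap Module
open Cfsg.Agent.Lib.Classical.Orth.Basic
open Cfsg.Agent.Lib.OreOmega (IsAltM isAltM_of_entries dlt exists_rank_form)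
open Cfsg.Agent.Lib.OrePlus (formP FormD mulVec_form_eq dot_E scaleM isAltM_scaleM det_block_scaleM exists_alt_on
  scalar_pair transvection_T)

variable {F : Type*} [Field F] {m : ℕ} {Q₀ : QuadraticForm F (W2 F)}

set_option quotPrecheck false in
local notation "⟪" E "⟫" => ((E : GL (Fin m) F) : Matrix (Fin m) (Fin m) F)

/-- The holonomy of `g` is `τ`. -/
def HolIs (g : OM Q₀ m) (τ : W2 F → W2 F) : Prop :=
  ∀ z, ∃ x, xc (act g (mkM x z 0)) = 0 ∧ zc (act g (mkM x z 0)) = τ z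

set_option maxHeartbeats 1500000 in
/-- **The normal form.** -/
theorem exists_normal (hm : 3 ≤ m) (hQ : Aniso Q₀) {g : OM Q₀ m} (hC : blkC g = 0) (hR : blkR g ≠ 0)
    (hsq : ∀ h ∈ QW Q₀ m, ∀ D : GL (Fin m) F, blkD (h * g * h⁻¹) = ⟪D⟫ → HolIs (h * g * h⁻¹) id → IsSquare ⟪D⟫.det)
    (hno : ∀ h ∈ QW Q₀ m, ∀ D : GL (Fin m) F, ∀ w, Q₀ w ≠ 0 → blkD (h * g * h⁻¹) = ⟪D⟫ →
      HolIs (h * g * h⁻¹) (rf Q₀ w) → False) :
    ∃ h ∈ QW Q₀ m, ∃ D : GL (Fin m) F, blkD (h * g * h⁻¹) = ⟪D⟫ ∧ ⟪D⟫.det = 1 ∧ (¬ ∃ a : F, ⟪D⟫ = a • 1) ∧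
      HolIs (h * g * h⁻¹) id := by
  classical
  haveI : NeZero m := ⟨by omega⟩
  obtain ⟨E, Cm, s, hΔ⟩ := exists_rank_form (blkR g)
  have hs : s.Nonempty := by
    by_contra hne
    rw [Finset.not_nonempty_iff_eq_empty] at hne
    apply hR
    have h0 : diagonal (dlt (∅ : Finset (Fin m))) = (0 : Matrix (Fin m) (Fin m) F) := by
      ext i j
      simp [diagonal, dlt]
    rw [hne, h0] at hΔ
    have h1 : blkR g = ⟪E⁻¹⟫ * (⟪E⟫ * blkR g * ⟪Cm⟫) * ⟪Cm⁻¹⟫ := by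
      calc blkR g = (⟪E⁻¹⟫ * ⟪E⟫) * blkR g * (⟪Cm⟫ * ⟪Cm⁻¹⟫) := by
            rw [inv_E_mul, E_inv_mul, one_mul, mul_one]
        _ = _ := by simp only [mul_assoc]
    rw [h1, hΔ]
    simp
  have fd : FormD (bP (blkD g) E Cm) s := formD_zero hC hΔ
  have hblock : (toSquareBlockProp (bP (blkD g) E Cm) (fun i => ¬ i ∈ s)).det ≠ 0 := det_block_zero hC hΔ
  set P := bP (blkD g) E Cm with hP
  set EE : Matrix (Fin m) (Fin m) F := ⟪E⟫ᵀ with hEE
  set Ci : Matrix (Fin m) (Fin m) F := ⟪Cm⁻¹⟫ with hCi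
  have hEE0 : EE.det ≠ 0 := by
    rw [hEE, det_transpose]
    exact isUnit_iff_ne_zero.1 ((Matrix.isUnit_iff_isUnit_det _).1 E.isUnit)
  have hCi0 : Ci.det ≠ 0 :=
    isUnit_iff_ne_zero.1 ((Matrix.isUnit_iff_isUnit_det _).1 (Cm⁻¹).isUnit)
  have hIne : ∀ N J : Matrix (Fin m) (Fin m) F, (toSquareBlockProp N (fun i => i ∈ s)).det ≠ 0 →
      (formP P s N J).det ≠ 0 := by
    intro N J hN
    rw [fd.det_formP]
    exact mul_ne_zero hN hblock
  have hdetne : ∀ (D : KData Q₀ s) (J : Matrix (Fin m) (Fin m) F), (EE * formP P s D.N J * Ci).det ≠ 0 := by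
    intro D J
    rw [det_mul, det_mul]
    exact mul_ne_zero (mul_ne_zero hEE0 (hIne _ _ D.ndeg)) hCi0
  have hfalse : ∀ (D : KData Q₀ s) (w : W2 F), Q₀ w ≠ 0 → (∀ z, D.τ (blkE g *ᵥ z) = rf Q₀ w z) → False := by
    intro D w hw hτ
    obtain ⟨h, hh, hD, hH⟩ := conj_of_data hQ hC hΔ D 0
    refine hno h hh (Matrix.GeneralLinearGroup.mkOfDetNeZero _ (hdetne D 0)) w hw hD ?_
    intro z
    obtain ⟨x, hx⟩ := exists_hol_x _ (Matrix.GeneralLinearGroup.mkOfDetNeZero _ (hdetne D 0)) hD z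
    exact ⟨x, hx, (hH z x hx).trans (hτ z)⟩
  have hε := Q_blkE hC hΔ
  obtain ⟨D₀, hD₀, hnsc⟩ : ∃ D₀ : KData Q₀ s, (∀ z, D₀.τ (blkE g *ᵥ z) = z) ∧ (3 ≤ s.card → HasNsc D₀.N) := by
    rcases Nat.even_or_odd s.card with he | ho
    · rcases exists_refl_decomp hQ (blkE g) hε with ⟨u, hu, h1⟩ | ⟨u, u', hu, hu', h1⟩
      · exfalso
        obtain ⟨D, hτ, -⟩ := exists_data_even he hs hu hu
        refine hfalse D u hu (fun z => ?_)
        rw [hτ, h1, rf_rf hu]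
      · obtain ⟨D, hτ, hn⟩ := exists_data_even he hs hu hu'
        exact ⟨D, fun z => by rw [hτ, h1, rf_rf hu, rf_rf hu'], hn⟩
    · rcases exists_refl_decomp hQ (blkE g) hε with ⟨u, hu, h1⟩ | ⟨u, u', hu, hu', h1⟩
      · obtain ⟨D, hτ, hn⟩ := exists_data_odd ho hu
        exact ⟨D, fun z => by rw [hτ, h1, rf_rf hu], hn⟩
      · exfalso
        obtain ⟨D, hτ, -⟩ := exists_data_odd ho hu
        refine hfalse D u' hu' (fun z => ?_)
        rw [hτ, h1, rf_rf hu]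
  -- the first form
  obtain ⟨h₀, hh₀, hD₀', hH₀⟩ := conj_of_data hQ hC hΔ D₀ 0
  have hdet₀ := hdetne D₀ 0
  have hid : ∀ (D : KData Q₀ s), D.τ = D₀.τ → ∀ (h : OM Q₀ m) (M : GL (Fin m) F), blkD (h * g * h⁻¹) = ⟪M⟫ →
      (∀ z x, xc (act (h * g * h⁻¹) (mkM x z 0)) = 0 → zc (act (h * g * h⁻¹) (mkM x z 0)) = D.τ (blkE g *ᵥ z)) →
      HolIs (h * g * h⁻¹) id := by
    intro D hτ h M hM hH z
    obtain ⟨x, hx⟩ := exists_hol_x _ M hM z
    refine ⟨x, hx, ?_⟩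
    rw [hH z x hx, hτ, hD₀]
    rfl
  obtain ⟨t, ht⟩ := hsq h₀ hh₀ (Matrix.GeneralLinearGroup.mkOfDetNeZero _ hdet₀) hD₀'
    (hid D₀ rfl h₀ (Matrix.GeneralLinearGroup.mkOfDetNeZero _ hdet₀) hD₀' hH₀)
  have ht' : (EE * formP P s D₀.N 0 * Ci).det = t * t := ht
  have ht0 : t ≠ 0 := by
    rintro rfl
    exact hdet₀ (by rw [ht', mul_zero])
  set j₀ := s.min' hs with hj₀def
  have hj₀ : j₀ ∈ s := s.min'_mem hs
  let d : Fin m → F := Function.update (fun _ => 1) j₀ t⁻¹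
  have hdne : ∀ j, d j ≠ 0 := by
    intro j
    by_cases hj : j = j₀
    · subst hj
      simp [d, ht0]
    · simp [d, hj]
  have hd : ∏ i ∈ s, d i = t⁻¹ := by
    rw [Finset.prod_update_of_mem hj₀]
    simp
  set D₁ := D₀.scale d hdne with hD₁def
  have hN₁ : D₁.N = scaleM d D₀.N := rfl
  have hblock₁ : (toSquareBlockProp D₁.N (fun i => i ∈ s)).det = (t⁻¹) ^ 2 * (toSquareBlockProp D₀.N (fun i => i ∈ s)).det := by
    rw [hN₁, det_block_scaleM, hd]
  have hdet₁ : ∀ J, (EE * formP P s D₁.N J * Ci).det = 1 := by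
    intro J
    have h5 : EE.det * (formP P s D₀.N 0).det * Ci.det = t * t := by
      rw [← ht', det_mul, det_mul]
    rw [det_mul, det_mul, fd.det_formP, hblock₁]
    rw [fd.det_formP] at h5
    field_simp at h5 ⊢
    linear_combination h5
  have h10 : (1 : F) ≠ 0 := one_ne_zero
  -- the common step
  suffices hsuff : ∃ (E' Cm' : GL (Fin m) F) (_ : ⟪E'⟫ * blkR g * ⟪Cm'⟫ = diagonal (dlt s)) (J : Matrix (Fin m) (Fin m) F),
      (⟪E'⟫ᵀ * formP (bP (blkD g) E' Cm') s D₁.N J * ⟪Cm'⁻¹⟫).det = 1 ∧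
      ¬ ∃ a : F, ⟪E'⟫ᵀ * formP (bP (blkD g) E' Cm') s D₁.N J * ⟪Cm'⁻¹⟫ = a • 1 by
    obtain ⟨E', Cm', hΔ', J, hdet, hns⟩ := hsuff
    obtain ⟨h, hh, hD, hH⟩ := conj_of_data hQ hC hΔ' D₁ J
    refine ⟨h, hh, Matrix.GeneralLinearGroup.mkOfDetNeZero _ (by rw [hdet]; exact h10), hD, hdet, ?_, ?_⟩
    · rintro ⟨a, ha⟩
      exact hns ⟨a, ha⟩
    · exact hid D₁ rfl h (Matrix.GeneralLinearGroup.mkOfDetNeZero _ (by rw [hdet]; exact h10)) hD hH
  by_cases hsc : ∃ a : F, EE * formP P s D₁.N 0 * Ci = a • 1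
  swap
  · exact ⟨E, Cm, hΔ, 0, hdet₁ 0, hsc⟩
  obtain ⟨a, ha⟩ := hsc
  have ha0 : a ≠ 0 := by
    rintro rfl
    have := hdet₁ 0
    rw [ha, zero_smul, det_zero] at this
    exact zero_ne_one this
  by_cases hsu : ∃ j₁, j₁ ∉ s
  · -- changing an entry outside `s`
    obtain ⟨j₁, hj₁⟩ := hsu
    let J₂ : Matrix (Fin m) (Fin m) F := fun i j => if i = j₁ ∧ j = j₀ then 1 else 0
    refine ⟨E, Cm, hΔ, J₂, hdet₁ _, ?_⟩
    rintro ⟨b, hb⟩
    have hb' : EE * formP P s D₁.N J₂ * Ci = b • 1 := hb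
    have h3 := scalar_pair hEE0 hCi0 ha hb'
    obtain ⟨k, hk⟩ : ∃ k : Fin m, k ≠ j₀ := by
      by_contra hcon
      push Not at hcon
      have h3 := hcon ⟨0, by omega⟩
      have h4 := hcon ⟨1, by omega⟩
      have : (⟨0, by omega⟩ : Fin m) = ⟨1, by omega⟩ := h3.trans h4.symm
      simp [Fin.ext_iff] at this
    have hsame : ∀ i, formP P s D₁.N J₂ i k = formP P s D₁.N 0 i k := by
      intro i
      simp only [formP]
      by_cases hks : k ∉ s
      · simp [hks]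
      · by_cases his : i ∉ s
        · simp [hks, his, J₂, hk]
        · simp [hks, his]
    have hcolk : ∃ i, formP P s D₁.N 0 i k ≠ 0 := by
      by_contra hcon
      push Not at hcon
      have h5 := hIne D₁.N 0 D₁.ndeg
      exact h5 (det_eq_zero_of_column_eq_zero k hcon)
    obtain ⟨i, hi⟩ := hcolk
    have hab : b = a := by
      have h4 := congrFun (congrFun h3 i) k
      simp only [Matrix.smul_apply, smul_eq_mul, hsame] at h4
      exact mul_right_cancel₀ hi h4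
    subst hab
    have h4 := congrFun (congrFun h3 j₁) j₀
    simp only [Matrix.smul_apply, smul_eq_mul] at h4
    have h5 := mul_left_cancel₀ ha0 h4
    simp [formP, hj₀, hj₁, J₂] at h5
  · -- all indices are in `s`
    push Not at hsu
    have hform : ∀ P N J : Matrix (Fin m) (Fin m) F, formP P s N J = N := by
      intro P N J
      ext i j
      simp [formP, hsu i, hsu j]
    have hsuniv : s = Finset.univ := Finset.eq_univ_iff_forall.2 hsu
    have hcard : 3 ≤ s.card := by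
      rw [hsuniv, Finset.card_univ, Fintype.card_fin]
      exact hm
    obtain ⟨α, β, j, hαβ, hαj, hβj, hαj0⟩ := hnsc hcard
    have hβj₁ : D₁.N β j ≠ 0 := by
      rw [hN₁]
      exact mul_ne_zero (mul_ne_zero (hdne _) hβj) (hdne _)
    have hαj₁ : D₁.N α j = 0 := by
      rw [hN₁]
      simp [scaleM, hαj0]
    rw [hform] at ha
    let C := Matrix.transvection α β (1 : F)
    have hCT : Cᵀ = Matrix.transvection β α (1 : F) := transvection_T _ _ _
    set N₂ := C * D₁.N * Cᵀ with hN₂def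
    have hdetC : C.det = 1 := Matrix.det_transvection_of_ne _ _ hαβ _
    have hdetCT : (Cᵀ).det = 1 := by rw [det_transpose, hdetC]
    let U : GL (Fin m) F := Matrix.GeneralLinearGroup.mkOfDetNeZero Cᵀ (by rw [hdetCT]; exact h10)
    have hU : ⟪U⟫ = Cᵀ := rfl
    have hδ : (diagonal (dlt s) : Matrix (Fin m) (Fin m) F) = 1 := by
      rw [← diagonal_one]
      congr 1
      ext i
      simp [dlt, hsu i]
    have hΔ' : ⟪U * E⟫ * blkR g * ⟪Cm * U⁻¹⟫ = diagonal (dlt s) := by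
      have e1 : ⟪U * E⟫ = ⟪U⟫ * ⟪E⟫ := rfl
      have e2 : ⟪Cm * U⁻¹⟫ = ⟪Cm⟫ * ⟪U⁻¹⟫ := rfl
      rw [e1, e2]
      calc ⟪U⟫ * ⟪E⟫ * blkR g * (⟪Cm⟫ * ⟪U⁻¹⟫) = ⟪U⟫ * (⟪E⟫ * blkR g * ⟪Cm⟫) * ⟪U⁻¹⟫ := by
            simp only [mul_assoc]
        _ = diagonal (dlt s) := by
            rw [hΔ, hδ, mul_one, E_inv_mul]
    have hform2 : ⟪U * E⟫ᵀ * formP (bP (blkD g) (U * E) (Cm * U⁻¹)) s D₁.N 0 * ⟪(Cm * U⁻¹)⁻¹⟫ = EE * N₂ * Ci := by
      rw [hform]
      have e1 : ⟪U * E⟫ᵀ = EE * ⟪U⟫ᵀ := by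
        show (⟪U⟫ * ⟪E⟫)ᵀ = _
        rw [transpose_mul]
      have e2 : ⟪(Cm * U⁻¹)⁻¹⟫ = ⟪U⟫ * Ci := by
        rw [_root_.mul_inv_rev, inv_inv]
        rfl
      rw [e1, e2, hU, hN₂def, transpose_transpose]
      simp only [mul_assoc]
    refine ⟨U * E, Cm * U⁻¹, hΔ', 0, ?_, ?_⟩
    · rw [hform2]
      have h3 := hdet₁ 0
      rw [hform] at h3
      rw [det_mul, det_mul] at h3 ⊢
      rw [hN₂def, det_mul, det_mul, hdetC, hdetCT, one_mul, mul_one]
      exact h3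
    · rw [hform2]
      rintro ⟨b, hb⟩
      have h3 := scalar_pair hEE0 hCi0 ha hb
      have h4 : N₂ β j = D₁.N β j := by
        rw [hN₂def, hCT, Matrix.mul_transvection_apply_of_ne _ _ _ _ hαj.symm, Matrix.transvection_mul_apply_of_ne _ _ _ _ hαβ.symm]
      have h5 : N₂ α j = D₁.N α j + D₁.N β j := by
        rw [hN₂def, hCT, Matrix.mul_transvection_apply_of_ne _ _ _ _ hαj.symm, Matrix.transvection_mul_apply_same, one_mul]
      have h6 := congrFun (congrFun h3 β) j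
      simp only [Matrix.smul_apply, smul_eq_mul, h4] at h6
      have hab : b = a := mul_right_cancel₀ hβj₁ h6
      subst hab
      have h7 := congrFun (congrFun h3 α) j
      simp only [Matrix.smul_apply, smul_eq_mul, h5] at h7
      have h8 := mul_left_cancel₀ ha0 h7
      apply hβj₁
      rw [hαj₁] at h8
      linear_combination -h8

end Cfsg.Agent.Lib.OreMinus
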