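import Mathlib
import Cfsg.Agent.Lib.OreMinus.Model
import Cfsg.Agent.Lib.OrePlus.Position

/-!
# An element moving the standard singular subspace in a suitable conjugate
-/

set_option autoImplicit false
set_option linter.unusedSectionVars false
set_option linter.unusedSimpArgs false
set_option linter.unusedVariables false

namespace Cfsg.Agent.Lib.OreMinus

open Matrix QuadraticMap Module
open Cfsg.Agent.Lib.Classical.Orth.Basic
open Cfsg.Agent.Lib.Classical.Orth.Adjust
open Cfsg.Agent.Lib.Classical.Orth.Simple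
open Cfsg.Agent.Lib.OreOmega (exists_iso_family' exists_polar_sep)

variable {F : Type*} [Field F] [Fintype F] {m : ℕ} {Q₀ : QuadraticForm F (W2 F)}

/-- The vectors of `W`. -/
abbrev eV (m : ℕ) (F : Type*) [Field F] (j : Fin m) : VM m F := mkM (Pi.single j 1) 0 0

theorem blkR_eq_polar (g : OM Q₀ m) (i j : Fin m) :
    blkR g i j = polar (⇑(QM Q₀ m)) (act g (eV m F j)) (eV m F i) := by
  rw [act_W, polarM_mkM]
  simp [mulVec_single]

theorem blkR_conj (g k : OM Q₀ m) (i j : Fin m) :
    blkR (k⁻¹ * g * k) i j = polar (⇑(QM Q₀ m)) (act g (act k (eV m F j))) (act k (eV m F i)) := by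
  rw [blkR_eq_polar, act_mul, act_mul, polar_act_left, inv_inv]

theorem card_IM (m : ℕ) : Fintype.card (IM m) = 2 * m + 2 := by
  simp
  ring

/-- **Position.** -/
theorem exists_conj_R_ne (hm : 2 ≤ m) (hQ : Aniso Q₀) (g : OM Q₀ m) (hg : ¬ ∃ a : F, ∀ x, act g x = a • x) :
    ∃ k : OM Q₀ m, blkR (k⁻¹ * g * k) ≠ 0 := by
  classical
  have hnd := QM_nondegenerate (m := m) hQ
  have hn5 : 5 ≤ Fintype.card (IM m) := by
    rw [card_IM]
    omega
  -- a singular vector which is not an eigenvector
  obtain ⟨z, hz, hQz, hout⟩ : ∃ z, z ≠ 0 ∧ QM Q₀ m z = 0 ∧ act g z ∉ Submodule.span F {z} := by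
    by_contra hcon
    push Not at hcon
    have hfix : ∀ L : SingLine (QM Q₀ m), g • L = L := by
      intro L
      obtain ⟨z, hz, hQz, rfl⟩ := exists_line L
      apply Subtype.ext
      rw [coe_smul]
      apply gMap_eq_of_le
      intro x hx
      obtain ⟨t, rfl⟩ := Submodule.mem_span_singleton.1 hx
      rw [act_smul]
      exact Submodule.smul_mem _ _ (hcon z hz hQz)
    exact hg (scalar_of_fix hnd hn5 hfix)
  have e1 : ∀ a : Fin m → F, QM Q₀ m (mkM a 0 0) = 0 := by
    intro a
    rw [QM_mkM]
    simp
  by_cases hc1 : polar (⇑(QM Q₀ m)) (act g z) z = 0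
  · -- two orthogonal singular vectors
    obtain ⟨w, hw1, hw2⟩ := exists_polar_sep hnd hout
    set a' := act g z with ha'
    have hQa' : QM Q₀ m a' = 0 := by rw [ha', Q_act, hQz]
    set b := w - (QM Q₀ m w) • a' with hb
    have hQb : QM Q₀ m b = 0 := by
      rw [hb, Q_sub, Q_smul, hQa', polar_smul_right', polar_comm, hw2]
      ring
    have hzb : polar (⇑(QM Q₀ m)) z b = 0 := by
      rw [hb, polar_sub_right, polar_smul_right', hw1, polar_comm _ z a', hc1]
      ring
    have hab : polar (⇑(QM Q₀ m)) a' b = 1 := by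
      rw [hb, polar_sub_right, polar_smul_right', hw2, polar_self_eq, hQa']
      ring
    let i₀ : Fin m := ⟨0, by omega⟩
    let i₁ : Fin m := ⟨1, by omega⟩
    have hli : LinearIndependent F ![eV m F i₀, eV m F i₁] := by
      rw [LinearIndependent.pair_iff]
      intro s t hst
      have h3 := congrFun (congrArg xc hst) i₀
      have h4 := congrFun (congrArg xc hst) i₁
      have hne : i₀ ≠ i₁ := by simp [i₀, i₁, Fin.ext_iff]
      simp [hne, hne.symm] at h3 h4
      exact ⟨h3, h4⟩
    have hli' : LinearIndependent F ![z, b] := by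
      rw [LinearIndependent.pair_iff]
      intro s t hst
      have h3 := congrArg (polar (⇑(QM Q₀ m)) a') hst
      rw [polar_add_right, polar_smul_right', polar_smul_right', hc1, hab] at h3
      have h5 : polar (⇑(QM Q₀ m)) a' 0 = 0 := polar_zero_right _ _
      rw [h5] at h3
      have ht : t = 0 := by linear_combination h3
      subst ht
      rw [zero_smul, add_zero] at hst
      exact ⟨(smul_eq_zero.1 hst).resolve_right hz, rfl⟩
    obtain ⟨k, hk⟩ := exists_iso_family' hnd ![eV m F i₀, eV m F i₁] ![z, b] hli hli' (by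
      intro t
      simp only [Fin.sum_univ_two, Matrix.cons_val_zero, Matrix.cons_val_one, Matrix.cons_val]
      rw [Q_add, Q_smul, Q_smul, polar_smul_left', polar_smul_right', e1, e1, polarM_mkM]
      rw [Q_add, Q_smul, Q_smul, polar_smul_left', polar_smul_right', hQz, hQb, hzb]
      simp)
    refine ⟨k, fun h0 => ?_⟩
    have h3 := blkR_conj g k i₁ i₀
    have h4 := hk 0
    have h5 := hk 1
    simp only [Matrix.cons_val_zero, Matrix.cons_val_one, Matrix.cons_val] at h4 h5
    rw [h0, h4, h5, ← ha', hab] at h3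
    exact zero_ne_one h3
  · -- one vector suffices
    let i₀ : Fin m := ⟨0, by omega⟩
    have hli : LinearIndependent F ![eV m F i₀] := by
      rw [linearIndependent_unique_iff]
      intro h0
      have h3 := congrFun (congrArg xc h0) i₀
      simp at h3
    have hli' : LinearIndependent F ![z] := by
      rw [linearIndependent_unique_iff]
      exact hz
    obtain ⟨k, hk⟩ := exists_iso_family' hnd ![eV m F i₀] ![z] hli hli' (by
      intro t
      simp only [Fin.sum_univ_one, Matrix.cons_val_zero]
      rw [Q_smul, Q_smul, hQz, e1])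
    refine ⟨k, fun h0 => ?_⟩
    have h3 := blkR_conj g k i₀ i₀
    have h4 := hk 0
    simp only [Matrix.cons_val_zero] at h4
    rw [h0, h4] at h3
    exact hc1 h3.symm

end Cfsg.Agent.Lib.OreMinus
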