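import Mathlib
import Cfsg.Agent.Lib.OreMinus.NormalForm
import Cfsg.Agent.Lib.OreMinus.Position
import Cfsg.Agent.Lib.OreOmega.Comm
import Cfsg.Agent.Lib.Classical.Orth.Levi

/-!
# The commutator from the cell decomposition
-/

set_option autoImplicit false
set_option linter.unusedSectionVars false
set_option linter.unusedSimpArgs false
set_option linter.unusedVariables false

namespace Cfsg.Agent.Lib.OreMinus

open Matrix QuadraticMap Module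
open Cfsg.Agent.Lib.Classical.Orth.Basic
open Cfsg.Agent.Lib.Classical.Orth.Models
open Cfsg.Agent.Lib.Classical.Orth.Levi
open Cfsg.Agent.Lib.Classical.Orth.Sum
open Cfsg.Agent.Lib.Classical.Orth.Spinor
open Cfsg.Agent.Lib.OreOmega (IsAltM isAltM_of_entries dlt exists_rank_form exists_comm_of_cell mem_commutator_of_fpf)

variable {F : Type*} [Field F] [Fintype F] {m : ℕ} {Q₀ : QuadraticForm F (W2 F)}

set_option quotPrecheck false in
local notation "⟪" E "⟫" => ((E : GL (Fin m) F) : Matrix (Fin m) (Fin m) F)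

/-- `Ω` of the form. -/
noncomputable abbrev OmM (Q₀ : QuadraticForm F (W2 F)) (m : ℕ) := Cfsg.Omega F (⇑(QM Q₀ m))

theorem omega_conj {g : OM Q₀ m} (hg : g ∈ OmM Q₀ m) (k : OM Q₀ m) : k * g * k⁻¹ ∈ OmM Q₀ m :=
  (inferInstance : (OmM Q₀ m).Normal).conj_mem g hg k

theorem card_cond (hm : 3 ≤ m) :
    Fintype.card F ≠ 2 ∨ (Fintype.card (Fin m ⊕ Fin m) ≠ 4 ∧ Fintype.card ((Fin m ⊕ Fin m) ⊕ Fin 2) ≠ 4) := by
  right
  simp only [Fintype.card_sum, Fintype.card_fin]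
  omega

/-- `lev (D, 1)` lies in `Ω` iff `det D` is a square. -/
theorem lev_one_mem_iff (hm : 3 ≤ m) (hQ : Aniso Q₀) (D : GL (Fin m) F) :
    lev Q₀ m (D, 1) ∈ OmM Q₀ m ↔ IsSquare ⟪D⟫.det := by
  have hcn : Fintype.card F ≠ 2 ∨ m ≠ 2 := Or.inr (by omega)
  rw [← gHom_mem_omega_iff hcn D]
  constructor
  · intro h
    refine (block_left_mem_iff (card_cond hm) (plusForm_nondegenerate m) hQ.nd (gHom D)).1 ⟨lev Q₀ m (D, 1), h, rfl⟩
  · intro h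
    exact blockHom_left_mem _ _ (gHom D) h

/-- The Levi element with a reflection on the plane does not lie in `Ω`. -/
theorem lev_refl_not_mem (hm : 3 ≤ m) (hQ : Aniso Q₀) (D : GL (Fin m) F) {w : W2 F} (hw : Q₀ w ≠ 0) :
    lev Q₀ m (D, reflectionIso Q₀ w hw) ∉ OmM Q₀ m := by
  classical
  intro hmem
  by_cases h2 : (2 : F) = 0
  · have h10 : (1 : F) ≠ 0 := one_ne_zero
    have hc : CharP F 2 := CharTwo.of_one_ne_zero_of_two_eq_zero h10 h2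
    have hD : lev Q₀ m (D, 1) ∈ OmM Q₀ m :=
      (lev_one_mem_iff hm hQ D).2 (FiniteField.isSquare_of_char_two (ringChar.eq F 2) _)
    have h3 : lev Q₀ m (1, reflectionIso Q₀ w hw) ∈ OmM Q₀ m := by
      have e : lev Q₀ m (1, reflectionIso Q₀ w hw) = (lev Q₀ m (D, 1))⁻¹ * lev Q₀ m (D, reflectionIso Q₀ w hw) := by
        rw [← map_inv, ← map_mul]
        simp
      rw [e]
      exact Subgroup.mul_mem _ (Subgroup.inv_mem _ hD) hmem
    have hvs : ∀ v ∈ [(liftR w : IM m → F)], QM Q₀ m v ≠ 0 := by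
      intro v hv
      rw [List.mem_singleton] at hv
      rw [hv, sumForm_liftR]
      exact hw
    have hF : (∃ c : F, c ≠ 0 ∧ c ≠ 1) ∨ Fintype.card (IM m) ≠ 4 := by
      right
      rw [card_IM]
      omega
    have hmat : ((lev Q₀ m (1, reflectionIso Q₀ w hw) : OM Q₀ m) : GL (IM m) F).val =
        ([(liftR w : IM m → F)].map (fun v => Cfsg.reflectionMatrix (⇑(QM Q₀ m)) v)).prod := by
      simp only [List.map_cons, List.map_nil, List.prod_cons, List.prod_nil, mul_one]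
      rw [reflection_liftR]
      show Matrix.fromBlocks _ 0 0 _ = _
      congr 1
      have : (gHom (1 : GL (Fin m) F)) = 1 := map_one _
      show ((gHom (1 : GL (Fin m) F) : ↥(Cfsg.isometryGroup F (⇑(plusForm m F)))) : GL (Fin m ⊕ Fin m) F).val = 1
      rw [this]
      rfl
    have h4 := (mem_omega_iff_list_char_two (QM_nondegenerate hQ) hF _ hvs _ hmat).1 h3
    simp at h4
  · let f : OM Q₀ m →* Fˣ := (Matrix.GeneralLinearGroup.det).comp (Cfsg.isometryGroup F (⇑(QM Q₀ m))).subtype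
    have h1 : f (lev Q₀ m (D, reflectionIso Q₀ w hw)) = 1 := omega_le_ker (QM Q₀ m) f hmem
    have h3 : ((f (lev Q₀ m (D, reflectionIso Q₀ w hw)) : Fˣ) : F) = (-1 : F) := by
      show Matrix.det (Matrix.fromBlocks _ 0 0 _) = _
      rw [Matrix.det_fromBlocks_zero₂₁]
      have e1 := det_gHom D
      have e2 : ((reflectionIso Q₀ w hw : O2 Q₀) : GL (Fin 2) F).val.det = -1 := det_reflectionMatrix Q₀ hw
      erw [e1, e2]
      simp
    rw [h1] at h3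
    apply h2
    have h5 : (1 : F) = -1 := by simpa using h3
    linear_combination h5

variable (Q₀ m) in
/-- A supply of Levi elements. -/
structure Supply : Prop where
  QW_le : QW Q₀ m ≤ OmM Q₀ m
  QT_le : QT Q₀ m ≤ OmM Q₀ m
  fac : ∀ T : GL (Fin m) F, ⟪T⟫.det = 1 → (¬ ∃ a : F, ⟪T⟫ = a • 1) →
    ∃ b d G : OM Q₀ m, b * d⁻¹ = lev Q₀ m (T, 1) ∧ G * d * G⁻¹ = b ∧ b ∈ OmM Q₀ m ∧ G ∈ OmM Q₀ m ∧
      (∀ q ∈ QT Q₀ m, b * q * b⁻¹ ∈ QT Q₀ m) ∧ (∀ q ∈ QT Q₀ m, b * q * b⁻¹ = q → q = 1) ∧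
      (∀ q ∈ QW Q₀ m, d * q * d⁻¹ ∈ QW Q₀ m) ∧ (∀ q ∈ QW Q₀ m, d * q * d⁻¹ = q → q = 1)

/-- **The main case.** -/
theorem ore_main (hm : 3 ≤ m) (hQ : Aniso Q₀) (hS : Supply m Q₀) (g : OM Q₀ m) (hgΩ : g ∈ OmM Q₀ m)
    (hsc : ¬ ∃ a : F, ∀ x, act g x = a • x) :
    ∃ a ∈ OmM Q₀ m, ∃ b ∈ OmM Q₀ m, g = a * b * a⁻¹ * b⁻¹ := by
  classical
  obtain ⟨k, hk⟩ := exists_conj_R_ne (by omega) hQ g hsc
  set g₁ := k⁻¹ * g * k with hg₁
  have hg₁Ω : g₁ ∈ OmM Q₀ m := by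
    have := omega_conj hgΩ k⁻¹
    rwa [inv_inv] at this
  obtain ⟨E, Cm, s, hΔ⟩ := exists_rank_form (blkR g₁)
  obtain ⟨h₁, hh₁, hC, hR⟩ := exists_conj_C_zero hQ g₁ hΔ
  set g₂ := h₁ * g₁ * h₁⁻¹ with hg₂
  have hg₂Ω : g₂ ∈ OmM Q₀ m := omega_conj hg₁Ω h₁
  have hRne : blkR g₂ ≠ 0 := by
    rw [hR]
    exact hk
  have hcell : ∀ h ∈ QW Q₀ m, ∀ (D : GL (Fin m) F) (τ : O2 Q₀), blkD (h * g₂ * h⁻¹) = ⟪D⟫ →
      HolIs (h * g₂ * h⁻¹) (act τ) → lev Q₀ m (D, τ) ∈ OmM Q₀ m := by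
    intro h hh D τ hD hH
    obtain ⟨u, hu, v, hv, huv⟩ := exists_cell hQ (h * g₂ * h⁻¹) D τ hD hH
    have h3 : lev Q₀ m (D, τ) = u⁻¹ * (h * g₂ * h⁻¹) * v⁻¹ := by
      rw [huv]
      group
    rw [h3]
    exact Subgroup.mul_mem _ (Subgroup.mul_mem _ (Subgroup.inv_mem _ (hS.QT_le hu)) (omega_conj hg₂Ω h))
      (Subgroup.inv_mem _ (hS.QW_le hv))
  have hone : ∀ {g' : OM Q₀ m}, HolIs g' id → HolIs g' (act (1 : O2 Q₀)) := by
    intro g' hH z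
    obtain ⟨x, h1, h2⟩ := hH z
    exact ⟨x, h1, by rw [h2, act_one]; rfl⟩
  obtain ⟨h, hh, D, hD, hD1, hD2, hH⟩ := exists_normal hm hQ hC hRne
    (fun h hh D hD hH => (lev_one_mem_iff hm hQ D).1 (hcell h hh D 1 hD (hone hH)))
    (fun h hh D w hw hD hH => lev_refl_not_mem hm hQ D hw (hcell h hh D (reflectionIso Q₀ w hw) hD (by
      intro z
      obtain ⟨x, h1, h2⟩ := hH z
      exact ⟨x, h1, by rw [h2, rf_eq_act w hw]⟩)))
  set g₃ := h * g₂ * h⁻¹ with hg₃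
  obtain ⟨u, hu, v, hv, huv⟩ := exists_cell hQ g₃ D 1 hD (hone hH)
  obtain ⟨b, d, G, hbd, hG, hb, hGΩ, hnb, hfb, hnd, hfd⟩ := hS.fac D hD1 hD2
  haveI : Finite ↥(QT Q₀ m) := inferInstance
  haveI : Finite ↥(QW Q₀ m) := inferInstance
  obtain ⟨a, ha, w, hw, hcomm⟩ := exists_comm_of_cell (OmM Q₀ m) (QT Q₀ m) (QW Q₀ m) hS.QT_le hS.QW_le
    b d G u v hnb hfb hnd hfd hG hb hGΩ hu hv
  have hg₃eq : g₃ = a * w * a⁻¹ * w⁻¹ := by
    rw [huv, ← hbd, ← hcomm]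
    group
  set c := k * h₁⁻¹ * h⁻¹ with hc
  have hgc : g = c * g₃ * c⁻¹ := by
    rw [hg₃, hg₂, hg₁, hc]
    group
  refine ⟨c * a * c⁻¹, omega_conj ha c, c * w * c⁻¹, omega_conj hw c, ?_⟩
  rw [hgc, hg₃eq]
  group

end Cfsg.Agent.Lib.OreMinus
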