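import Mathlib
import Cfsg.Agent.Lib.OreMinus.Core
import Cfsg.Agent.Lib.OrePlus.Factor
import Cfsg.Agent.Lib.OrePlus.Poly
import Cfsg.Agent.Lib.OreOmega.Main

/-!
# The Levi elements
-/

set_option autoImplicit false
set_option linter.unusedSectionVars false
set_option linter.unusedSimpArgs false
set_option linter.unusedVariables false

namespace Cfsg.Agent.Lib.OreMinus

open Matrix QuadraticMap Module Polynomial
open Cfsg.Agent.Lib.Classical.Orth.Basic
open Cfsg.Agent.Lib.OreOmega (IsAltM alt_fix_zero vec_fix_zero noRoot_of_irreducible exists_nonscalar mem_commutator_of_fpf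
  exists_good_poly)
open Cfsg.Agent.Lib.OrePlus (exists_matrix_factor2 exists_good_poly2)

variable {F : Type*} [Field F] [Fintype F] {m : ℕ} {Q₀ : QuadraticForm F (W2 F)}

set_option quotPrecheck false in
local notation "⟪" E "⟫" => ((E : GL (Fin m) F) : Matrix (Fin m) (Fin m) F)

/-- The general supply. -/
theorem supply_of_poly (hm : 3 ≤ m) (hQ : Aniso Q₀) {p : F[X]} {κ : F} (hmon : p.Monic) (hirr : Irreducible p)
    (h2 : 2 ≤ p.natDegree) (hd : p.natDegree + 1 = m) (hκ0 : κ ≠ 0) (hrel : (-1) ^ p.natDegree * p.coeff 0 * κ = 1)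
    (hrev : ¬ p ∣ p.reverse) (t : O2 Q₀) (htΩ : lev Q₀ m (1, t) ∈ OmM Q₀ m)
    (hcB : ∀ B : GL (Fin m) F, ⟪B⟫.charpoly = (X - C κ) * p → ∀ c : Matrix (Fin 2) (Fin m) F,
      ((t : GL (Fin 2) F) : Matrix (Fin 2) (Fin 2) F) * c = c * ⟪B⟫ → c = 0)
    (hcD : ∀ D : GL (Fin m) F, ⟪D⟫.charpoly = (X - C κ) * p → ∀ c : Matrix (Fin 2) (Fin m) F,
      ((t : GL (Fin 2) F) : Matrix (Fin 2) (Fin 2) F) * c * ⟪D⟫ᵀ = c → c = 0) : Supply m Q₀ := by
  have fpfB : ∀ B : GL (Fin m) F, ⟪B⟫.charpoly = (X - C κ) * p → ∀ q ∈ QT Q₀ m,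
      lev Q₀ m (B, t) * q * (lev Q₀ m (B, t))⁻¹ = q → q = 1 := by
    intro B hB
    have hT : (⟪B⟫ᵀ).charpoly = (X - C κ) * p := by rw [Matrix.charpoly_transpose, hB]
    exact fpf_QT hQ B t (hcB B hB)
      (fun A hA h => alt_fix_zero _ A hT hirr h2 hκ0 hrev hA (by rwa [transpose_transpose]))
  have fpfD : ∀ D : GL (Fin m) F, ⟪D⟫.charpoly = (X - C κ) * p → ∀ q ∈ QW Q₀ m,
      lev Q₀ m (D, t) * q * (lev Q₀ m (D, t))⁻¹ = q → q = 1 := by
    intro D hD
    exact fpf_QW hQ D t (hcD D hD) (fun A hA h => alt_fix_zero _ A hD hirr h2 hκ0 hrev hA h)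
  have hfac := fun (A : GL (Fin m) F) hA1 hA2 => exists_matrix_factor2 hmon hd (noRoot_of_irreducible hirr h2 κ) hrel A hA1 hA2
  obtain ⟨A, hA1, hA2⟩ := exists_nonscalar (F := F) (m := m) (by omega)
  obtain ⟨B₀, D₀, G₀, -, hB₀, hD₀, -, -, -⟩ := hfac A hA1 hA2
  haveI : Finite ↥(QT Q₀ m) := inferInstance
  haveI : Finite ↥(QW Q₀ m) := inferInstance
  refine ⟨?_, ?_, ?_⟩
  · intro q hq
    exact mem_commutator_of_fpf (QW Q₀ m) (lev Q₀ m (D₀, t)) (fun q hq => lev_conj_mem_QW D₀ t hq)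
      (fpfD D₀ hD₀) q hq
  · intro q hq
    exact mem_commutator_of_fpf (QT Q₀ m) (lev Q₀ m (B₀, t)) (fun q hq => lev_conj_mem_QT B₀ t hq)
      (fpfB B₀ hB₀) q hq
  · intro T hT1 hT2
    obtain ⟨B, D, G, hTBD, hB, hD, hG, hGdet, hBdet⟩ := hfac T hT1 hT2
    have hBmem : lev Q₀ m (B, 1) ∈ OmM Q₀ m := (lev_one_mem_iff hm hQ B).2 (by rw [hBdet]; exact IsSquare.one)
    have hGmem : lev Q₀ m (G, 1) ∈ OmM Q₀ m := (lev_one_mem_iff hm hQ G).2 (by rw [hGdet]; exact IsSquare.one)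
    refine ⟨lev Q₀ m (B, t), lev Q₀ m (D, t), lev Q₀ m (G, 1), ?_, ?_, ?_, hGmem, fun q hq => lev_conj_mem_QT B t hq,
      fpfB B hB, fun q hq => lev_conj_mem_QW D t hq, fpfD D hD⟩
    · rw [← map_inv, ← map_mul, hTBD]
      congr 1
      simp
    · rw [← map_inv, ← map_mul, ← map_mul]
      congr 1
      simp [hG]
    · have e : lev Q₀ m (B, t) = lev Q₀ m (B, 1) * lev Q₀ m (1, t) := by
        rw [← map_mul]
        congr 1
        simp
      rw [e]
      exact Subgroup.mul_mem _ hBmem htΩ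

omit [Fintype F] in
theorem row_of_mul {c : Matrix (Fin 2) (Fin m) F} {B : Matrix (Fin m) (Fin m) F} (h : c = c * B) (i : Fin 2) :
    Bᵀ *ᵥ (c i) = c i := by
  ext j
  have h1 := congrFun (congrFun h i) j
  rw [Matrix.mul_apply] at h1
  rw [h1]
  simp [mulVec, dotProduct, mul_comm]

/-- The supply for at least three elements. -/
theorem supply_big (hq : 3 ≤ Fintype.card F) (hm : 3 ≤ m) (hQ : Aniso Q₀) : Supply m Q₀ := by
  obtain ⟨p, κ, hmon, hirr, hdeg, hκ1, hκ0, hrel, hrev⟩ := exists_good_poly (F := F) hq (m - 1) (by omega)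
  have hd : p.natDegree + 1 = m := by omega
  have h2 : 2 ≤ p.natDegree := by omega
  refine supply_of_poly hm hQ hmon hirr h2 hd hκ0 (by rw [hdeg]; exact hrel) hrev 1 ?_ ?_ ?_
  · have : ((1 : GL (Fin m) F), (1 : O2 Q₀)) = 1 := rfl
    rw [this, map_one]
    exact Subgroup.one_mem _
  · intro B hB c hc
    have hT : (⟪B⟫ᵀ).charpoly = (X - C κ) * p := by rw [Matrix.charpoly_transpose, hB]
    have h1 : c = c * ⟪B⟫ := by
      rw [← hc]
      show c = (1 : Matrix (Fin 2) (Fin 2) F) * c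
      rw [Matrix.one_mul]
    ext i j
    have := vec_fix_zero _ hT hirr h2 hκ1 (c i) (row_of_mul h1 i)
    exact congrFun this j
  · intro D hD c hc
    have h1 : c = c * ⟪D⟫ᵀ := by
      conv_lhs => rw [← hc]
      show (1 : Matrix (Fin 2) (Fin 2) F) * c * _ = _
      rw [Matrix.one_mul]
    ext i j
    have h3 := row_of_mul h1 i
    rw [transpose_transpose] at h3
    have := vec_fix_zero _ hD hirr h2 hκ1 (c i) h3
    exact congrFun this j

section Two

theorem two_eq_zero_of_card (h : Fintype.card F = 2) : (2 : F) = 0 := by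
  have := FiniteField.cast_card_eq_zero F
  rw [h] at this
  exact_mod_cast this

/-- The polynomial `X² + X + 1` is coprime to the characteristic polynomial. -/
theorem exists_mu_inv (hq : Fintype.card F = 2) {p : F[X]} {κ : F} (hirr : Irreducible p) (h3 : 3 ≤ p.natDegree)
    (A : Matrix (Fin m) (Fin m) F) (hA : A.charpoly = (X - C κ) * p) :
    ∃ Z : Matrix (Fin m) (Fin m) F, (A * A + A + 1) * Z = 1 := by
  classical
  have h2 : (2 : F) = 0 := two_eq_zero_of_card hq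
  have hel : ∀ x : F, x = 0 ∨ x = 1 := by
    intro x
    have h4 := FiniteField.pow_card x
    rw [hq] at h4
    have h5 : x * (x - 1) = 0 := by linear_combination h4
    rcases mul_eq_zero.1 h5 with h | h
    · exact Or.inl h
    · exact Or.inr (sub_eq_zero.1 h)
  set μ : F[X] := X ^ 2 + X + 1 with hμ
  have hμm : μ.Monic := by
    rw [hμ]
    monicity!
  have hμd : μ.natDegree = 2 := by
    rw [hμ]
    compute_degree!
  have hμirr : Irreducible μ := by
    rw [Polynomial.Monic.irreducible_iff_roots_eq_zero_of_degree_le_three hμm (by omega) (by omega)]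
    apply Multiset.eq_zero_of_forall_notMem
    intro x hx
    have h4 := (Polynomial.mem_roots'.1 hx).2
    simp only [IsRoot.def, hμ, eval_add, eval_pow, eval_X, eval_one] at h4
    rcases hel x with rfl | rfl
    · simp at h4
    · have : (1 : F) ^ 2 + 1 + 1 = 1 + 2 := by ring
      rw [this, h2] at h4
      simp at h4
  have hc1 : IsCoprime μ (X - C κ) := by
    rw [hμirr.coprime_iff_not_dvd]
    intro hdvd
    have h4 := Polynomial.natDegree_le_of_dvd hdvd (X_sub_C_ne_zero κ)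
    rw [hμd, natDegree_X_sub_C] at h4
    omega
  have hc2 : IsCoprime μ p := by
    rw [hμirr.coprime_iff_not_dvd]
    rintro ⟨g, hg⟩
    rcases hirr.isUnit_or_isUnit hg with h4 | h4
    · exact hμirr.not_isUnit h4
    · have h5 := Polynomial.natDegree_eq_zero_of_isUnit h4
      have hg0 : g ≠ 0 := h4.ne_zero
      have h6 := Polynomial.natDegree_mul hμm.ne_zero hg0
      rw [← hg, hμd, h5] at h6
      omega
  obtain ⟨u, v, huv⟩ := hc1.mul_right hc2
  have h4 := congrArg (aeval A) huv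
  rw [map_add, map_mul, map_mul, ← hA, Matrix.aeval_self_charpoly, mul_zero, add_zero, map_one] at h4
  have h5 : aeval A μ = A * A + A + 1 := by
    rw [hμ]
    simp [pow_two]
  rw [h5] at h4
  exact ⟨aeval A u, mul_eq_one_comm.1 h4⟩

omit [Fintype F] in
theorem mat_add_self (h2 : (2 : F) = 0) {n : Type} [Fintype n] [DecidableEq n] (a : Matrix n n F) : a + a = 0 := by
  ext i j
  simp only [Matrix.add_apply, Matrix.zero_apply]
  linear_combination (a i j) * h2

/-- The supply for the field with two elements and `m ≥ 4`. -/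
theorem supply_two (hq : Fintype.card F = 2) (hm : 4 ≤ m) (hQ : Aniso Q₀) (t : O2 Q₀)
    (ht : ((t : GL (Fin 2) F) : Matrix (Fin 2) (Fin 2) F) * ((t : GL (Fin 2) F) : Matrix (Fin 2) (Fin 2) F) +
      ((t : GL (Fin 2) F) : Matrix (Fin 2) (Fin 2) F) + 1 = 0)
    (htΩ : lev Q₀ m (1, t) ∈ OmM Q₀ m) : Supply m Q₀ := by
  obtain ⟨p, κ, hmon, hirr, hdeg, hκ0, hrel, hrev⟩ := exists_good_poly2 (F := F) (m - 1) (by omega)
  have hd : p.natDegree + 1 = m := by omega
  have h2 : (2 : F) = 0 := two_eq_zero_of_card hq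
  set tt : Matrix (Fin 2) (Fin 2) F := ((t : GL (Fin 2) F) : Matrix (Fin 2) (Fin 2) F) with htt
  refine supply_of_poly (by omega) hQ hmon hirr (by omega) hd hκ0 (by rw [hdeg]; exact hrel) hrev t htΩ ?_ ?_
  · intro B hB c hc
    obtain ⟨Z, hZ⟩ := exists_mu_inv hq hirr (by omega) ⟪B⟫ hB
    have h1 : c * (⟪B⟫ * ⟪B⟫ + ⟪B⟫ + 1) = (tt * tt + tt + 1) * c := by
      simp only [Matrix.mul_add, Matrix.add_mul, Matrix.mul_one, Matrix.one_mul]
      rw [← Matrix.mul_assoc, ← hc, Matrix.mul_assoc, ← hc, ← Matrix.mul_assoc]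
    rw [ht, Matrix.zero_mul] at h1
    calc c = c * ((⟪B⟫ * ⟪B⟫ + ⟪B⟫ + 1) * Z) := by rw [hZ, Matrix.mul_one]
      _ = (c * (⟪B⟫ * ⟪B⟫ + ⟪B⟫ + 1)) * Z := by rw [Matrix.mul_assoc]
      _ = 0 := by rw [h1, Matrix.zero_mul]
  · intro D hD c hc
    have hT : (⟪D⟫ᵀ).charpoly = (X - C κ) * p := by rw [Matrix.charpoly_transpose, hD]
    obtain ⟨Z, hZ⟩ := exists_mu_inv hq hirr (by omega) (⟪D⟫ᵀ) hT
    set Y := ⟪D⟫ᵀ with hY
    set τ : Matrix (Fin 2) (Fin 2) F := tt + 1 with hτ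
    have hτt : τ * tt = 1 := by
      have h3 : τ * tt = tt * tt + tt := by rw [hτ, Matrix.add_mul, Matrix.one_mul]
      have h4 : tt * tt + tt = -1 := eq_neg_of_add_eq_zero_left ht
      rw [h3, h4]
      exact neg_eq_of_add_eq_zero_left (mat_add_self h2 1)
    have h3 : c * Y = τ * c := by
      conv_rhs => rw [← hc]
      rw [← Matrix.mul_assoc, ← Matrix.mul_assoc, hτt, Matrix.one_mul]
    have h4 : c * (Y * Y) = τ * τ * c := by
      rw [← Matrix.mul_assoc, h3, Matrix.mul_assoc, h3, Matrix.mul_assoc]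
    have h5 : τ * τ + τ + 1 = 0 := by
      have e1 : τ * τ + τ + 1 = (tt * tt + tt + 1) + ((tt + 1) + (tt + 1)) := by
        rw [hτ]
        simp only [Matrix.mul_add, Matrix.add_mul, Matrix.mul_one, Matrix.one_mul]
        abel
      rw [e1, ht, mat_add_self h2, add_zero]
    have h1 : c * (Y * Y + Y + 1) = (τ * τ + τ + 1) * c := by
      simp only [Matrix.mul_add, Matrix.add_mul, Matrix.mul_one, Matrix.one_mul]
      rw [h4, h3]
    rw [h5, Matrix.zero_mul] at h1
    calc c = c * ((Y * Y + Y + 1) * Z) := by rw [hZ, Matrix.mul_one]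
      _ = (c * (Y * Y + Y + 1)) * Z := by rw [Matrix.mul_assoc]
      _ = 0 := by rw [h1, Matrix.zero_mul]

end Two

end Cfsg.Agent.Lib.OreMinus
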