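import Mathlib
import Cfsg.Agent.Lib.OreMinus.Supply

/-!
# The binary form
-/

set_option autoImplicit false
set_option linter.unusedSectionVars false
set_option linter.unusedSimpArgs false
set_option linter.unusedVariables false

namespace Cfsg.Agent.Lib.OreMinus

open Matrix QuadraticMap Module
open Cfsg.Agent.Lib.Classical.Orth.Basic
open Cfsg.Agent.Lib.Classical.Orth.Models
open Cfsg.Agent.Lib.Classical.Orth.Sum

variable {F : Type*} [Field F] {m : ℕ}

/-- The binary form. -/
noncomputable def binQ (a b : F) : QuadraticForm F (W2 F) :=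
  QuadraticMap.linMulLin (LinearMap.proj 0) (LinearMap.proj 0) +
    a • QuadraticMap.linMulLin (LinearMap.proj 0) (LinearMap.proj 1) +
    b • QuadraticMap.linMulLin (LinearMap.proj 1) (LinearMap.proj 1)

theorem binQ_apply (a b : F) (z : W2 F) : binQ a b z = z 0 ^ 2 + a * z 0 * z 1 + b * z 1 ^ 2 := by
  simp [binQ, pow_two, mul_assoc]

theorem polar_binQ (a b : F) (z w : W2 F) :
    polar (⇑(binQ a b)) z w = 2 * z 0 * w 0 + a * (z 0 * w 1 + w 0 * z 1) + 2 * b * z 1 * w 1 := by
  simp only [polar, binQ_apply, Pi.add_apply]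
  ring

/-- The form of the statement. -/
theorem coe_QM_binQ (m : ℕ) (a b : F) : ⇑(QM (binQ a b) m) = Cfsg.quadFormMinus m F a b := by
  funext v
  rw [sumForm_apply, binQ_apply]
  have h1 : plusForm m F (v ∘ Sum.inl) = ∑ i : Fin m, v (Sum.inl (Sum.inl i)) * v (Sum.inl (Sum.inr i)) := by
    rw [coe_plusForm_apply]
    rfl
  rw [h1]
  rfl

theorem aniso_binQ [Fintype F] (a b : F)
    (hab : ∀ z₁ z₂ : F, z₁ ^ 2 + a * z₁ * z₂ + b * z₂ ^ 2 = 0 → z₁ = 0 ∧ z₂ = 0) : Aniso (binQ a b) := by
  refine ⟨fun z hz => ?_, ?_⟩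
  · rw [binQ_apply] at hz
    obtain ⟨h0, h1⟩ := hab _ _ hz
    ext i
    fin_cases i
    · exact h0
    · exact h1
  · apply nondegenerate_of_separating
    intro x hx
    have h1 := hx 0
    have h3 := hx 1
    rw [polar_binQ] at h1 h3
    simp only [Pi.single_apply, one_ne_zero, zero_ne_one, if_true, if_false] at h1 h3
    obtain ⟨h4, h5⟩ := binary_nondegenerate a b hab (x 0) (x 1) (by
      simp at h1
      linear_combination h1) (by
      simp at h3
      linear_combination h3)
    ext k
    fin_cases k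
    · exact h4
    · exact h5

end Cfsg.Agent.Lib.OreMinus
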