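import Mathlib
import Cfsg.Agent.Lib.Classical.Orth.Spinor
import Cfsg.Agent.Lib.Classical.Orth.NegPairs

/-!
# The element `-1` from an orthogonal frame
-/

set_option autoImplicit false
set_option linter.unusedSectionVars false
set_option linter.unusedSimpArgs false
set_option linter.unusedVariables false

namespace Cfsg.Agent.Lib.OreMinus

open Matrix QuadraticMap Module
open Cfsg.Agent.Lib.Classical.Orth.Basic
open Cfsg.Agent.Lib.Classical.Orth.Spinor
open Cfsg.Agent.Lib.Classical.Orth.NegPairs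

variable {F : Type*} [Field F] [Fintype F] {ι : Type} [Fintype ι] [DecidableEq ι] {Q : QuadraticForm F (ι → F)}

set_option quotPrecheck false in
local notation "𝔯" => Cfsg.reflectionMatrix (⇑Q)

section Frame

variable {w : Fin 6 → ι → F} {c : F}

omit [Fintype F] in
theorem frame_Q_sub (h2 : (2 : F) ≠ 0) (hc : c ≠ 0) (hw : ∀ i, Q (w i) = c)
    (hp : ∀ i j, i ≠ j → polar (⇑Q) (w i) (w j) = 0) {i j : Fin 6} (hij : i ≠ j) : Q (w i - w j) = 2 * c := by
  rw [Q_sub, hw, hw, hp i j hij]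
  ring

omit [Fintype F] in
theorem frame_R_same (hc : c ≠ 0) (hw : ∀ i, Q (w i) = c) (i : Fin 6) : 𝔯 (w i) *ᵥ w i = - w i :=
  reflectionMatrix_mulVec_self Q _ (by rw [hw]; exact hc)

omit [Fintype F] in
theorem frame_R_diff (hp : ∀ i j, i ≠ j → polar (⇑Q) (w i) (w j) = 0) {i j : Fin 6} (hij : i ≠ j) :
    𝔯 (w i) *ᵥ w j = w j :=
  reflectionMatrix_mulVec_of_polar_eq_zero Q _ _ (hp i j hij)

omit [Fintype F] in
theorem frame_S_left (h2 : (2 : F) ≠ 0) (hc : c ≠ 0) (hw : ∀ i, Q (w i) = c)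
    (hp : ∀ i j, i ≠ j → polar (⇑Q) (w i) (w j) = 0) {i j : Fin 6} (hij : i ≠ j) :
    𝔯 (w i - w j) *ᵥ w i = w j := by
  rw [reflectionMatrix_mulVec, frame_Q_sub h2 hc hw hp hij, polar_sub_left, polar_self_eq, hp j i hij.symm, hw]
  have : (2 * c)⁻¹ * (2 * c - 0) = 1 := by
    field_simp
    ring
  rw [this, one_smul]
  abel

omit [Fintype F] in
theorem frame_S_right (h2 : (2 : F) ≠ 0) (hc : c ≠ 0) (hw : ∀ i, Q (w i) = c)
    (hp : ∀ i j, i ≠ j → polar (⇑Q) (w i) (w j) = 0) {i j : Fin 6} (hij : i ≠ j) :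
    𝔯 (w i - w j) *ᵥ w j = w i := by
  rw [reflectionMatrix_mulVec, frame_Q_sub h2 hc hw hp hij, polar_sub_left, polar_self_eq, hp i j hij, hw]
  have : (2 * c)⁻¹ * (0 - 2 * c) = -1 := by
    field_simp
    ring
  rw [this, neg_one_smul]
  abel

omit [Fintype F] in
theorem frame_S_other (hp : ∀ i j, i ≠ j → polar (⇑Q) (w i) (w j) = 0) {i j k : Fin 6} (hik : i ≠ k) (hjk : j ≠ k) :
    𝔯 (w i - w j) *ᵥ w k = w k := by
  apply reflectionMatrix_mulVec_of_polar_eq_zero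
  rw [polar_sub_left, hp i k hik, hp j k hjk, sub_zero]

/-- The two elements built from a frame. -/
theorem exists_frame_pair (hnd : (polarBilin Q).Nondegenerate) (h2 : (2 : F) ≠ 0) (hc : c ≠ 0) (hw : ∀ i, Q (w i) = c)
    (hp : ∀ i j, i ≠ j → polar (⇑Q) (w i) (w j) = 0) :
    ∃ a ∈ Cfsg.Omega F (⇑Q), ∃ b ∈ Cfsg.Omega F (⇑Q),
      (act a (w 0) = w 1 ∧ act a (w 1) = - w 0 ∧ act a (w 2) = w 3 ∧ act a (w 3) = w 2 ∧
        act a (w 4) = w 4 ∧ act a (w 5) = - w 5) ∧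
      (act b (w 0) = w 0 ∧ act b (w 1) = - w 1 ∧ act b (w 2) = w 3 ∧ act b (w 3) = - w 2 ∧
        act b (w 4) = w 5 ∧ act b (w 5) = w 4) ∧
      ∀ v, (∀ i, polar (⇑Q) (w i) v = 0) → act a v = v ∧ act b v = v := by
  have hQw : ∀ i, Q (w i) ≠ 0 := fun i => by rw [hw]; exact hc
  have hQs : ∀ {i j : Fin 6}, i ≠ j → Q (w i - w j) ≠ 0 := fun hij => by
    rw [frame_Q_sub h2 hc hw hp hij]
    exact mul_ne_zero h2 hc
  have h01 : (0 : Fin 6) ≠ 1 := by decide
  have h23 : (2 : Fin 6) ≠ 3 := by decide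
  have h45 : (4 : Fin 6) ≠ 5 := by decide
  set vsa : List (ι → F) := [w 0, w 0 - w 1, w 2 - w 3, w 5] with hvsa
  set vsb : List (ι → F) := [w 1, w 2, w 2 - w 3, w 4 - w 5] with hvsb
  have hvsa0 : ∀ v ∈ vsa, Q v ≠ 0 := by
    intro v hv
    simp only [hvsa, List.mem_cons, List.not_mem_nil, or_false] at hv
    rcases hv with rfl | rfl | rfl | rfl
    · exact hQw _
    · exact hQs h01
    · exact hQs h23
    · exact hQw _
  have hvsb0 : ∀ v ∈ vsb, Q v ≠ 0 := by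
    intro v hv
    simp only [hvsb, List.mem_cons, List.not_mem_nil, or_false] at hv
    rcases hv with rfl | rfl | rfl | rfl
    · exact hQw _
    · exact hQw _
    · exact hQs h23
    · exact hQs h45
  obtain ⟨a, ha⟩ := exists_iso_of_list Q vsa hvsa0
  obtain ⟨b, hb⟩ := exists_iso_of_list Q vsb hvsb0
  have hS2 : ∀ {i j : Fin 6}, i ≠ j → Q (w i - w j) = 2 * c := fun hij => frame_Q_sub h2 hc hw hp hij
  have haΩ : a ∈ Cfsg.Omega F (⇑Q) := by
    rw [mem_omega_iff_list Q hnd h2 vsa hvsa0 a ha]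
    refine ⟨by rw [hvsa]; exact ⟨2, rfl⟩, ⟨2 * c * c, ?_⟩⟩
    simp only [hvsa, List.map_cons, List.map_nil, List.prod_cons, List.prod_nil, hw, hS2 h01, hS2 h23]
    ring
  have hbΩ : b ∈ Cfsg.Omega F (⇑Q) := by
    rw [mem_omega_iff_list Q hnd h2 vsb hvsb0 b hb]
    refine ⟨by rw [hvsb]; exact ⟨2, rfl⟩, ⟨2 * c * c, ?_⟩⟩
    simp only [hvsb, List.map_cons, List.map_nil, List.prod_cons, List.prod_nil, hw, hS2 h23, hS2 h45]
    ring
  have hA : ∀ x, act a x = 𝔯 (w 0) *ᵥ (𝔯 (w 0 - w 1) *ᵥ (𝔯 (w 2 - w 3) *ᵥ (𝔯 (w 5) *ᵥ x))) := by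
    intro x
    show ((a : GL ι F) : Matrix ι ι F) *ᵥ x = _
    rw [ha, hvsa]
    simp only [List.map_cons, List.map_nil, List.prod_cons, List.prod_nil, Matrix.mul_one, ← mulVec_mulVec]
  have hB : ∀ x, act b x = 𝔯 (w 1) *ᵥ (𝔯 (w 2) *ᵥ (𝔯 (w 2 - w 3) *ᵥ (𝔯 (w 4 - w 5) *ᵥ x))) := by
    intro x
    show ((b : GL ι F) : Matrix ι ι F) *ᵥ x = _
    rw [hb, hvsb]
    simp only [List.map_cons, List.map_nil, List.prod_cons, List.prod_nil, Matrix.mul_one, ← mulVec_mulVec]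
  have Rs := fun i => frame_R_same (Q := Q) (w := w) hc hw i
  have Rd := fun {i j : Fin 6} (h : i ≠ j) => frame_R_diff (Q := Q) (w := w) hp h
  have Sl := fun {i j : Fin 6} (h : i ≠ j) => frame_S_left (Q := Q) (w := w) h2 hc hw hp h
  have Sr := fun {i j : Fin 6} (h : i ≠ j) => frame_S_right (Q := Q) (w := w) h2 hc hw hp h
  have So := fun {i j k : Fin 6} (h : i ≠ k) (h' : j ≠ k) => frame_S_other (Q := Q) (w := w) hp h h'
  refine ⟨a, haΩ, b, hbΩ, ⟨?_, ?_, ?_, ?_, ?_, ?_⟩, ⟨?_, ?_, ?_, ?_, ?_, ?_⟩, ?_⟩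
  · rw [hA, Rd (by decide : (5 : Fin 6) ≠ 0), So (by decide : (2 : Fin 6) ≠ 0) (by decide : (3 : Fin 6) ≠ 0), Sl h01,
      Rd (by decide : (0 : Fin 6) ≠ 1)]
  · rw [hA, Rd (by decide : (5 : Fin 6) ≠ 1), So (by decide : (2 : Fin 6) ≠ 1) (by decide : (3 : Fin 6) ≠ 1), Sr h01, Rs]
  · rw [hA, Rd (by decide : (5 : Fin 6) ≠ 2), Sl h23, So (by decide : (0 : Fin 6) ≠ 3) (by decide : (1 : Fin 6) ≠ 3),
      Rd (by decide : (0 : Fin 6) ≠ 3)]
  · rw [hA, Rd (by decide : (5 : Fin 6) ≠ 3), Sr h23, So (by decide : (0 : Fin 6) ≠ 2) (by decide : (1 : Fin 6) ≠ 2),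
      Rd (by decide : (0 : Fin 6) ≠ 2)]
  · rw [hA, Rd (by decide : (5 : Fin 6) ≠ 4), So (by decide : (2 : Fin 6) ≠ 4) (by decide : (3 : Fin 6) ≠ 4),
      So (by decide : (0 : Fin 6) ≠ 4) (by decide : (1 : Fin 6) ≠ 4), Rd (by decide : (0 : Fin 6) ≠ 4)]
  · rw [hA, Rs, mulVec_neg, So (by decide : (2 : Fin 6) ≠ 5) (by decide : (3 : Fin 6) ≠ 5), mulVec_neg,
      So (by decide : (0 : Fin 6) ≠ 5) (by decide : (1 : Fin 6) ≠ 5), mulVec_neg, Rd (by decide : (0 : Fin 6) ≠ 5)]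
  · rw [hB, So (by decide : (4 : Fin 6) ≠ 0) (by decide : (5 : Fin 6) ≠ 0), So (by decide : (2 : Fin 6) ≠ 0) (by decide : (3 : Fin 6) ≠ 0),
      Rd (by decide : (2 : Fin 6) ≠ 0), Rd (by decide : (1 : Fin 6) ≠ 0)]
  · rw [hB, So (by decide : (4 : Fin 6) ≠ 1) (by decide : (5 : Fin 6) ≠ 1), So (by decide : (2 : Fin 6) ≠ 1) (by decide : (3 : Fin 6) ≠ 1),
      Rd (by decide : (2 : Fin 6) ≠ 1), Rs]
  · rw [hB, So (by decide : (4 : Fin 6) ≠ 2) (by decide : (5 : Fin 6) ≠ 2), Sl h23, Rd (by decide : (2 : Fin 6) ≠ 3),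
      Rd (by decide : (1 : Fin 6) ≠ 3)]
  · rw [hB, So (by decide : (4 : Fin 6) ≠ 3) (by decide : (5 : Fin 6) ≠ 3), Sr h23, Rs, mulVec_neg, Rd (by decide : (1 : Fin 6) ≠ 2)]
  · rw [hB, Sl h45, So (by decide : (2 : Fin 6) ≠ 5) (by decide : (3 : Fin 6) ≠ 5), Rd (by decide : (2 : Fin 6) ≠ 5),
      Rd (by decide : (1 : Fin 6) ≠ 5)]
  · rw [hB, Sr h45, So (by decide : (2 : Fin 6) ≠ 4) (by decide : (3 : Fin 6) ≠ 4), Rd (by decide : (2 : Fin 6) ≠ 4),
      Rd (by decide : (1 : Fin 6) ≠ 4)]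
  · intro v hv
    have Rv : ∀ i, 𝔯 (w i) *ᵥ v = v := fun i => reflectionMatrix_mulVec_of_polar_eq_zero Q _ _ (hv i)
    have Sv : ∀ i j, 𝔯 (w i - w j) *ᵥ v = v := fun i j =>
      reflectionMatrix_mulVec_of_polar_eq_zero Q _ _ (by rw [polar_sub_left, hv, hv, sub_zero])
    refine ⟨?_, ?_⟩
    · rw [hA, Rv, Sv, Sv, Rv]
    · rw [hB, Sv, Sv, Rv, Rv]

/-- **The element `-1` is a commutator if there is a frame.** -/
theorem neg_of_frame (hnd : (polarBilin Q).Nondegenerate) (h2 : (2 : F) ≠ 0) (hc : c ≠ 0) (hw : ∀ i, Q (w i) = c)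
    (hp : ∀ i j, i ≠ j → polar (⇑Q) (w i) (w j) = 0) (g : ↥(Cfsg.isometryGroup F (⇑Q))) (hg : ∀ x, act g x = - x)
    (lA lB : ↥(Cfsg.isometryGroup F (⇑Q))) (hlA : lA ∈ Cfsg.Omega F (⇑Q)) (hlB : lB ∈ Cfsg.Omega F (⇑Q))
    (hfA : ∀ i, act lA (w i) = w i) (hfB : ∀ i, act lB (w i) = w i)
    (hanti : ∀ v, (∀ i, polar (⇑Q) (w i) v = 0) → act lA (act lB v) = - act lB (act lA v)) :
    ∃ x ∈ Cfsg.Omega F (⇑Q), ∃ y ∈ Cfsg.Omega F (⇑Q), g = x * y * x⁻¹ * y⁻¹ := by
  obtain ⟨a, haΩ, b, hbΩ, ⟨a0, a1, a2, a3, a4, a5⟩, ⟨b0, b1, b2, b3, b4, b5⟩, hfix⟩ := exists_frame_pair hnd h2 hc hw hp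
  refine ⟨a * lA, Subgroup.mul_mem _ haΩ hlA, b * lB, Subgroup.mul_mem _ hbΩ hlB, ?_⟩
  set x := a * lA with hx
  set y := b * lB with hy
  have hxa : ∀ v, act x v = act a (act lA v) := fun v => act_mul _ _ _
  have hya : ∀ v, act y v = act b (act lB v) := fun v => act_mul _ _ _
  -- the subspace where the relation holds
  let S : Submodule F (ι → F) :=
    { carrier := {v | act x (act y v) = - act y (act x v)}
      add_mem' := by
        intro u v hu hv
        show act x (act y (u + v)) = - act y (act x (u + v))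
        have hu' : act x (act y u) = - act y (act x u) := hu
        have hv' : act x (act y v) = - act y (act x v) := hv
        rw [act_add, act_add, act_add, act_add, hu', hv']
        abel
      zero_mem' := by
        show act x (act y 0) = - act y (act x 0)
        simp [act_zero]
      smul_mem' := by
        intro s v hv
        show act x (act y (s • v)) = - act y (act x (s • v))
        have hv' : act x (act y v) = - act y (act x v) := hv
        rw [act_smul, act_smul, act_smul, act_smul, hv', smul_neg] }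
  have hSmem : ∀ v, v ∈ S ↔ act x (act y v) = - act y (act x v) := fun v => Iff.rfl
  -- the frame
  have hfrA : ∀ (l : ↥(Cfsg.isometryGroup F (⇑Q))), (∀ i, act l (w i) = w i) → ∀ i, act l (- w i) = - w i := by
    intro l hl i
    rw [act_neg, hl]
  have hwS : ∀ i, w i ∈ S := by
    intro i
    rw [hSmem, hxa, hya, hya, hxa, hfB, hfA]
    have e1 := hfrA lA hfA
    have e2 := hfrA lB hfB
    fin_cases i
    · show act a (act lA (act b (w 0))) = - act b (act lB (act a (w 0)))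
      rw [b0, a0, hfA, hfB, a0, b1, neg_neg]
    · show act a (act lA (act b (w 1))) = - act b (act lB (act a (w 1)))
      rw [b1, a1, e1, e2, act_neg, a1, act_neg, b0, neg_neg]
    · show act a (act lA (act b (w 2))) = - act b (act lB (act a (w 2)))
      rw [b2, a2, hfA, hfB, a3, b3, neg_neg]
    · show act a (act lA (act b (w 3))) = - act b (act lB (act a (w 3)))
      rw [b3, a3, e1, hfB, act_neg, a2, b2]
    · show act a (act lA (act b (w 4))) = - act b (act lB (act a (w 4)))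
      rw [b4, a4, hfA, hfB, a5, b4]
    · show act a (act lA (act b (w 5))) = - act b (act lB (act a (w 5)))
      rw [b5, a5, hfA, e2, a4, act_neg, b5, neg_neg]
  -- the complement
  have hpres : ∀ (l : ↥(Cfsg.isometryGroup F (⇑Q))), (∀ i, act l (w i) = w i) → ∀ v, (∀ i, polar (⇑Q) (w i) v = 0) →
      ∀ i, polar (⇑Q) (w i) (act l v) = 0 := by
    intro l hl v hv i
    have h3 := polar_act l (w i) v
    rw [hl] at h3
    rw [h3, hv]
  have hrS : ∀ v, (∀ i, polar (⇑Q) (w i) v = 0) → v ∈ S := by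
    intro v hv
    rw [hSmem, hxa, hya, hya, hxa]
    have h1 := hpres lB hfB v hv
    have h3 := hpres lA hfA v hv
    have h4 := hpres lA hfA _ h1
    have h5 := hpres lB hfB _ h3
    rw [(hfix _ h1).2, (hfix _ h3).1, (hfix _ h4).1, (hfix _ h5).2]
    exact hanti v hv
  -- the decomposition
  have hall : ∀ v, v ∈ S := by
    intro v
    set κ : Fin 6 → F := fun i => (2 * c)⁻¹ * polar (⇑Q) (w i) v with hκ
    set r := v - ∑ i, κ i • w i with hr
    have hrperp : ∀ i, polar (⇑Q) (w i) r = 0 := by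
      intro i
      have hsum : polar (⇑Q) (w i) (∑ j, κ j • w j) = ∑ j, polar (⇑Q) (w i) (κ j • w j) :=
        map_sum (polarBilin Q (w i)) (fun j => κ j • w j) Finset.univ
      rw [hr, polar_sub_right, hsum]
      rw [Finset.sum_eq_single i]
      · rw [polar_smul_right', polar_self_eq, hw, hκ]
        have h20 : 2 * c ≠ 0 := mul_ne_zero h2 hc
        field_simp
        ring
      · intro j _ hji
        rw [polar_smul_right', hp i j hji.symm, mul_zero]
      · intro h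
        exact absurd (Finset.mem_univ i) h
    have hv : v = r + ∑ i, κ i • w i := by
      rw [hr]
      abel
    rw [hv]
    refine S.add_mem (hrS r hrperp) (S.sum_mem fun i _ => S.smul_mem _ (hwS i))
  have key : x * y = g * (y * x) := by
    apply ext_act
    intro v
    have e1 : act (x * y) v = act x (act y v) := act_mul _ _ _
    have e2 : act (g * (y * x)) v = act g (act y (act x v)) := by
      rw [act_mul, act_mul]
    rw [e1, e2, hg]
    exact hall v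
  rw [key]
  group

end Frame

end Cfsg.Agent.Lib.OreMinus
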