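import Mathlib
import Cfsg.Agent.Lib.OreMinus.Binary
import Cfsg.Agent.Lib.OreMinus.Neg1
import Cfsg.Agent.Lib.OrePlus.Neg

/-!
# Block lifts and an anticommuting pair
-/

set_option autoImplicit false
set_option linter.unusedSectionVars false
set_option linter.unusedSimpArgs false
set_option linter.unusedVariables false

namespace Cfsg.Agent.Lib.OreMinus

open Matrix QuadraticMap Module
open Cfsg.Agent.Lib.Classical.Orth.Basic
open Cfsg.Agent.Lib.Linalg.Lev (IsComm isComm_smul)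
open Cfsg.Agent.Lib.OrePlus (toG toG_mulVec toG_inv_mulVec toG_det)

variable {F : Type*} [Field F] {k : ℕ}

/-- The block lift. -/
def liftM (M : Matrix (Fin k) (Fin k) F) : Matrix (Fin (2 + k)) (Fin (2 + k)) F :=
  (fromBlocks (1 : Matrix (Fin 2) (Fin 2) F) 0 0 M).submatrix finSumFinEquiv.symm finSumFinEquiv.symm

theorem liftM_mul (M N : Matrix (Fin k) (Fin k) F) : liftM (M * N) = liftM M * liftM N := by
  unfold liftM
  rw [Matrix.submatrix_mul_equiv, fromBlocks_multiply]
  simp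

theorem liftM_one : liftM (1 : Matrix (Fin k) (Fin k) F) = 1 := by
  unfold liftM
  rw [fromBlocks_one, submatrix_one_equiv]

theorem liftM_transpose (M : Matrix (Fin k) (Fin k) F) : liftM Mᵀ = (liftM M)ᵀ := by
  unfold liftM
  rw [transpose_submatrix, fromBlocks_transpose]
  simp

theorem det_liftM (M : Matrix (Fin k) (Fin k) F) : (liftM M).det = M.det := by
  unfold liftM
  rw [det_submatrix_equiv_self, det_fromBlocks_zero₂₁]
  simp

theorem fin_ext_add {x y : Fin (2 + k) → F} (h1 : ∀ i : Fin 2, x (Fin.castAdd k i) = y (Fin.castAdd k i))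
    (h2 : ∀ j : Fin k, x (Fin.natAdd 2 j) = y (Fin.natAdd 2 j)) : x = y := by
  ext i
  induction i using Fin.addCases with
  | left i => exact h1 i
  | right j => exact h2 j

theorem liftM_mulVec (M : Matrix (Fin k) (Fin k) F) (x : Fin (2 + k) → F) :
    liftM M *ᵥ x = (Sum.elim (x ∘ Fin.castAdd k) (M *ᵥ (x ∘ Fin.natAdd 2))) ∘ finSumFinEquiv.symm := by
  unfold liftM
  rw [Matrix.submatrix_mulVec_equiv]
  congr 1
  have hx : x ∘ ⇑finSumFinEquiv.symm.symm = Sum.elim (x ∘ Fin.castAdd k) (x ∘ Fin.natAdd 2) := by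
    ext i
    rcases i with i | i <;> simp
  rw [hx, fromBlocks_mulVec]
  simp

theorem liftM_apply_left (M : Matrix (Fin k) (Fin k) F) (x : Fin (2 + k) → F) (i : Fin 2) :
    (liftM M *ᵥ x) (Fin.castAdd k i) = x (Fin.castAdd k i) := by
  rw [liftM_mulVec]
  simp

theorem liftM_apply_right (M : Matrix (Fin k) (Fin k) F) (x : Fin (2 + k) → F) (j : Fin k) :
    (liftM M *ᵥ x) (Fin.natAdd 2 j) = (M *ᵥ (x ∘ Fin.natAdd 2)) j := by
  rw [liftM_mulVec]
  simp

theorem liftM_fix (M : Matrix (Fin k) (Fin k) F) (x : Fin (2 + k) → F) (hx : ∀ j, x (Fin.natAdd 2 j) = 0) :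
    liftM M *ᵥ x = x := by
  apply fin_ext_add
  · exact liftM_apply_left M x
  · intro j
    rw [liftM_apply_right, hx]
    have : x ∘ Fin.natAdd 2 = 0 := funext hx
    rw [this, mulVec_zero]
    rfl

theorem liftM_anti {M N : Matrix (Fin k) (Fin k) F} (h : M * N = - (N * M)) (x : Fin (2 + k) → F)
    (hx : ∀ i, x (Fin.castAdd k i) = 0) :
    liftM M *ᵥ (liftM N *ᵥ x) = - (liftM N *ᵥ (liftM M *ᵥ x)) := by
  apply fin_ext_add
  · intro i
    rw [Pi.neg_apply, liftM_apply_left, liftM_apply_left, liftM_apply_left, liftM_apply_left, hx]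
    simp
  · intro j
    rw [Pi.neg_apply, liftM_apply_right, liftM_apply_right]
    have e1 : (liftM N *ᵥ x) ∘ Fin.natAdd 2 = N *ᵥ (x ∘ Fin.natAdd 2) := funext (liftM_apply_right N x)
    have e2 : (liftM M *ᵥ x) ∘ Fin.natAdd 2 = M *ᵥ (x ∘ Fin.natAdd 2) := funext (liftM_apply_right M x)
    rw [e1, e2, mulVec_mulVec, mulVec_mulVec, h, neg_mulVec]
    rfl

/-- The lift of an invertible matrix. -/
def liftG (A : GL (Fin k) F) : GL (Fin (2 + k)) F where
  val := liftM A
  inv := liftM ((A⁻¹ : GL (Fin k) F) : Matrix (Fin k) (Fin k) F)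
  val_inv := by rw [← liftM_mul, Units.mul_inv, liftM_one]
  inv_val := by rw [← liftM_mul, Units.inv_mul, liftM_one]

theorem liftG_coe (A : GL (Fin k) F) : ((liftG A : GL (Fin (2 + k)) F) : Matrix (Fin (2 + k)) (Fin (2 + k)) F) = liftM A := rfl

theorem liftG_inv_coe (A : GL (Fin k) F) :
    (((liftG A)⁻¹ : GL (Fin (2 + k)) F) : Matrix (Fin (2 + k)) (Fin (2 + k)) F) =
      liftM ((A⁻¹ : GL (Fin k) F) : Matrix (Fin k) (Fin k) F) := rfl

/-- An anticommuting pair of determinant one. -/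
theorem exists_anti_pair [Fintype F] (hk : 0 < k) (he : Even k) :
    ∃ A B : GL (Fin k) F, (A : Matrix (Fin k) (Fin k) F).det = 1 ∧ (B : Matrix (Fin k) (Fin k) F).det = 1 ∧
      (A : Matrix (Fin k) (Fin k) F) * (B : Matrix (Fin k) (Fin k) F) = - ((B : Matrix (Fin k) (Fin k) F) * (A : Matrix (Fin k) (Fin k) F)) ∧
      ((A⁻¹ : GL (Fin k) F) : Matrix (Fin k) (Fin k) F)ᵀ * ((B⁻¹ : GL (Fin k) F) : Matrix (Fin k) (Fin k) F)ᵀ =
        - (((B⁻¹ : GL (Fin k) F) : Matrix (Fin k) (Fin k) F)ᵀ * ((A⁻¹ : GL (Fin k) F) : Matrix (Fin k) (Fin k) F)ᵀ) := by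
  have hfr : finrank F (Fin k → F) = k := by simp
  have hc : IsComm ((-1 : F) • LinearMap.id : (Fin k → F) →ₗ[F] (Fin k → F)) :=
    isComm_smul (-1) (by rw [hfr]; omega) (by rw [hfr]; exact he.neg_one_pow)
  obtain ⟨a', b', ha', hb', hab⟩ := hc
  refine ⟨toG a', toG b', by rw [toG_det, ha'], by rw [toG_det, hb'], ?_⟩
  set A := toG a' with hA
  set B := toG b' with hB
  set T : GL (Fin k) F := A * B * A⁻¹ * B⁻¹ with hT
  have hTx : ∀ x, (T : Matrix (Fin k) (Fin k) F) *ᵥ x = - x := by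
    intro x
    have h1 := hab x
    simp only [LinearMap.smul_apply, LinearMap.id_apply, neg_smul, one_smul] at h1
    rw [h1, hT]
    simp only [Units.val_mul]
    rw [← mulVec_mulVec, ← mulVec_mulVec, ← mulVec_mulVec, hA, hB, toG_inv_mulVec, toG_inv_mulVec, toG_mulVec, toG_mulVec]
  have hTm : (T : Matrix (Fin k) (Fin k) F) = -1 := by
    apply Matrix.ext_of_mulVec_single
    intro j
    rw [hTx, neg_mulVec, one_mulVec]
  have e1 : A * B = T * (B * A) := by
    rw [hT]
    group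
  have hm1 : (A : Matrix (Fin k) (Fin k) F) * (B : Matrix (Fin k) (Fin k) F) = - ((B : Matrix (Fin k) (Fin k) F) * (A : Matrix (Fin k) (Fin k) F)) := by
    have := congrArg (fun U : GL (Fin k) F => (U : Matrix (Fin k) (Fin k) F)) e1
    simp only [Units.val_mul, hTm, neg_mul, one_mul] at this
    exact this
  refine ⟨hm1, ?_⟩
  -- the inverses
  set Ai := ((A⁻¹ : GL (Fin k) F) : Matrix (Fin k) (Fin k) F) with hAi
  set Bi := ((B⁻¹ : GL (Fin k) F) : Matrix (Fin k) (Fin k) F) with hBi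
  have h3 : Bi * Ai = - (Ai * Bi) := by
    have e3 : (B⁻¹ * A⁻¹ : GL (Fin k) F) * (A * B) = 1 := by group
    have e4 := congrArg (fun U : GL (Fin k) F => (U : Matrix (Fin k) (Fin k) F)) e3
    simp only [Units.val_mul, Units.val_one] at e4
    rw [← hAi, ← hBi, hm1] at e4
    have e5 : Ai * (A : Matrix (Fin k) (Fin k) F) = 1 := Units.inv_mul A
    have e6 : Bi * (B : Matrix (Fin k) (Fin k) F) = 1 := Units.inv_mul B
    have e7 : (A : Matrix (Fin k) (Fin k) F) * Ai = 1 := Units.mul_inv A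
    have e8 : (B : Matrix (Fin k) (Fin k) F) * Bi = 1 := Units.mul_inv B
    calc Bi * Ai = Bi * Ai * ((B : Matrix (Fin k) (Fin k) F) * (A : Matrix (Fin k) (Fin k) F) * (Ai * Bi)) := by
            have : (B : Matrix (Fin k) (Fin k) F) * (A : Matrix (Fin k) (Fin k) F) * (Ai * Bi) = 1 := by
              calc (B : Matrix (Fin k) (Fin k) F) * (A : Matrix (Fin k) (Fin k) F) * (Ai * Bi)
                  = (B : Matrix (Fin k) (Fin k) F) * ((A : Matrix (Fin k) (Fin k) F) * Ai) * Bi := by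
                    simp only [Matrix.mul_assoc]
                _ = 1 := by rw [e7, Matrix.mul_one, e8]
            rw [this, Matrix.mul_one]
      _ = (Bi * Ai * ((B : Matrix (Fin k) (Fin k) F) * (A : Matrix (Fin k) (Fin k) F))) * (Ai * Bi) := by
            simp only [Matrix.mul_assoc]
      _ = (- (Bi * Ai * (- ((B : Matrix (Fin k) (Fin k) F) * (A : Matrix (Fin k) (Fin k) F))))) * (Ai * Bi) := by
            simp
      _ = (-1) * (Ai * Bi) := by rw [e4]
      _ = - (Ai * Bi) := by simp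
  rw [← transpose_mul, ← transpose_mul, h3, transpose_neg]

end Cfsg.Agent.Lib.OreMinus
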