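import Mathlib
import Cfsg.Agent.Lib.OreMinus.Neg2

/-!
# The element `-1` in the minus type
-/

set_option autoImplicit false
set_option linter.unusedSectionVars false
set_option linter.unusedSimpArgs false
set_option linter.unusedVariables false

namespace Cfsg.Agent.Lib.OreMinus

open Matrix QuadraticMap Module
open Cfsg.Agent.Lib.Classical.Orth.Basic

variable {F : Type*} [Field F] [Fintype F] {Q₀ : QuadraticForm F (W2 F)} {k : ℕ}

/-- An orthogonal basis of the plane with equal values. -/
theorem exists_plane_frame (hQ : Aniso Q₀) (h2 : (2 : F) ≠ 0) (hsq : ¬ IsSquare (-1 : F)) :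
    ∃ (p₁ p₂ : W2 F) (c : F), c ≠ 0 ∧ Q₀ p₁ = c ∧ Q₀ p₂ = c ∧ polar (⇑Q₀) p₁ p₂ = 0 ∧
      ∀ t, polar (⇑Q₀) p₁ t = 0 → polar (⇑Q₀) p₂ t = 0 → t = 0 := by
  classical
  set e₀ : W2 F := Pi.single 0 1 with he₀
  set e₁ : W2 F := Pi.single 1 1 with he₁
  have hne : e₀ ≠ 0 := by
    intro h
    have := congrFun h 0
    simp [he₀] at this
  set c := Q₀ e₀ with hc
  have hc0 : c ≠ 0 := fun h => hne (hQ.ani _ h)
  set f₀ := polar (⇑Q₀) e₀ e₀ with hf₀
  set f₁ := polar (⇑Q₀) e₀ e₁ with hf₁
  have hf₀2 : f₀ = 2 * c := polar_self_eq Q₀ e₀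
  have hf₀0 : f₀ ≠ 0 := by
    rw [hf₀2]
    exact mul_ne_zero h2 hc0
  set p : W2 F := f₁ • e₀ - f₀ • e₁ with hp
  have hφp : polar (⇑Q₀) e₀ p = 0 := by
    rw [hp, polar_sub_right, polar_smul_right', polar_smul_right', ← hf₀, ← hf₁]
    ring
  have hpne : p ≠ 0 := by
    intro h
    have := congrFun h 1
    simp [hp, he₀, he₁] at this
    exact hf₀0 this
  set d := Q₀ p with hd
  have hd0 : d ≠ 0 := fun h => hpne (hQ.ani _ h)
  -- the ratio is a square
  have hrat : IsSquare (d / c) := by
    by_contra hns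
    have h3 : quadraticChar F (-1) = -1 := quadraticChar_neg_one_iff_not_isSquare.2 hsq
    have h4 : quadraticChar F (d / c) = -1 := quadraticChar_neg_one_iff_not_isSquare.2 hns
    have h5 : quadraticChar F ((-1) * (d / c)) = 1 := by
      rw [map_mul, h3, h4]
      norm_num
    have h6 : ((-1) * (d / c) : F) ≠ 0 := mul_ne_zero (neg_ne_zero.2 one_ne_zero) (div_ne_zero hd0 hc0)
    obtain ⟨s, hs⟩ := (quadraticChar_one_iff_isSquare h6).1 h5
    have h7 : Q₀ (s • e₀ + p) = 0 := by
      rw [Q_add, Q_smul, polar_smul_left', hφp, ← hc, ← hd]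
      have h8 : s * s * c = -d := by
        rw [← hs]
        field_simp
      rw [h8]
      ring
    have h8 := hQ.ani _ h7
    have h9 : polar (⇑Q₀) e₀ (s • e₀ + p) = 0 := by rw [h8]; simp
    rw [polar_add_right, polar_smul_right', hφp, ← hf₀] at h9
    have h10 : s = 0 := by
      have : s * f₀ = 0 := by linear_combination h9
      rcases mul_eq_zero.1 this with h | h
      · exact h
      · exact absurd h hf₀0
    rw [h10, zero_smul, zero_add] at h8
    exact hpne h8
  obtain ⟨s, hs⟩ := hrat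
  have hs0 : s ≠ 0 := by
    intro h
    rw [h, mul_zero] at hs
    exact div_ne_zero hd0 hc0 hs
  refine ⟨e₀, s⁻¹ • p, c, hc0, rfl, ?_, ?_, ?_⟩
  · rw [Q_smul, ← hd]
    have : d = s * s * c := by
      rw [← hs]
      field_simp
    rw [this]
    field_simp
  · rw [polar_smul_right', hφp, mul_zero]
  · intro t h1 h3
    -- expand `t`
    have ht : t = t 0 • e₀ + t 1 • e₁ := by
      ext i
      fin_cases i <;> simp [he₀, he₁]
    have h4 : t 0 * f₀ + t 1 * f₁ = 0 := by
      rw [ht, polar_add_right, polar_smul_right', polar_smul_right', ← hf₀, ← hf₁] at h1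
      simpa [he₀, he₁] using h1
    set κ := - (t 1) * f₀⁻¹ with hκ
    have ht2 : t = κ • p := by
      ext i
      fin_cases i
      · simp [hp, he₀, he₁, hκ]
        field_simp
        linear_combination h4
      · simp [hp, he₀, he₁, hκ]
        field_simp
    have h5 : κ = 0 := by
      rw [ht2, polar_smul_left', polar_smul_right', polar_self_eq, ← hd] at h3
      have h6 : s⁻¹ * (κ * (2 * d)) = 0 := h3
      have h7 : s⁻¹ ≠ 0 := inv_ne_zero hs0
      have h8 : (2 * d) ≠ 0 := mul_ne_zero h2 hd0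
      rcases mul_eq_zero.1 h6 with h | h
      · exact absurd h h7
      · rcases mul_eq_zero.1 h with h | h
        · exact h
        · exact absurd h h8
    rw [ht2, h5, zero_smul]

end Cfsg.Agent.Lib.OreMinus
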