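import Mathlib
import Cfsg.Agent.Lib.OreMinus.Neg3

/-!
# The element `-1` in the minus type: the frame in the model
-/

set_option autoImplicit false
set_option linter.unusedSectionVars false
set_option linter.unusedSimpArgs false
set_option linter.unusedVariables false

namespace Cfsg.Agent.Lib.OreMinus

open Matrix QuadraticMap Module
open Cfsg.Agent.Lib.Classical.Orth.Basic

variable {F : Type*} [Field F] {Q₀ : QuadraticForm F (W2 F)} {k : ℕ}

variable (F k) in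
/-- The first coordinate vector. -/
noncomputable def eP : Fin (2 + k) → F := Pi.single (Fin.castAdd k 0) 1

variable (F k) in
/-- The second coordinate vector. -/
noncomputable def eR : Fin (2 + k) → F := Pi.single (Fin.castAdd k 1) 1

theorem j0_ne_j1 : (Fin.castAdd k (0 : Fin 2)) ≠ Fin.castAdd k 1 := by
  intro h
  have := congrArg Fin.val h
  simp at this

theorem dot_P (x : Fin (2 + k) → F) : x ⬝ᵥ eP F k = x (Fin.castAdd k 0) := by simp [eP]
theorem dot_R (x : Fin (2 + k) → F) : x ⬝ᵥ eR F k = x (Fin.castAdd k 1) := by simp [eR]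
theorem P_dot (x : Fin (2 + k) → F) : eP F k ⬝ᵥ x = x (Fin.castAdd k 0) := by simp [eP]
theorem R_dot (x : Fin (2 + k) → F) : eR F k ⬝ᵥ x = x (Fin.castAdd k 1) := by simp [eR]

theorem P_j0 : eP F k (Fin.castAdd k 0) = 1 := by simp [eP]
theorem P_j1 : eP F k (Fin.castAdd k 1) = 0 := by simp [eP, Pi.single_apply, j0_ne_j1.symm]
theorem R_j0 : eR F k (Fin.castAdd k 0) = 0 := by simp [eR, Pi.single_apply, j0_ne_j1]
theorem R_j1 : eR F k (Fin.castAdd k 1) = 1 := by simp [eR]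

theorem nat_ne_cast (i : Fin 2) (j : Fin k) : Fin.natAdd 2 j ≠ Fin.castAdd k i := by
  intro h
  have := congrArg Fin.val h
  simp at this
  omega

theorem P_nat (j : Fin k) : eP F k (Fin.natAdd 2 j) = 0 := by simp [eP, Pi.single_apply, nat_ne_cast]
theorem R_nat (j : Fin k) : eR F k (Fin.natAdd 2 j) = 0 := by simp [eR, Pi.single_apply, nat_ne_cast]

/-- A frame vector in the hyperbolic part. -/
noncomputable def wv (α β s : F) : VM (2 + k) F :=
  mkM (α • eP F k + β • eR F k) 0 (s • (α • eP F k + β • eR F k))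

theorem polar_wv_mk (α β s : F) (x : Fin (2 + k) → F) (z : W2 F) (y : Fin (2 + k) → F) :
    polar (⇑(QM Q₀ (2 + k))) (wv α β s) (mkM x z y) =
      α * y (Fin.castAdd k 0) + β * y (Fin.castAdd k 1) + s * (α * x (Fin.castAdd k 0) + β * x (Fin.castAdd k 1)) := by
  unfold wv
  rw [polarM_mkM]
  simp only [add_dotProduct, smul_dotProduct, dotProduct_add, dotProduct_smul, P_dot, R_dot, dot_P, dot_R, polar_zero_left, smul_eq_mul]
  ring

theorem polar_wv_wv (α β s α' β' s' : F) :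
    polar (⇑(QM Q₀ (2 + k))) (wv α β s) (wv α' β' s') = (α * α' + β * β') * (s + s') := by
  conv_lhs => rw [show (wv α' β' s' : VM (2 + k) F) = mkM _ _ _ from rfl]
  rw [polar_wv_mk]
  simp only [Pi.add_apply, Pi.smul_apply, smul_eq_mul, P_j0, P_j1, R_j0, R_j1]
  ring

theorem Q_wv (α β s : F) : QM Q₀ (2 + k) (wv α β s) = (α * α + β * β) * s := by
  unfold wv
  rw [QM_mkM, map_zero]
  simp only [add_dotProduct, smul_dotProduct, dotProduct_add, dotProduct_smul, P_dot, R_dot, smul_eq_mul, P_j0, P_j1, R_j0, R_j1,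
    Pi.add_apply, Pi.smul_apply]
  ring

theorem polar_z_mk (p : W2 F) (x : Fin (2 + k) → F) (z : W2 F) (y : Fin (2 + k) → F) :
    polar (⇑(QM Q₀ (2 + k))) (mkM 0 p 0) (mkM x z y) = polar (⇑Q₀) p z := by
  rw [polarM_mkM]
  simp

theorem polar_z_wv (p : W2 F) (α β s : F) :
    polar (⇑(QM Q₀ (2 + k))) (mkM 0 p 0) (wv α β s) = 0 := by
  unfold wv
  rw [polar_z_mk]
  simp

theorem polar_wv_z (p : W2 F) (α β s : F) :
    polar (⇑(QM Q₀ (2 + k))) (wv α β s) (mkM 0 p 0) = 0 := by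
  rw [polar_comm, polar_z_wv]

/-- The frame. -/
noncomputable def frameW (p₁ p₂ : W2 F) (c u v : F) : Fin 6 → VM (2 + k) F :=
  ![mkM 0 p₁ 0, mkM 0 p₂ 0, wv 1 0 c, wv 0 1 c, wv u v (-c), wv (-v) u (-c)]

theorem frame_Q {p₁ p₂ : W2 F} {c u v : F} (h1 : Q₀ p₁ = c) (h3 : Q₀ p₂ = c) (huv : u * u + v * v = -1) (i : Fin 6) :
    QM Q₀ (2 + k) (frameW p₁ p₂ c u v i) = c := by
  fin_cases i
  · show QM Q₀ (2 + k) (mkM 0 p₁ 0) = c
    rw [QM_mkM, h1]
    simp
  · show QM Q₀ (2 + k) (mkM 0 p₂ 0) = c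
    rw [QM_mkM, h3]
    simp
  · show QM Q₀ (2 + k) (wv 1 0 c) = c
    rw [Q_wv]
    ring
  · show QM Q₀ (2 + k) (wv 0 1 c) = c
    rw [Q_wv]
    ring
  · show QM Q₀ (2 + k) (wv u v (-c)) = c
    rw [Q_wv, huv]
    ring
  · show QM Q₀ (2 + k) (wv (-v) u (-c)) = c
    rw [Q_wv]
    linear_combination (-c) * huv

theorem frame_polar {p₁ p₂ : W2 F} {c u v : F} (h1 : polar (⇑Q₀) p₁ p₂ = 0) (i j : Fin 6) (hij : i ≠ j) :
    polar (⇑(QM Q₀ (2 + k))) (frameW p₁ p₂ c u v i) (frameW p₁ p₂ c u v j) = 0 := by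
  have h01 : polar (⇑(QM Q₀ (2 + k))) (frameW p₁ p₂ c u v 0) (frameW p₁ p₂ c u v 1) = 0 := by
    show polar (⇑(QM Q₀ (2 + k))) (mkM 0 p₁ 0) (mkM 0 p₂ 0) = 0
    rw [polar_z_mk, h1]
  have h02 : polar (⇑(QM Q₀ (2 + k))) (frameW p₁ p₂ c u v 0) (frameW p₁ p₂ c u v 2) = 0 := by
    show polar (⇑(QM Q₀ (2 + k))) (mkM 0 p₁ 0) (wv 1 0 c) = 0
    exact polar_z_wv _ _ _ _
  have h03 : polar (⇑(QM Q₀ (2 + k))) (frameW p₁ p₂ c u v 0) (frameW p₁ p₂ c u v 3) = 0 := by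
    show polar (⇑(QM Q₀ (2 + k))) (mkM 0 p₁ 0) (wv 0 1 c) = 0
    exact polar_z_wv _ _ _ _
  have h04 : polar (⇑(QM Q₀ (2 + k))) (frameW p₁ p₂ c u v 0) (frameW p₁ p₂ c u v 4) = 0 := by
    show polar (⇑(QM Q₀ (2 + k))) (mkM 0 p₁ 0) (wv u v (-c)) = 0
    exact polar_z_wv _ _ _ _
  have h05 : polar (⇑(QM Q₀ (2 + k))) (frameW p₁ p₂ c u v 0) (frameW p₁ p₂ c u v 5) = 0 := by
    show polar (⇑(QM Q₀ (2 + k))) (mkM 0 p₁ 0) (wv (-v) u (-c)) = 0
    exact polar_z_wv _ _ _ _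
  have h12 : polar (⇑(QM Q₀ (2 + k))) (frameW p₁ p₂ c u v 1) (frameW p₁ p₂ c u v 2) = 0 := by
    show polar (⇑(QM Q₀ (2 + k))) (mkM 0 p₂ 0) (wv 1 0 c) = 0
    exact polar_z_wv _ _ _ _
  have h13 : polar (⇑(QM Q₀ (2 + k))) (frameW p₁ p₂ c u v 1) (frameW p₁ p₂ c u v 3) = 0 := by
    show polar (⇑(QM Q₀ (2 + k))) (mkM 0 p₂ 0) (wv 0 1 c) = 0
    exact polar_z_wv _ _ _ _
  have h14 : polar (⇑(QM Q₀ (2 + k))) (frameW p₁ p₂ c u v 1) (frameW p₁ p₂ c u v 4) = 0 := by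
    show polar (⇑(QM Q₀ (2 + k))) (mkM 0 p₂ 0) (wv u v (-c)) = 0
    exact polar_z_wv _ _ _ _
  have h15 : polar (⇑(QM Q₀ (2 + k))) (frameW p₁ p₂ c u v 1) (frameW p₁ p₂ c u v 5) = 0 := by
    show polar (⇑(QM Q₀ (2 + k))) (mkM 0 p₂ 0) (wv (-v) u (-c)) = 0
    exact polar_z_wv _ _ _ _
  have h23 : polar (⇑(QM Q₀ (2 + k))) (frameW p₁ p₂ c u v 2) (frameW p₁ p₂ c u v 3) = 0 := by
    show polar (⇑(QM Q₀ (2 + k))) (wv 1 0 c) (wv 0 1 c) = 0
    rw [polar_wv_wv]; ring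
  have h24 : polar (⇑(QM Q₀ (2 + k))) (frameW p₁ p₂ c u v 2) (frameW p₁ p₂ c u v 4) = 0 := by
    show polar (⇑(QM Q₀ (2 + k))) (wv 1 0 c) (wv u v (-c)) = 0
    rw [polar_wv_wv]; ring
  have h25 : polar (⇑(QM Q₀ (2 + k))) (frameW p₁ p₂ c u v 2) (frameW p₁ p₂ c u v 5) = 0 := by
    show polar (⇑(QM Q₀ (2 + k))) (wv 1 0 c) (wv (-v) u (-c)) = 0
    rw [polar_wv_wv]; ring
  have h34 : polar (⇑(QM Q₀ (2 + k))) (frameW p₁ p₂ c u v 3) (frameW p₁ p₂ c u v 4) = 0 := by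
    show polar (⇑(QM Q₀ (2 + k))) (wv 0 1 c) (wv u v (-c)) = 0
    rw [polar_wv_wv]; ring
  have h35 : polar (⇑(QM Q₀ (2 + k))) (frameW p₁ p₂ c u v 3) (frameW p₁ p₂ c u v 5) = 0 := by
    show polar (⇑(QM Q₀ (2 + k))) (wv 0 1 c) (wv (-v) u (-c)) = 0
    rw [polar_wv_wv]; ring
  have h45 : polar (⇑(QM Q₀ (2 + k))) (frameW p₁ p₂ c u v 4) (frameW p₁ p₂ c u v 5) = 0 := by
    show polar (⇑(QM Q₀ (2 + k))) (wv u v (-c)) (wv (-v) u (-c)) = 0
    rw [polar_wv_wv]; ring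
  fin_cases i <;> fin_cases j
  · exact absurd rfl hij
  · exact h01
  · exact h02
  · exact h03
  · exact h04
  · exact h05
  · exact (polar_comm _ _ _).trans h01
  · exact absurd rfl hij
  · exact h12
  · exact h13
  · exact h14
  · exact h15
  · exact (polar_comm _ _ _).trans h02
  · exact (polar_comm _ _ _).trans h12
  · exact absurd rfl hij
  · exact h23
  · exact h24
  · exact h25
  · exact (polar_comm _ _ _).trans h03
  · exact (polar_comm _ _ _).trans h13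
  · exact (polar_comm _ _ _).trans h23
  · exact absurd rfl hij
  · exact h34
  · exact h35
  · exact (polar_comm _ _ _).trans h04
  · exact (polar_comm _ _ _).trans h14
  · exact (polar_comm _ _ _).trans h24
  · exact (polar_comm _ _ _).trans h34
  · exact absurd rfl hij
  · exact h45
  · exact (polar_comm _ _ _).trans h05
  · exact (polar_comm _ _ _).trans h15
  · exact (polar_comm _ _ _).trans h25
  · exact (polar_comm _ _ _).trans h35
  · exact (polar_comm _ _ _).trans h45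
  · exact absurd rfl hij

/-- The complement of the frame. -/
theorem frame_perp {p₁ p₂ : W2 F} {c u v : F} (hc : c ≠ 0) (h2 : (2 : F) ≠ 0) (huv : u * u + v * v = -1)
    (hsep : ∀ t, polar (⇑Q₀) p₁ t = 0 → polar (⇑Q₀) p₂ t = 0 → t = 0) (w : VM (2 + k) F)
    (hw : ∀ i, polar (⇑(QM Q₀ (2 + k))) (frameW p₁ p₂ c u v i) w = 0) :
    zc w = 0 ∧ (∀ i, xc w (Fin.castAdd k i) = 0) ∧ (∀ i, yc w (Fin.castAdd k i) = 0) := by
  rw [← mkM_eta w] at hw
  have h0 := hw 0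
  have h1 := hw 1
  have h3 := hw 2
  have h4 := hw 3
  have h5 := hw 4
  have h6 := hw 5
  change polar (⇑(QM Q₀ (2 + k))) (mkM 0 p₁ 0) _ = 0 at h0
  change polar (⇑(QM Q₀ (2 + k))) (mkM 0 p₂ 0) _ = 0 at h1
  change polar (⇑(QM Q₀ (2 + k))) (wv 1 0 c) _ = 0 at h3
  change polar (⇑(QM Q₀ (2 + k))) (wv 0 1 c) _ = 0 at h4
  change polar (⇑(QM Q₀ (2 + k))) (wv u v (-c)) _ = 0 at h5
  change polar (⇑(QM Q₀ (2 + k))) (wv (-v) u (-c)) _ = 0 at h6
  rw [polar_z_mk] at h0 h1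
  rw [polar_wv_mk] at h3 h4 h5 h6
  set x₀ := xc w (Fin.castAdd k 0) with hx₀
  set x₁ := xc w (Fin.castAdd k 1) with hx₁
  set y₀ := yc w (Fin.castAdd k 0) with hy₀
  set y₁ := yc w (Fin.castAdd k 1) with hy₁
  have e0 : y₀ - c * x₀ = 0 := by
    have : (u * u + v * v) * (y₀ - c * x₀) = 0 := by linear_combination u * h5 - v * h6
    rw [huv] at this
    linear_combination (-1 : F) * this
  have e1 : y₁ - c * x₁ = 0 := by
    have : (u * u + v * v) * (y₁ - c * x₁) = 0 := by linear_combination v * h5 + u * h6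
    rw [huv] at this
    linear_combination (-1 : F) * this
  have e2 : y₀ + c * x₀ = 0 := by linear_combination h3
  have e3 : y₁ + c * x₁ = 0 := by linear_combination h4
  have h2c : 2 * c ≠ 0 := mul_ne_zero h2 hc
  have f0 : x₀ = 0 := by
    have : (2 * c) * x₀ = 0 := by linear_combination e2 - e0
    exact (mul_eq_zero.1 this).resolve_left h2c
  have f1 : x₁ = 0 := by
    have : (2 * c) * x₁ = 0 := by linear_combination e3 - e1
    exact (mul_eq_zero.1 this).resolve_left h2c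
  have f2 : y₀ = 0 := by
    rw [f0] at e0
    simpa using e0
  have f3 : y₁ = 0 := by
    rw [f1] at e1
    simpa using e1
  refine ⟨hsep _ h0 h1, ?_, ?_⟩
  · intro i
    fin_cases i
    · exact f0
    · exact f1
  · intro i
    fin_cases i
    · exact f2
    · exact f3

section Lev

variable [Fintype F]

theorem lev_lift_act (A : GL (Fin k) F) (x : Fin (2 + k) → F) (z : W2 F) (y : Fin (2 + k) → F) :
    act (lev Q₀ (2 + k) (liftG A, 1)) (mkM x z y) =
      mkM (liftM A *ᵥ x) z (liftM ((A⁻¹ : GL (Fin k) F) : Matrix (Fin k) (Fin k) F)ᵀ *ᵥ y) := by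
  rw [act_lev]
  simp only [xc_mkM, zc_mkM, yc_mkM, liftG_coe, liftG_inv_coe, liftM_transpose]
  congr 1
  exact act_one z

theorem frame_fix {p₁ p₂ : W2 F} {c u v : F} (A : GL (Fin k) F) (i : Fin 6) :
    act (lev Q₀ (2 + k) (liftG A, 1)) (frameW p₁ p₂ c u v i) = frameW p₁ p₂ c u v i := by
  have key : ∀ α β s : F, act (lev Q₀ (2 + k) (liftG A, 1)) (wv α β s) = wv α β s := by
    intro α β s
    unfold wv
    rw [lev_lift_act, liftM_fix, liftM_fix]
    · intro j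
      simp [P_nat, R_nat]
    · intro j
      simp [P_nat, R_nat]
  have key2 : ∀ p : W2 F, act (lev Q₀ (2 + k) (liftG A, 1)) (mkM 0 p 0) = mkM 0 p 0 := by
    intro p
    rw [lev_lift_act, mulVec_zero, mulVec_zero]
  fin_cases i
  · exact key2 _
  · exact key2 _
  · exact key _ _ _
  · exact key _ _ _
  · exact key _ _ _
  · exact key _ _ _

/-- **The element `-1`.** -/
theorem ore_neg_lift (hk : 0 < k) (he : Even k) (hQ : Aniso Q₀) (h2 : (2 : F) ≠ 0) (hsq : ¬ IsSquare (-1 : F))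
    (hk3 : 3 ≤ 2 + k) (g : OM Q₀ (2 + k)) (hg : ∀ x, act g x = - x) :
    ∃ a ∈ OmM Q₀ (2 + k), ∃ b ∈ OmM Q₀ (2 + k), g = a * b * a⁻¹ * b⁻¹ := by
  classical
  obtain ⟨p₁, p₂, c, hc, hp1, hp2, hp12, hsep⟩ := exists_plane_frame hQ h2 hsq
  -- `u`, `v`
  have hcard : Fintype.card F % 2 = 1 := by
    have hne : ringChar F ≠ 2 := by
      intro h
      apply h2
      have := ringChar.Nat.cast_ringChar (R := F)
      rw [h] at this
      exact_mod_cast this
    exact FiniteField.odd_card_of_char_ne_two hne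
  obtain ⟨u, v, huv⟩ : ∃ u v : F, u * u + v * v = -1 := by
    have h1 := FiniteField.exists_root_sum_quadratic (R := F) (f := Polynomial.X ^ 2) (g := Polynomial.X ^ 2 + Polynomial.C 1)
      (by simp) (by rw [Polynomial.degree_add_eq_left_of_degree_lt] <;> simp) hcard
    obtain ⟨u, v, h3⟩ := h1
    refine ⟨u, v, ?_⟩
    simp at h3
    linear_combination h3
  obtain ⟨A, B, hA, hB, hAB, hAB'⟩ := exists_anti_pair (F := F) hk he
  have hmem : ∀ D : GL (Fin k) F, (D : Matrix (Fin k) (Fin k) F).det = 1 → lev Q₀ (2 + k) (liftG D, 1) ∈ OmM Q₀ (2 + k) := by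
    intro D hD
    refine (lev_one_mem_iff hk3 hQ _).2 ?_
    rw [liftG_coe, det_liftM, hD]
    exact IsSquare.one
  refine neg_of_frame (QM_nondegenerate hQ) h2 hc (w := frameW p₁ p₂ c u v) (frame_Q hp1 hp2 huv)
    (frame_polar hp12) g hg _ _ (hmem A hA) (hmem B hB) (frame_fix A) (frame_fix B) ?_
  intro w hw
  obtain ⟨h0, h1, h3⟩ := frame_perp hc h2 huv hsep w hw
  rw [← mkM_eta w, h0]
  rw [lev_lift_act B, lev_lift_act A, lev_lift_act A, lev_lift_act B]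
  have e1 := liftM_anti hAB (xc w) h1
  have e2 := liftM_anti hAB' (yc w) h3
  rw [e1, e2]
  apply vext <;> simp

end Lev

end Cfsg.Agent.Lib.OreMinus
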