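import Mathlib
import Cfsg.Agent.Lib.OreMinus.Binary
import Cfsg.Agent.Lib.OreMinus.Tab3

/-!
# The field with two elements
-/

set_option autoImplicit false
set_option linter.unusedSectionVars false
set_option linter.unusedSimpArgs false
set_option linter.unusedVariables false

namespace Cfsg.Agent.Lib.OreMinus

open Matrix QuadraticMap Module
open Cfsg.Agent.Lib.Classical.Orth.Basic
open Cfsg.Agent.Lib.Classical.Orth.Models
open Cfsg.Agent.Lib.Classical.Orth.Sum
open Cfsg.Agent.Lib.OreOmega (IsAltM mem_commutator_of_fpf)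

variable {F : Type*} [Field F] [Fintype F]

theorem elt_two (hq : Fintype.card F = 2) (x : F) : x = 0 ∨ x = 1 := by
  have h : x ^ 2 = x := by
    have := FiniteField.pow_card x
    rwa [hq] at this
  have h2 : x * (x - 1) = 0 := by linear_combination h
  rcases mul_eq_zero.1 h2 with h3 | h3
  · exact Or.inl h3
  · exact Or.inr (sub_eq_zero.1 h3)

/-- The table over the two-element field. -/
theorem table_F (hq : Fintype.card F = 2) (T : Matrix (Fin 3) (Fin 3) F) (hdet : T.det = 1) (hne : T ≠ 1) :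
    ∃ D X Xi : Matrix (Fin 3) (Fin 3) F, Cub1 (T * D) ∧ X * Xi = 1 ∧
      ((Cub1 D ∧ X * D = T * D * X) ∨ (Cub2 D ∧ T * D * X * Dᵀ = X)) := by
  classical
  haveI : Fact (Nat.Prime 2) := ⟨Nat.prime_two⟩
  have h2 : (2 : F) = 0 := two_eq_zero_of_card hq
  haveI : CharP F 2 := by
    haveI := Fintype.one_lt_card_iff_nontrivial.2 (inferInstance : Nontrivial F)
    exact CharTwo.of_one_ne_zero_of_two_eq_zero one_ne_zero h2
  let φ : ZMod 2 ≃+* F := ZMod.ringEquivOfPrime F Nat.prime_two hq
  let Φ : M3 ≃+* Matrix (Fin 3) (Fin 3) F := φ.mapMatrix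
  set T₀ : M3 := Φ.symm T with hT₀
  have hΦT : Φ T₀ = T := by simp [hT₀]
  have hd0 : T₀.det = 1 := by
    apply φ.injective
    have : φ T₀.det = (Φ T₀).det := RingHom.map_det (φ : ZMod 2 →+* F) T₀
    rw [this, hΦT, hdet, map_one]
  have hne0 : T₀ ≠ 1 := by
    intro h
    apply hne
    rw [← hΦT, h, map_one]
  obtain ⟨D, X, Xi, h1, h3, h4⟩ := table3 T₀ hd0 hne0
  have hΦt : ∀ A : M3, Φ Aᵀ = (Φ A)ᵀ := fun A => by
    ext i j
    rfl
  refine ⟨Φ D, Φ X, Φ Xi, ?_, ?_, ?_⟩
  · have := congrArg Φ h1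
    simp only [Cub1, map_add, map_mul, map_one, map_zero, hΦT] at this ⊢
    exact this
  · rw [← map_mul, h3, map_one]
  · rcases h4 with ⟨h5, h6⟩ | ⟨h5, h6⟩
    · left
      refine ⟨?_, ?_⟩
      · have := congrArg Φ h5
        simp only [Cub1, map_add, map_mul, map_one, map_zero] at this ⊢
        exact this
      · have := congrArg Φ h6
        simp only [map_mul, hΦT] at this
        exact this
    · right
      refine ⟨?_, ?_⟩
      · have := congrArg Φ h5
        simp only [Cub2, map_add, map_mul, map_one, map_zero] at this ⊢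
        exact this
      · have := congrArg Φ h6
        simp only [map_mul, hΦT, hΦt] at this
        exact this

section Cubic

variable {n : Type} [Fintype n] [DecidableEq n]

theorem cub1_inv (h2 : (2 : F) = 0) {Y : Matrix n n F} (h : Cub1 Y) : Y * (Y * Y + 1) = 1 := by
  have h3 : Y * (Y * Y + 1) = Y * Y * Y + Y := by rw [Matrix.mul_add, Matrix.mul_one, Matrix.mul_assoc]
  rw [h3]
  have h4 : Y * Y * Y + Y = -1 := eq_neg_of_add_eq_zero_left h
  rw [h4]
  exact neg_eq_of_add_eq_zero_left (mat_add_self h2 1)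

theorem cub2_inv (h2 : (2 : F) = 0) {Y : Matrix n n F} (h : Cub2 Y) : Y * (Y * Y + Y) = 1 := by
  have h3 : Y * (Y * Y + Y) = Y * Y * Y + Y * Y := by rw [Matrix.mul_add, Matrix.mul_assoc]
  rw [h3]
  have h4 : Y * Y * Y + Y * Y = -1 := eq_neg_of_add_eq_zero_left h
  rw [h4]
  exact neg_eq_of_add_eq_zero_left (mat_add_self h2 1)

theorem cub1_transpose {Y : Matrix n n F} (h : Cub1 Y) : Cub1 Yᵀ := by
  unfold Cub1 at h ⊢
  have := congrArg Matrix.transpose h
  simp only [transpose_add, transpose_mul, transpose_one, transpose_zero] at this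
  rw [← this]
  simp only [Matrix.mul_assoc]

theorem cub2_transpose {Y : Matrix n n F} (h : Cub2 Y) : Cub2 Yᵀ := by
  unfold Cub2 at h ⊢
  have := congrArg Matrix.transpose h
  simp only [transpose_add, transpose_mul, transpose_one, transpose_zero] at this
  rw [← this]
  simp only [Matrix.mul_assoc]

/-- A cubic relation. -/
def CubY (Y : Matrix n n F) : Prop := Cub1 Y ∨ Cub2 Y

theorem CubY.transpose {Y : Matrix n n F} (h : CubY Y) : CubY Yᵀ := h.imp cub1_transpose cub2_transpose

theorem CubY.rect (h2 : (2 : F) = 0) {Y : Matrix n n F} (h : CubY Y) {k : Type} [Fintype k]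
    (c : Matrix k n F) (hc : c * Y = c) : c = 0 := by
  have h1 : c * (Y * Y) = c := by rw [← Matrix.mul_assoc, hc, hc]
  have h3 : c * (Y * Y * Y) = c := by rw [← Matrix.mul_assoc, h1, hc]
  have h5 : c + c = 0 := by
    ext i j
    simp only [Matrix.add_apply, Matrix.zero_apply]
    linear_combination (c i j) * h2
  rcases h with h | h
  · have := congrArg (fun M => c * M) h
    simp only [Matrix.mul_add, Matrix.mul_one, Matrix.mul_zero, h3, hc] at this
    rwa [h5, zero_add] at this
  · have := congrArg (fun M => c * M) h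
    simp only [Matrix.mul_add, Matrix.mul_one, Matrix.mul_zero, h3, h1] at this
    rwa [h5, zero_add] at this

theorem CubY.vec (h2 : (2 : F) = 0) {Y : Matrix n n F} (h : CubY Y) (v : n → F) (hv : Y *ᵥ v = v) : v = 0 := by
  have h1 : (Y * Y) *ᵥ v = v := by rw [← mulVec_mulVec, hv, hv]
  have h3 : (Y * Y * Y) *ᵥ v = v := by rw [← mulVec_mulVec, hv, h1]
  have h5 : v + v = 0 := by
    ext i
    simp only [Pi.add_apply, Pi.zero_apply]
    linear_combination (v i) * h2
  rcases h with h | h
  · have := congrArg (fun M => M *ᵥ v) h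
    simp only [Matrix.add_mulVec, Matrix.one_mulVec, Matrix.zero_mulVec, h3, hv] at this
    rwa [h5, zero_add] at this
  · have := congrArg (fun M => M *ᵥ v) h
    simp only [Matrix.add_mulVec, Matrix.one_mulVec, Matrix.zero_mulVec, h3, h1] at this
    rwa [h5, zero_add] at this

theorem CubY.exists_inv (h2 : (2 : F) = 0) {Y : Matrix n n F} (h : CubY Y) : ∃ Z, Y * Z = 1 := by
  rcases h with h | h
  · exact ⟨_, cub1_inv h2 h⟩
  · exact ⟨_, cub2_inv h2 h⟩

end Cubic

/-- The dual vector of an alternating matrix of size three. -/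
def crs (A : Matrix (Fin 3) (Fin 3) F) : Fin 3 → F := ![A 2 1, A 0 2, A 1 0]

theorem crs_identity (Y A : Matrix (Fin 3) (Fin 3) F) (hA : IsAltM A) :
    Yᵀ *ᵥ crs (Y * A * Yᵀ) = Y.det • crs A := by
  have d0 := hA.diag 0
  have d1 := hA.diag 1
  have d2 := hA.diag 2
  have s01 := hA.skew 0 1
  have s02 := hA.skew 0 2
  have s12 := hA.skew 1 2
  ext i
  fin_cases i <;>
  · simp [crs, Matrix.mulVec, dotProduct, Fin.sum_univ_three, Matrix.mul_apply, Matrix.transpose_apply, Matrix.det_fin_three,
      d0, d1, d2, s01, s02, s12]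
    ring

theorem alt3_fix (hq : Fintype.card F = 2) (Y : Matrix (Fin 3) (Fin 3) F) (hY : CubY Y) (A : Matrix (Fin 3) (Fin 3) F) (hA : IsAltM A)
    (hfix : Y * A * Yᵀ = A) : A = 0 := by
  have h2 : (2 : F) = 0 := two_eq_zero_of_card hq
  obtain ⟨Z, hZ⟩ := hY.exists_inv h2
  have hdet : Y.det = 1 := by
    have h3 : Y.det * Z.det = 1 := by rw [← Matrix.det_mul, hZ, Matrix.det_one]
    rcases elt_two hq Y.det with h4 | h4
    · rw [h4, zero_mul] at h3
      exact absurd h3 zero_ne_one
    · exact h4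
  have h3 := crs_identity Y A hA
  rw [hfix, hdet, one_smul] at h3
  have h4 := hY.transpose.vec h2 _ h3
  have e0 : A 2 1 = 0 := by simpa [crs] using congrFun h4 0
  have e1 : A 0 2 = 0 := by simpa [crs] using congrFun h4 1
  have e2 : A 1 0 = 0 := by simpa [crs] using congrFun h4 2
  ext i j
  have d0 := hA.diag 0
  have d1 := hA.diag 1
  have d2 := hA.diag 2
  have s01 := hA.skew 0 1
  have s02 := hA.skew 0 2
  have s12 := hA.skew 1 2
  have e3 : A 2 0 = 0 := by
    rw [e1] at s02
    simpa using s02.symm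
  fin_cases i <;> fin_cases j <;> simp [d0, d1, d2, s01, s02, s12, e0, e1, e2, e3]

end Cfsg.Agent.Lib.OreMinus
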