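import Mathlib
import Cfsg.Agent.Lib.OreMinus.Two

/-!
# The field with two elements: the supply in rank three
-/

set_option autoImplicit false
set_option linter.unusedSectionVars false
set_option linter.unusedSimpArgs false
set_option linter.unusedVariables false

namespace Cfsg.Agent.Lib.OreMinus

open Matrix QuadraticMap Module
open Cfsg.Agent.Lib.Classical.Orth.Basic
open Cfsg.Agent.Lib.Classical.Orth.Models
open Cfsg.Agent.Lib.Classical.Orth.Sum
open Cfsg.Agent.Lib.Classical.Orth.NegPairs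
open Cfsg.Agent.Lib.Classical.Orth.Levi
open Cfsg.Agent.Lib.OreOmega (IsAltM mem_commutator_of_fpf)

variable {F : Type*} [Field F] [Fintype F] {Q₀ : QuadraticForm F (W2 F)} {m : ℕ}

/-- A unit from a right inverse. -/
def mkGL {n : Type} [Fintype n] [DecidableEq n] (M N : Matrix n n F) (h : M * N = 1) : GL n F :=
  ⟨M, N, h, mul_eq_one_comm.1 h⟩

@[simp] theorem mkGL_coe {n : Type} [Fintype n] [DecidableEq n] (M N : Matrix n n F) (h : M * N = 1) :
    (mkGL M N h : Matrix n n F) = M := rfl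

/-- The dual element of the general linear group. -/
noncomputable def dualG {n : Type} [Fintype n] [DecidableEq n] (D : GL n F) : GL n F :=
  ⟨((D⁻¹ : GL n F) : Matrix n n F)ᵀ, (D : Matrix n n F)ᵀ,
    by rw [← transpose_mul, Units.mul_inv]; simp,
    by rw [← transpose_mul, Units.inv_mul]; simp⟩

theorem isSquare_two (hq : Fintype.card F = 2) (x : F) : IsSquare x := by
  rcases elt_two hq x with h | h
  · rw [h]; exact IsSquare.zero
  · rw [h]; exact IsSquare.one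

/-- The swap of the two isotropic summands. -/
theorem exists_weyl [CharP F 2] (hQ : Aniso Q₀) :
    ∃ W : OM Q₀ 3, ∃ r : O2 Q₀, W ∈ OmM Q₀ 3 ∧ ∀ x z y, act W (mkM x z y) = mkM y (act r z) x := by
  classical
  set l := List.finRange 3 with hl
  have hnd : l.Nodup := List.nodup_finRange 3
  set vs0 := l.map (fun i : Fin 3 => (Pi.single (Sum.inl i) 1 - Pi.single (Sum.inr i) 1 : Fin 3 ⊕ Fin 3 → F)) with hvs0def
  have hvs0 : ∀ v ∈ vs0, plusForm 3 F v ≠ 0 := by
    intro v hv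
    obtain ⟨i, -, rfl⟩ := List.mem_map.1 hv
    rw [(plus_isHypPair 3 i).Q_sub]
    exact neg_ne_zero.2 one_ne_zero
  obtain ⟨g₀, hg₀⟩ := exists_iso_of_list (plusForm 3 F) vs0 hvs0
  set u : W2 F := Pi.single 0 1 with hu
  have hu0 : Q₀ u ≠ 0 := by
    intro h
    have := hQ.ani u h
    have h1 := congrFun this 0
    simp [hu] at h1
  refine ⟨blockHom _ _ (g₀, reflectionIso Q₀ u hu0), reflectionIso Q₀ u hu0, ?_, ?_⟩
  · rw [mem_omega_iff_list_char_two (QM_nondegenerate hQ) (Or.inr (by simp))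
      (vs0.map (liftL : _ → (Fin 3 ⊕ Fin 3) ⊕ Fin 2 → F) ++ [liftR u]) ?_ _ ?_]
    · simp [hvs0def, hl]
      decide
    · intro v hv
      rcases List.mem_append.1 hv with h1 | h1
      · obtain ⟨w, hw, rfl⟩ := List.mem_map.1 h1
        rw [sumForm_liftL]
        exact hvs0 w hw
      · rw [List.mem_singleton.1 h1, sumForm_liftR]
        exact hu0
    · rw [blockHom_coe, List.map_append, List.prod_append, prod_lift, hg₀, List.map_singleton, List.prod_singleton,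
        reflection_liftR, fromBlocks_multiply]
      simp
  · intro x z y
    have hg := prod_reflection_swap l hnd (Sum.elim x y : Fin 3 ⊕ Fin 3 → F)
    rw [← hvs0def, ← hg₀] at hg
    show (fromBlocks _ 0 0 _) *ᵥ (Sum.elim (Sum.elim x y) z) = _
    rw [fromBlocks_mulVec]
    simp only [mulVec_zero, add_zero, zero_add, zero_mulVec, Sum.elim_comp_inl, Sum.elim_comp_inr]
    rw [hg]
    have hmem : ∀ k : Fin 3 ⊕ Fin 3, idx k ∈ l := fun k => List.mem_finRange _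
    ext k
    rcases k with (i | i) | i
    · show (if idx (Sum.inl i : Fin 3 ⊕ Fin 3) ∈ l then _ else _) = y i
      rw [if_pos (hmem _)]
      rfl
    · show (if idx (Sum.inr i : Fin 3 ⊕ Fin 3) ∈ l then _ else _) = x i
      rw [if_pos (hmem _)]
      rfl
    · rfl

/-- The Weyl element dualizes the Levi elements. -/
theorem weyl_conj {W : OM Q₀ m} {r : O2 Q₀} (hW : ∀ x z y, act W (mkM x z y) = mkM y (act r z) x) (D : GL (Fin m) F) :
    W * lev Q₀ m (D, 1) * W⁻¹ = lev Q₀ m (dualG D, 1) := by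
  rw [mul_inv_eq_iff_eq_mul]
  apply ext_act
  intro v
  rw [← mkM_eta v]
  have e1 : act (W * lev Q₀ m (D, 1)) (mkM (xc v) (zc v) (yc v)) = act W (act (lev Q₀ m (D, 1)) (mkM (xc v) (zc v) (yc v))) := act_mul _ _ _
  have e2 : act (lev Q₀ m (dualG D, 1) * W) (mkM (xc v) (zc v) (yc v)) = act (lev Q₀ m (dualG D, 1)) (act W (mkM (xc v) (zc v) (yc v))) := act_mul _ _ _
  rw [e1, e2, hW, act_lev, act_lev]
  simp only [xc_mkM, zc_mkM, yc_mkM, hW]
  have e3 : ∀ z : W2 F, act (1 : O2 Q₀) z = z := fun z => act_one z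
  rw [e3, e3]
  rfl

/-- **The supply for `m = 3`, `q = 2`.** -/
theorem supply_three (hq : Fintype.card F = 2) (hQ : Aniso Q₀) : Supply 3 Q₀ := by
  classical
  have h2 : (2 : F) = 0 := two_eq_zero_of_card hq
  haveI : CharP F 2 := by
    exact CharTwo.of_one_ne_zero_of_two_eq_zero one_ne_zero h2
  have fpfB : ∀ B : GL (Fin 3) F, CubY (B : Matrix (Fin 3) (Fin 3) F) → ∀ q ∈ QT Q₀ 3,
      lev Q₀ 3 (B, 1) * q * (lev Q₀ 3 (B, 1))⁻¹ = q → q = 1 := by
    intro B hB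
    refine fpf_QT hQ B 1 (fun c hc => ?_) (fun A hA h => ?_)
    · refine hB.rect h2 c ?_
      rw [← hc]
      show (1 : Matrix (Fin 2) (Fin 2) F) * c = c
      rw [Matrix.one_mul]
    · exact alt3_fix hq _ hB.transpose A hA (by rwa [transpose_transpose])
  have fpfD : ∀ D : GL (Fin 3) F, CubY (D : Matrix (Fin 3) (Fin 3) F) → ∀ q ∈ QW Q₀ 3,
      lev Q₀ 3 (D, 1) * q * (lev Q₀ 3 (D, 1))⁻¹ = q → q = 1 := by
    intro D hD
    refine fpf_QW hQ D 1 (fun c hc => ?_) (fun A hA h => ?_)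
    · refine hD.transpose.rect h2 c ?_
      have e : ((1 : O2 Q₀) : GL (Fin 2) F).val = (1 : Matrix (Fin 2) (Fin 2) F) := rfl
      rw [e, Matrix.one_mul] at hc
      exact hc
    · exact alt3_fix hq _ hD A hA h
  have hmem : ∀ D : GL (Fin 3) F, lev Q₀ 3 (D, 1) ∈ OmM Q₀ 3 := fun D =>
    (lev_one_mem_iff le_rfl hQ D).2 (isSquare_two hq _)
  -- a Singer element
  have hS : ∃ S : GL (Fin 3) F, CubY (S : Matrix (Fin 3) (Fin 3) F) := by
    have hne : (!![1, 1, 0; 0, 1, 0; 0, 0, 1] : Matrix (Fin 3) (Fin 3) F) ≠ 1 := by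
      intro h
      have := congrFun (congrFun h 0) 1
      simp at this
    obtain ⟨D, X, Xi, h1, -, -⟩ := table_F hq _ (by simp [Matrix.det_fin_three]) hne
    exact ⟨mkGL _ _ (cub1_inv h2 h1), Or.inl h1⟩
  obtain ⟨S, hS⟩ := hS
  haveI : Finite ↥(QT Q₀ 3) := inferInstance
  haveI : Finite ↥(QW Q₀ 3) := inferInstance
  refine ⟨?_, ?_, ?_⟩
  · intro q hq'
    exact mem_commutator_of_fpf (QW Q₀ 3) (lev Q₀ 3 (S, 1)) (fun q hq => lev_conj_mem_QW S 1 hq)
      (fpfD S hS) q hq'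
  · intro q hq'
    exact mem_commutator_of_fpf (QT Q₀ 3) (lev Q₀ 3 (S, 1)) (fun q hq => lev_conj_mem_QT S 1 hq)
      (fpfB S hS) q hq'
  · intro T hT1 hT2
    have hT3 : (T : Matrix (Fin 3) (Fin 3) F) ≠ 1 := by
      intro h
      exact hT2 ⟨1, by rw [h, one_smul]⟩
    obtain ⟨D, X, Xi, h1, h3, h4⟩ := table_F hq _ hT1 hT3
    set BG : GL (Fin 3) F := mkGL _ _ (cub1_inv h2 h1) with hBG
    have hBc : CubY (BG : Matrix (Fin 3) (Fin 3) F) := Or.inl h1
    have hDc : CubY D := h4.imp (fun h => h.1) (fun h => h.1)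
    obtain ⟨Z, hZ⟩ := hDc.exists_inv h2
    set DG : GL (Fin 3) F := mkGL D Z hZ with hDG
    set XG : GL (Fin 3) F := mkGL X Xi h3 with hXG
    have hTDB : T * DG = BG := Units.ext rfl
    have hcommon : lev Q₀ 3 (BG, 1) * (lev Q₀ 3 (DG, 1))⁻¹ = lev Q₀ 3 (T, 1) := by
      rw [← map_inv, ← map_mul]
      congr 1
      simp [← hTDB]
    rcases h4 with ⟨h5, h6⟩ | ⟨h5, h6⟩
    · have hXDB : XG * DG * XG⁻¹ = BG := by
        rw [mul_inv_eq_iff_eq_mul]
        exact Units.ext h6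
      refine ⟨lev Q₀ 3 (BG, 1), lev Q₀ 3 (DG, 1), lev Q₀ 3 (XG, 1), hcommon, ?_, hmem _, hmem _,
        fun q hq => lev_conj_mem_QT BG 1 hq, fpfB BG hBc, fun q hq => lev_conj_mem_QW DG 1 hq, fpfD DG (Or.inl h5)⟩
      rw [← map_inv, ← map_mul, ← map_mul]
      congr 1
      simp [hXDB]
    · obtain ⟨W, r, hWΩ, hW⟩ := exists_weyl hQ
      have hXDB : XG * dualG DG * XG⁻¹ = BG := by
        rw [mul_inv_eq_iff_eq_mul]
        apply Units.ext
        show X * ((DG⁻¹ : GL (Fin 3) F) : Matrix (Fin 3) (Fin 3) F)ᵀ = T * D * X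
        have e1 : (D)ᵀ * ((DG⁻¹ : GL (Fin 3) F) : Matrix (Fin 3) (Fin 3) F)ᵀ = 1 := by
          rw [← transpose_mul]
          have : ((DG⁻¹ : GL (Fin 3) F) : Matrix (Fin 3) (Fin 3) F) * D = 1 := Units.inv_mul DG
          rw [this, transpose_one]
        calc X * ((DG⁻¹ : GL (Fin 3) F) : Matrix (Fin 3) (Fin 3) F)ᵀ
            = (T * D * X * Dᵀ) * ((DG⁻¹ : GL (Fin 3) F) : Matrix (Fin 3) (Fin 3) F)ᵀ := by rw [h6]
          _ = T * D * X * (Dᵀ * ((DG⁻¹ : GL (Fin 3) F) : Matrix (Fin 3) (Fin 3) F)ᵀ) := by rw [Matrix.mul_assoc]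
          _ = T * D * X := by rw [e1, Matrix.mul_one]
      refine ⟨lev Q₀ 3 (BG, 1), lev Q₀ 3 (DG, 1), lev Q₀ 3 (XG, 1) * W, hcommon, ?_, hmem _,
        Subgroup.mul_mem _ (hmem _) hWΩ,
        fun q hq => lev_conj_mem_QT BG 1 hq, fpfB BG hBc, fun q hq => lev_conj_mem_QW DG 1 hq, fpfD DG (Or.inr h5)⟩
      have e1 := weyl_conj hW DG
      calc lev Q₀ 3 (XG, 1) * W * lev Q₀ 3 (DG, 1) * (lev Q₀ 3 (XG, 1) * W)⁻¹
          = lev Q₀ 3 (XG, 1) * (W * lev Q₀ 3 (DG, 1) * W⁻¹) * (lev Q₀ 3 (XG, 1))⁻¹ := by group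
        _ = lev Q₀ 3 (XG, 1) * lev Q₀ 3 (dualG DG, 1) * (lev Q₀ 3 (XG, 1))⁻¹ := by rw [e1]
        _ = lev Q₀ 3 (BG, 1) := by
          rw [← map_inv, ← map_mul, ← map_mul]
          congr 1
          simp [hXDB]

end Cfsg.Agent.Lib.OreMinus
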