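import Mathlib
import Cfsg.Agent.Lib.OreMinus.Two2

/-!
# The field with two elements: the supply in rank at least four
-/

set_option autoImplicit false
set_option linter.unusedSectionVars false
set_option linter.unusedSimpArgs false
set_option linter.unusedVariables false

namespace Cfsg.Agent.Lib.OreMinus

open Matrix QuadraticMap Module
open Cfsg.Agent.Lib.Classical.Orth.Basic
open Cfsg.Agent.Lib.Classical.Orth.Models
open Cfsg.Agent.Lib.Classical.Orth.Sum

variable {F : Type*} [Field F] [Fintype F] {m : ℕ}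

theorem binQ_two (hq : Fintype.card F = 2) {a b : F}
    (hab : ∀ z₁ z₂ : F, z₁ ^ 2 + a * z₁ * z₂ + b * z₂ ^ 2 = 0 → z₁ = 0 ∧ z₂ = 0) : a = 1 ∧ b = 1 := by
  have h2 : (2 : F) = 0 := two_eq_zero_of_card hq
  have hb : b = 1 := by
    rcases elt_two hq b with h | h
    · exfalso
      have := (hab 0 1 (by simp [h])).2
      exact one_ne_zero this
    · exact h
  refine ⟨?_, hb⟩
  rcases elt_two hq a with h | h
  · exfalso
    have := (hab 1 1 (by rw [h, hb]; linear_combination h2)).2
    exact one_ne_zero this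
  · exact h

/-- The supply for the field with two elements and `m ≥ 4`. -/
theorem supply_two_big (hq : Fintype.card F = 2) (hm : 4 ≤ m) {a b : F}
    (hab : ∀ z₁ z₂ : F, z₁ ^ 2 + a * z₁ * z₂ + b * z₂ ^ 2 = 0 → z₁ = 0 ∧ z₂ = 0) : Supply m (binQ a b) := by
  classical
  have hQ := aniso_binQ a b hab
  obtain ⟨rfl, rfl⟩ := binQ_two hq hab
  have h2 : (2 : F) = 0 := two_eq_zero_of_card hq
  let Mt : Matrix (Fin 2) (Fin 2) F := !![0, 1; 1, 1]
  let Mti : Matrix (Fin 2) (Fin 2) F := !![1, 1; 1, 0]
  let Mr : Matrix (Fin 2) (Fin 2) F := !![0, 1; 1, 0]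
  have h1 : Mt * Mti = 1 := by
    ext i j
    fin_cases i <;> fin_cases j <;> simp [Mt, Mti, Matrix.mul_apply, Fin.sum_univ_two] <;> linear_combination h2
  have h3 : Mr * Mr = 1 := by
    ext i j
    fin_cases i <;> fin_cases j <;> simp [Mr, Matrix.mul_apply, Fin.sum_univ_two]
  have hmt : ∀ x : W2 F, (binQ 1 1) (Mt *ᵥ x) = binQ 1 1 x := by
    intro x
    rw [binQ_apply, binQ_apply]
    simp [Mt, Matrix.mulVec, dotProduct, Fin.sum_univ_two]
    linear_combination (x 0 * x 1 + x 1 ^ 2) * h2
  have hmr : ∀ x : W2 F, (binQ 1 1) (Mr *ᵥ x) = binQ 1 1 x := by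
    intro x
    rw [binQ_apply, binQ_apply]
    simp [Mr, Matrix.mulVec, dotProduct, Fin.sum_univ_two]
    ring
  let t : O2 (binQ (1 : F) 1) := ⟨mkGL Mt Mti h1, (mem_isometryGroup_iff _ _).2 hmt⟩
  let r : O2 (binQ (1 : F) 1) := ⟨mkGL Mr Mr h3, (mem_isometryGroup_iff _ _).2 hmr⟩
  have ht0 : Mt * Mt + Mt + 1 = 0 := by
    ext i j
    fin_cases i <;> fin_cases j <;> simp [Mt, Matrix.mul_apply, Fin.sum_univ_two] <;>
      first
        | linear_combination h2
        | linear_combination (-1 : F) * h2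
        | linear_combination (2 : F) * h2
        | linear_combination (-2 : F) * h2
  have hrt : r * t = t * t * r := by
    apply Subtype.ext
    apply Units.ext
    show Mr * Mt = Mt * Mt * Mr
    ext i j
    fin_cases i <;> fin_cases j <;> simp [Mt, Mr, Matrix.mul_apply, Fin.sum_univ_two] <;>
      first
        | linear_combination h2
        | linear_combination (-1 : F) * h2
        | linear_combination (2 : F) * h2
        | linear_combination (-2 : F) * h2
  have hcomm : r * t * r⁻¹ * t⁻¹ = t := by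
    rw [hrt]
    group
  have hmem : lev (binQ (1 : F) 1) m (1, t) ∈ OmM (binQ (1 : F) 1) m := by
    have e : lev (binQ (1 : F) 1) m (1, t) = lev (binQ (1 : F) 1) m (1, r) * lev (binQ (1 : F) 1) m (1, t) *
        (lev (binQ (1 : F) 1) m (1, r))⁻¹ * (lev (binQ (1 : F) 1) m (1, t))⁻¹ := by
      rw [← map_inv, ← map_inv, ← map_mul, ← map_mul, ← map_mul]
      congr 1
      simp [hcomm]
    rw [e]
    exact Subgroup.commutator_mem_commutator (Subgroup.mem_top _) (Subgroup.mem_top _)
  exact supply_two hq hm hQ t ht0 hmem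

end Cfsg.Agent.Lib.OreMinus
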