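import Mathlib
import Cfsg.Agent.Lib.OreMinus.Two3
import Cfsg.Agent.Lib.OreMinus.Neg4
import Cfsg.Agent.Lib.Classical.Orth.Center
import Cfsg.Agent.Lib.Classical.Orth.NegPairs

/-!
# Every element of `Ω⁻_{2(m+1)}(q)` is a commutator
-/

set_option autoImplicit false
set_option linter.unusedSectionVars false
set_option linter.unusedSimpArgs false
set_option linter.unusedVariables false

namespace Cfsg.Agent.Lib.OreMinus

open Matrix QuadraticMap Module
open Cfsg.Agent.Lib.Classical.Orth.Basic
open Cfsg.Agent.Lib.Classical.Orth.NegPairs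
open Cfsg.Agent.Lib.Classical.Orth.Center

variable {F : Type*} [Field F] [Fintype F] {m : ℕ}

theorem odd_pow_mod_four {q n : ℕ} (hq : Odd q) (h : q ^ (n + 1) % 4 = 3) : q % 4 = 3 ∧ Even n := by
  have h1 : q % 4 = 1 ∨ q % 4 = 3 := by
    obtain ⟨k, rfl⟩ := hq
    omega
  rw [Nat.pow_mod] at h
  rcases h1 with h1 | h1
  · rw [h1, one_pow] at h
    omega
  · refine ⟨h1, ?_⟩
    rw [h1] at h
    by_contra hn
    have hn' : Odd n := Nat.not_even_iff_odd.1 hn
    obtain ⟨j, rfl⟩ := hn'
    have : 3 ^ (2 * j + 1 + 1) = 9 ^ (j + 1) := by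
      rw [show 2 * j + 1 + 1 = 2 * (j + 1) by ring, pow_mul]
      norm_num
    rw [this, Nat.pow_mod] at h
    norm_num at h

/-- The supply for all fields. -/
theorem exists_supply (hm : 3 ≤ m) (a b : F)
    (hab : ∀ z₁ z₂ : F, z₁ ^ 2 + a * z₁ * z₂ + b * z₂ ^ 2 = 0 → z₁ = 0 ∧ z₂ = 0) : Supply m (binQ a b) := by
  have hQ := aniso_binQ a b hab
  by_cases hq : Fintype.card F = 2
  · rcases Nat.lt_or_ge m 4 with h | h
    · obtain rfl : m = 3 := by omega
      exact supply_three hq hQ
    · exact supply_two_big hq h hab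
  · have h1 : 1 < Fintype.card F := Fintype.one_lt_card
    exact supply_big (by omega) hm hQ

/-- **Every element of `Ω⁻_{2(m+1)}(q)` is a commutator of elements of that group.** -/
theorem ore_omega_minus (hm : 3 ≤ m) (a b : F)
    (hab : ∀ z₁ z₂ : F, z₁ ^ 2 + a * z₁ * z₂ + b * z₂ ^ 2 = 0 → z₁ = 0 ∧ z₂ = 0)
    (g : OM (binQ a b) m) (hgΩ : g ∈ OmM (binQ a b) m) :
    ∃ x ∈ OmM (binQ a b) m, ∃ y ∈ OmM (binQ a b) m, g = x * y * x⁻¹ * y⁻¹ := by
  classical
  have hQ := aniso_binQ a b hab
  have hS := exists_supply hm a b hab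
  by_cases hsc : ∃ s : F, ∀ x, act g x = s • x
  · obtain ⟨s, hs⟩ := hsc
    have hone : s = 1 → ∃ x ∈ OmM (binQ a b) m, ∃ y ∈ OmM (binQ a b) m, g = x * y * x⁻¹ * y⁻¹ := by
      intro h
      refine ⟨1, Subgroup.one_mem _, 1, Subgroup.one_mem _, ?_⟩
      simp only [mul_one, inv_one]
      apply ext_act
      intro x
      rw [hs, h, one_smul, act_one]
    have hne : Nonempty (IM m) := ⟨Sum.inr 0⟩
    rcases scalar_eq_one_or_neg (QM_nondegenerate hQ) hne hs with h | h
    · exact hone h
    · by_cases h2 : (2 : F) = 0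
      · exact hone (by rw [h]; linear_combination (-1 : F) * h2)
      · have hne2 : ringChar F ≠ 2 := by
          intro h3
          apply h2
          have := ringChar.Nat.cast_ringChar (R := F)
          rw [h3] at this
          exact_mod_cast this
        have hqodd : Odd (Fintype.card F) := Nat.odd_iff.2 (FiniteField.odd_card_of_char_ne_two hne2)
        have hcrit := minus_neg_one_iff (F := F) rfl hqodd m a b hab
        rw [← coe_QM_binQ m a b] at hcrit
        have hmat : ((g : GL (IM m) F) : Matrix (IM m) (IM m) F) = -1 := by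
          apply Matrix.ext_of_mulVec_single
          intro j
          have := hs (Pi.single j 1)
          rw [h] at this
          show act g _ = _
          rw [this, neg_mulVec, one_mulVec, neg_one_smul]
        obtain ⟨h4, h5⟩ := odd_pow_mod_four hqodd (hcrit.1 ⟨g, hgΩ, hmat⟩)
        have hsq : ¬ IsSquare (-1 : F) := by
          rw [FiniteField.isSquare_neg_one_iff]
          simpa using h4
        obtain ⟨j, hj⟩ := h5
        obtain ⟨k, rfl⟩ : ∃ k, m = 2 + k := ⟨m - 2, by omega⟩
        have hke : Even k := ⟨j - 1, by omega⟩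
        exact ore_neg_lift (by omega) hke hQ h2 hsq hm g (fun x => by rw [hs, h, neg_one_smul])
  · exact ore_main hm hQ hS g hgΩ hsc

end Cfsg.Agent.Lib.OreMinus
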